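import Mathlib
import Cfsg.Agent.Lib.Helper44.MFldStmt
import Cfsg.Agent.Lib.Helper45.MinusInndiag

set_option autoImplicit false

/-! Piece [NO] of S2737: in odd characteristic, semisimilarities of the minus form normalise
`Inndiag(PΩ⁻)` (relative to the piece `SemiConj`). -/

namespace Cfsg.Agent.Lib.Helper69.MFldNO

open Matrix Module QuadraticMap
open Cfsg.Agent.Lib.Helper45.OmegaAut Cfsg.Agent.Lib.Helper43.H90Fin
open Cfsg.Agent.Lib.Helper44.MFld0 Cfsg.Agent.Lib.Helper44.MaxTS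
  Cfsg.Agent.Lib.Helper44.NegPairs Cfsg.Agent.Lib.Helper44.QSpace
  Cfsg.Agent.Lib.Helper44.QClass
open Cfsg.Agent.Lib.Helper44.MFldStmt
open Cfsg.Agent.Lib.Helper45.OmegaAutPsi Cfsg.Agent.Lib.Helper45.OmegaAutMain
  Cfsg.Agent.Lib.Helper45.OmegaInndiag Cfsg.Agent.Lib.Helper45.MinusInndiag
  Cfsg.Agent.Lib.Helper45.SemiAut

universe u

/-- conjugating by a semilinear map: the determinant -/
theorem det_conj {F : Type u} [Field F] {ι : Type} [Fintype ι] [DecidableEq ι]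
    (g s s' : GL ι F) (τ : F ≃+* F)
    (hs' : s' = g * Matrix.GeneralLinearGroup.map (τ : F →+* F) s * g⁻¹) :
    (s' : Matrix ι ι F).det = τ ((s : Matrix ι ι F).det) := by
  rw [hs', Units.val_mul, Units.val_mul, Matrix.det_mul, Matrix.det_mul]
  have h1 : ((g : Matrix ι ι F)).det * ((g⁻¹ : GL ι F) : Matrix ι ι F).det = 1 := by
    rw [← Matrix.det_mul, ← Units.val_mul, mul_inv_cancel, Units.val_one, Matrix.det_one]
  have h2 : ((Matrix.GeneralLinearGroup.map (τ : F →+* F) s : GL ι F) : Matrix ι ι F).det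
      = τ ((s : Matrix ι ι F).det) := by
    show (((τ : F →+* F).mapMatrix (s : Matrix ι ι F))).det = _
    rw [← RingHom.map_det]
    rfl
  rw [h2]
  linear_combination (τ ((s : Matrix ι ι F).det)) * h1

/-- conjugating a similarity by a semisimilarity: the multiplier -/
theorem sim_conj {F : Type u} [Field F] {ι : Type} [Fintype ι] [DecidableEq ι]
    {Q : (ι → F) → F} {g : GL ι F} {τ : F ≃+* F} (h : Cfsg.IsSemisimilarityPair Q g τ)
    (s s' : GL ι F) (μ : F) (hs : ∀ v, Q ((s : Matrix ι ι F) *ᵥ v) = μ * Q v)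
    (hs' : s' = g * Matrix.GeneralLinearGroup.map (τ : F →+* F) s * g⁻¹) (v : ι → F) :
    Q ((s' : Matrix ι ι F) *ᵥ v) = τ μ * Q v := by
  obtain ⟨c, hc⟩ := h
  obtain ⟨w, hw⟩ : ∃ w : ι → F, w = fun k => τ.symm ((((g⁻¹ : GL ι F) : Matrix ι ι F) *ᵥ v) k) :=
    ⟨_, rfl⟩
  have hv : v = (g : Matrix ι ι F) *ᵥ (fun k => τ (w k)) := by
    rw [hw]
    simp only [RingEquiv.apply_symm_apply]
    rw [Matrix.mulVec_mulVec, ← Units.val_mul, mul_inv_cancel, Units.val_one, Matrix.one_mulVec]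
  have e1 : ((g * Matrix.GeneralLinearGroup.map (τ : F →+* F) s * g⁻¹ : GL ι F) : Matrix ι ι F) *ᵥ v
      = (g : Matrix ι ι F) *ᵥ (fun k => τ (((s : Matrix ι ι F) *ᵥ w) k)) := by
    rw [← smap_mulVec]
    conv_lhs => rw [hv]
    rw [Units.val_mul, Units.val_mul, Matrix.mulVec_mulVec, Matrix.mulVec_mulVec]
    congr 1
    rw [Matrix.mul_assoc, Matrix.mul_assoc, ← Units.val_mul, inv_mul_cancel, Units.val_one,
      Matrix.mul_one]
  have e2 : Q v = (c : F) * τ (Q w) := by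
    conv_lhs => rw [hv]
    exact hc w
  rw [hs', e1, hc, hs w, map_mul, e2]
  ring

theorem aux (hSC : SemiConj.{u}) {F : Type u} [Field F] [Fintype F] (m : ℕ) (a b : F)
    (g : GL (MI m) F) (τ : F ≃+* F)
    (h : Cfsg.IsSemisimilarityPair (⇑(minusQ m F a b)) g τ) {v₀ : MI m → F}
    (hv₀ : minusQ m F a b v₀ ≠ 0)
    (δ : MulAut (Cfsg.POmega F ⇑(minusQ m F a b))) (hδ : δ ∈ D0 (minusQ m F a b) hv₀ (m + 1)) :
    semiP g τ h * δ * (semiP g τ h)⁻¹ ∈ D0 (minusQ m F a b) hv₀ (m + 1) := by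
  obtain ⟨s, hs0, rfl⟩ := hδ
  obtain ⟨s', hs', hconj⟩ := hSC F (MI m) (⇑(minusQ m F a b)) g τ h s
  rw [hconj]
  refine ⟨s', ?_, rfl⟩
  rw [SetLike.mem_coe, mem_G0, dl_eq_one_iff] at hs0 ⊢
  have hmu : mu (minusQ m F a b) s' =
      Units.map ((τ : F →+* F) : F →* F) (mu (minusQ m F a b) s) := by
    apply mu_unique (minusQ m F a b) hv₀
    intro v
    exact sim_conj h s.1 s'.1 _ (mu_spec (minusQ m F a b) s) hs' v
  rw [det_conj g s.1 s'.1 τ hs', hs0, hmu, map_pow]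
  rfl

theorem main (hSC : SemiConj.{u}) : NormalOdd.{u} := by
  intro F _ _ m a b hab h2 g τ h δ hδ
  have hS := sep_minusQ h2 m a b hab
  have : Nontrivial ((Fin m ⊕ Fin m) ⊕ Fin 2 → F) := by
    have : Nonempty ((Fin m ⊕ Fin m) ⊕ Fin 2) := ⟨Sum.inr 0⟩
    infer_instance
  obtain ⟨v₀, hv₀⟩ := exists_ne_zero hS
  have hE := inndiag_minus_eq h2 m hab hv₀
  have hδ' : δ ∈ D0 (minusQ m F a b) hv₀ (m + 1) := by
    have h' := hδ
    rw [hE] at h'
    exact h'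
  have key := aux hSC m a b g τ h hv₀ δ hδ'
  rw [hE]
  exact key

end Cfsg.Agent.Lib.Helper69.MFldNO
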