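import Mathlib

set_option autoImplicit false

namespace Cfsg.Agent.Lib.Helper69.Small

variable {G : Type*} [Group G]

open scoped commutatorElement

theorem card_eq_relIndex_mul [Finite G] {H K : Subgroup G} (h : H ≤ K) :
    Nat.card K = H.relIndex K * Nat.card H := by
  have h1 := (H.subgroupOf K).index_mul_card
  rw [Nat.card_congr (Subgroup.subgroupOfEquivOfLe h).toEquiv] at h1
  exact h1.symm

theorem mem_centralizer_conj {a w x : G} (h : a⁻¹ * w * a ∈ Subgroup.centralizer ({x} : Set G)) :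
    w ∈ Subgroup.centralizer ({a * x * a⁻¹} : Set G) := by
  rw [Subgroup.mem_centralizer_iff] at h ⊢
  intro y hy
  rw [Set.mem_singleton_iff] at hy
  subst hy
  have h1 := h x (Set.mem_singleton x)
  calc a * x * a⁻¹ * w = a * (x * (a⁻¹ * w * a)) * a⁻¹ := by group
    _ = a * (a⁻¹ * w * a * x) * a⁻¹ := by rw [h1]
    _ = w * (a * x * a⁻¹) := by group

theorem mem_centralizer_singleton_iff {g x : G} :
    g ∈ Subgroup.centralizer ({x} : Set G) ↔ x * g = g * x := by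
  rw [Subgroup.mem_centralizer_iff]
  constructor
  · intro h; exact h x (Set.mem_singleton x)
  · intro h y hy; rw [Set.mem_singleton_iff] at hy; subst hy; exact h

theorem one_lt_index_centralizer_of_not_mem_center [Finite G] {z : G} (hz : z ∉ Subgroup.center G) :
    1 < (Subgroup.centralizer ({z} : Set G)).index := by
  have h0 : (Subgroup.centralizer ({z} : Set G)).index ≠ 0 := Subgroup.index_ne_zero_of_finite
  have h1 : (Subgroup.centralizer ({z} : Set G)).index ≠ 1 := by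
    intro h
    rw [Subgroup.index_eq_one] at h
    apply hz
    rw [Subgroup.mem_center_iff]
    intro g
    have : g ∈ Subgroup.centralizer ({z} : Set G) := by rw [h]; trivial
    exact (mem_centralizer_singleton_iff.mp this).symm
  omega

/-- Isaacs–Mann: if `x` has minimal noncentral class size and `A` is an abelian normal subgroup,
then `[x, A] ≤ Z(G)`. -/
theorem small_comm_central [Finite G] (A : Subgroup G) [A.Normal]
    (hA : ∀ a ∈ A, ∀ b ∈ A, a * b = b * a) (x : G)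
    (hmin : ∀ y : G, 1 < (Subgroup.centralizer ({y} : Set G)).index →
      (Subgroup.centralizer ({x} : Set G)).index ≤ (Subgroup.centralizer ({y} : Set G)).index)
    (a : G) (ha : a ∈ A) : x⁻¹ * (a * x * a⁻¹) ∈ Subgroup.center G := by
  classical
  by_contra hz
  set z := x⁻¹ * (a * x * a⁻¹) with hzdef
  set C := Subgroup.centralizer ({x} : Set G) with hC
  set Y := Subgroup.centralizer ({a * x * a⁻¹} : Set G) with hY
  set E := C ⊓ Y with hE
  set Z' := Subgroup.centralizer ({z} : Set G) with hZ'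
  have hzA : z ∈ A := by
    have h1 : x⁻¹ * a * x⁻¹⁻¹ ∈ A := ‹A.Normal›.conj_mem a ha x⁻¹
    have h2 : z = (x⁻¹ * a * x⁻¹⁻¹) * a⁻¹ := by rw [hzdef]; group
    rw [h2]; exact A.mul_mem h1 (A.inv_mem ha)
  have hAZ : A ≤ Z' := by
    intro b hb
    rw [hZ', mem_centralizer_singleton_iff]
    exact hA z hzA b hb
  have hEZ : E ≤ Z' := by
    intro e he
    have h1 : x * e = e * x := mem_centralizer_singleton_iff.mp he.1
    have h2 : a * x * a⁻¹ * e = e * (a * x * a⁻¹) := mem_centralizer_singleton_iff.mp he.2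
    rw [hZ', mem_centralizer_singleton_iff, hzdef]
    have h3 : x⁻¹ * e = e * x⁻¹ := by
      calc x⁻¹ * e = x⁻¹ * (e * x) * x⁻¹ := by group
        _ = x⁻¹ * (x * e) * x⁻¹ := by rw [h1]
        _ = e * x⁻¹ := by group
    calc x⁻¹ * (a * x * a⁻¹) * e = x⁻¹ * (a * x * a⁻¹ * e) := by group
      _ = x⁻¹ * (e * (a * x * a⁻¹)) := by rw [h2]
      _ = (x⁻¹ * e) * (a * x * a⁻¹) := by group
      _ = e * x⁻¹ * (a * x * a⁻¹) := by rw [h3]
      _ = e * (x⁻¹ * (a * x * a⁻¹)) := by group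
  have hEC : E ≤ C := inf_le_left
  have hm : C.index ≤ Z'.index := hmin z (one_lt_index_centralizer_of_not_mem_center hz)
  -- cardinalities
  have c1 : Nat.card Z' = E.relIndex Z' * Nat.card E := card_eq_relIndex_mul hEZ
  have c2 : Nat.card C = E.relIndex C * Nat.card E := card_eq_relIndex_mul hEC
  have c3 : Nat.card Z' ≤ Nat.card C := by
    have e1 := Z'.card_mul_index
    have e2 := C.card_mul_index
    have hpos : 0 < Nat.card Z' := Nat.card_pos
    have hCi : 0 < C.index := Nat.pos_of_ne_zero Subgroup.index_ne_zero_of_finite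
    by_contra hlt
    push Not at hlt
    have : Nat.card C * C.index < Nat.card Z' * Z'.index := by
      calc Nat.card C * C.index < Nat.card Z' * C.index := Nat.mul_lt_mul_of_pos_right hlt hCi
        _ ≤ Nat.card Z' * Z'.index := Nat.mul_le_mul_left _ hm
    omega
  have c4 : E.relIndex A ≤ E.relIndex Z' :=
    Subgroup.relIndex_le_of_le_right hAZ (by
      rw [Subgroup.relIndex]; exact Subgroup.index_ne_zero_of_finite)
  -- the orbit bound
  have hane : ¬ (x * a = a * x) := by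
    intro h
    apply hz
    have : z = 1 := by
      rw [hzdef]
      calc x⁻¹ * (a * x * a⁻¹) = x⁻¹ * (x * a) * a⁻¹ := by rw [h]; group
        _ = 1 := by group
    rw [this]; exact Subgroup.one_mem _
  have c5 : E.relIndex C ≤ E.relIndex A - 1 := by
    have hcard : Nat.card {y : ↥A ⧸ E.subgroupOf A // y ≠ QuotientGroup.mk 1} = E.relIndex A - 1 := by
      have := Fintype.ofFinite (↥A ⧸ E.subgroupOf A)
      rw [Nat.card_eq_fintype_card, Subgroup.relIndex, Subgroup.index, Nat.card_eq_fintype_card]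
      exact Set.card_ne_eq (QuotientGroup.mk 1 : ↥A ⧸ E.subgroupOf A)
    rw [← hcard, Subgroup.relIndex, Subgroup.index]
    have hconj : ∀ c : G, c * a * c⁻¹ ∈ A := fun c => ‹A.Normal›.conj_mem a ha c
    have hne : ∀ c : ↥C, (QuotientGroup.mk ⟨(c : G) * a * (c : G)⁻¹, hconj c⟩ : ↥A ⧸ E.subgroupOf A) ≠
        QuotientGroup.mk 1 := by
      intro c h1
      rw [QuotientGroup.eq, Subgroup.mem_subgroupOf] at h1
      have h2 : (c : G) * a * (c : G)⁻¹ ∈ C := by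
        have := C.inv_mem (hEC h1)
        simpa using this
      have h3 : x * ((c : G) * a * (c : G)⁻¹) = (c : G) * a * (c : G)⁻¹ * x :=
        mem_centralizer_singleton_iff.mp h2
      have h4 : x * (c : G) = (c : G) * x := mem_centralizer_singleton_iff.mp c.2
      apply hane
      have h5 : x * (c : G)⁻¹ = (c : G)⁻¹ * x := by
        calc x * (c : G)⁻¹ = (c : G)⁻¹ * ((c : G) * x) * (c : G)⁻¹ := by group
          _ = (c : G)⁻¹ * (x * (c : G)) * (c : G)⁻¹ := by rw [h4]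
          _ = (c : G)⁻¹ * x := by group
      calc x * a = (c : G)⁻¹ * ((c : G) * x) * a := by group
        _ = (c : G)⁻¹ * (x * (c : G)) * a := by rw [h4]
        _ = (c : G)⁻¹ * (x * ((c : G) * a * (c : G)⁻¹)) * (c : G) := by group
        _ = (c : G)⁻¹ * ((c : G) * a * (c : G)⁻¹ * x) * (c : G) := by rw [h3]
        _ = a * ((c : G)⁻¹ * x) * (c : G) := by group
        _ = a * (x * (c : G)⁻¹) * (c : G) := by rw [h5]
        _ = a * x := by group
    let φ : ↥C → {y : ↥A ⧸ E.subgroupOf A // y ≠ QuotientGroup.mk 1} := fun c =>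
      ⟨QuotientGroup.mk ⟨(c : G) * a * (c : G)⁻¹, hconj c⟩, hne c⟩
    apply Nat.card_le_card_of_injective (fun q : ↥C ⧸ E.subgroupOf C => φ q.out)
    intro q₁ q₂ hq
    have h1 : (QuotientGroup.mk ⟨(q₁.out : G) * a * (q₁.out : G)⁻¹, hconj _⟩ : ↥A ⧸ E.subgroupOf A)
        = QuotientGroup.mk ⟨(q₂.out : G) * a * (q₂.out : G)⁻¹, hconj _⟩ := congrArg Subtype.val hq
    rw [QuotientGroup.eq, Subgroup.mem_subgroupOf] at h1
    have h2 : ((q₁.out : G) * a * (q₁.out : G)⁻¹)⁻¹ * ((q₂.out : G) * a * (q₂.out : G)⁻¹) ∈ C := hEC h1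
    have h3 : a⁻¹ * ((q₁.out : G)⁻¹ * (q₂.out : G)) * a ∈ C := by
      have := C.mul_mem (C.mul_mem (C.inv_mem q₁.out.2) h2) q₂.out.2
      convert this using 1
      group
    have h4 : (q₁.out : G)⁻¹ * (q₂.out : G) ∈ Y := mem_centralizer_conj h3
    have h5 : q₁.out⁻¹ * q₂.out ∈ E.subgroupOf C := by
      rw [Subgroup.mem_subgroupOf]
      exact ⟨C.mul_mem (C.inv_mem q₁.out.2) q₂.out.2, h4⟩
    rw [← QuotientGroup.eq] at h5
    simpa using h5
  have hEpos : 0 < Nat.card E := Nat.card_pos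
  have hApos : 0 < E.relIndex A := by
    rw [Subgroup.relIndex]; exact Nat.pos_of_ne_zero Subgroup.index_ne_zero_of_finite
  have : E.relIndex Z' * Nat.card E ≤ E.relIndex C * Nat.card E := by rw [← c1, ← c2]; exact c3
  have h6 : E.relIndex Z' ≤ E.relIndex C := Nat.le_of_mul_le_mul_right this hEpos
  omega


theorem comm_of_central_twist {w₁ w₂ a ζ₁ ζ₂ : G} (hζ₁ : ζ₁ ∈ Subgroup.center G)
    (hζ₂ : ζ₂ ∈ Subgroup.center G) (h₁ : w₁ * a = ζ₁ * (a * w₁)) (h₂ : w₂ * a = ζ₂ * (a * w₂)) :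
    (w₁⁻¹ * w₂⁻¹ * w₁ * w₂) * a = a * (w₁⁻¹ * w₂⁻¹ * w₁ * w₂) := by
  rw [Subgroup.mem_center_iff] at hζ₁ hζ₂
  have e1 : w₁ * w₂ * a = ζ₁ * ζ₂ * a * (w₁ * w₂) := by
    calc w₁ * w₂ * a = w₁ * (w₂ * a) := by group
      _ = w₁ * (ζ₂ * (a * w₂)) := by rw [h₂]
      _ = (w₁ * ζ₂) * (a * w₂) := by group
      _ = (ζ₂ * w₁) * (a * w₂) := by rw [hζ₂ w₁]
      _ = ζ₂ * (w₁ * a) * w₂ := by group
      _ = ζ₂ * (ζ₁ * (a * w₁)) * w₂ := by rw [h₁]
      _ = (ζ₂ * ζ₁) * a * (w₁ * w₂) := by group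
      _ = ζ₁ * ζ₂ * a * (w₁ * w₂) := by rw [hζ₁ ζ₂]
  have e2 : w₂ * w₁ * a = ζ₁ * ζ₂ * a * (w₂ * w₁) := by
    calc w₂ * w₁ * a = w₂ * (w₁ * a) := by group
      _ = w₂ * (ζ₁ * (a * w₁)) := by rw [h₁]
      _ = (w₂ * ζ₁) * (a * w₁) := by group
      _ = (ζ₁ * w₂) * (a * w₁) := by rw [hζ₁ w₂]
      _ = ζ₁ * (w₂ * a) * w₁ := by group
      _ = ζ₁ * (ζ₂ * (a * w₂)) * w₁ := by rw [h₂]
      _ = ζ₁ * ζ₂ * a * (w₂ * w₁) := by group
  have e3 : (w₂ * w₁)⁻¹ * (ζ₁ * ζ₂ * a) = a * (w₂ * w₁)⁻¹ := by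
    calc (w₂ * w₁)⁻¹ * (ζ₁ * ζ₂ * a) = (w₂ * w₁)⁻¹ * (ζ₁ * ζ₂ * a * (w₂ * w₁)) * (w₂ * w₁)⁻¹ := by group
      _ = (w₂ * w₁)⁻¹ * (w₂ * w₁ * a) * (w₂ * w₁)⁻¹ := by rw [e2]
      _ = a * (w₂ * w₁)⁻¹ := by group
  calc (w₁⁻¹ * w₂⁻¹ * w₁ * w₂) * a = (w₂ * w₁)⁻¹ * (w₁ * w₂ * a) := by group
    _ = (w₂ * w₁)⁻¹ * (ζ₁ * ζ₂ * a * (w₁ * w₂)) := by rw [e1]
    _ = ((w₂ * w₁)⁻¹ * (ζ₁ * ζ₂ * a)) * (w₁ * w₂) := by group
    _ = a * (w₂ * w₁)⁻¹ * (w₁ * w₂) := by rw [e3]
    _ = a * (w₁⁻¹ * w₂⁻¹ * w₁ * w₂) := by group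

/-- If every element of `K` (embedded in `G` by `ι`) acts on the self-centralizing abelian normal
subgroup `A` by central twists, then `K` has class at most 3. -/
theorem upperCentralSeries_three_eq_top {K : Type*} [Group K] (ι : K →* G)
    (hι : Function.Injective ι) (A : Subgroup G) [A.Normal]
    (hCA : ∀ g : G, (∀ a ∈ A, g * a = a * g) → g ∈ A)
    (hQ : ∀ k : K, ∀ a ∈ A, ∃ ζ ∈ Subgroup.center G, ι k * a = ζ * (a * ι k)) :
    Subgroup.upperCentralSeries K 3 = ⊤ := by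
  have step1 : ∀ k : K, ι k ∈ Subgroup.center G → k ∈ Subgroup.upperCentralSeries K 1 := by
    intro k hk
    rw [Subgroup.upperCentralSeries_one, Subgroup.mem_center_iff]
    intro y
    apply hι
    rw [map_mul, map_mul]
    exact (Subgroup.mem_center_iff.mp hk) (ι y)
  have step2 : ∀ k : K, ι k ∈ A → k ∈ Subgroup.upperCentralSeries K 2 := by
    intro k hk
    rw [Subgroup.mem_upperCentralSeries_succ_iff]
    intro y
    apply step1
    obtain ⟨ζ, hζ, h⟩ := hQ y (ι k)⁻¹ (A.inv_mem hk)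
    have : ι ⁅k, y⁆ = ζ := by
      rw [map_commutatorElement, commutatorElement_def]
      calc ι k * ι y * (ι k)⁻¹ * (ι y)⁻¹ = ι k * (ι y * (ι k)⁻¹) * (ι y)⁻¹ := by group
        _ = ι k * (ζ * ((ι k)⁻¹ * ι y)) * (ι y)⁻¹ := by rw [h]
        _ = (ι k * ζ) * (ι k)⁻¹ := by group
        _ = (ζ * ι k) * (ι k)⁻¹ := by rw [(Subgroup.mem_center_iff.mp hζ) (ι k)]
        _ = ζ := by group
    rw [this]; exact hζ
  rw [eq_top_iff]
  intro k _
  rw [Subgroup.mem_upperCentralSeries_succ_iff]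
  intro y
  apply step2
  apply hCA
  intro a ha
  obtain ⟨ζ₁, hζ₁, h₁⟩ := hQ k⁻¹ a ha
  obtain ⟨ζ₂, hζ₂, h₂⟩ := hQ y⁻¹ a ha
  have := comm_of_central_twist hζ₁ hζ₂ h₁ h₂
  have e : ι ⁅k, y⁆ = (ι k⁻¹)⁻¹ * (ι y⁻¹)⁻¹ * ι k⁻¹ * ι y⁻¹ := by
    rw [map_commutatorElement, commutatorElement_def, map_inv, map_inv]; group
  rw [e]; exact this


/-- `g` acts on `A` by central twists. -/
def Twist (A : Subgroup G) (g : G) : Prop :=
  ∀ a ∈ A, ∃ ζ ∈ Subgroup.center G, g * a = ζ * (a * g)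

theorem twist_of_mem_center (A : Subgroup G) {g : G} (hg : g ∈ Subgroup.center G) : Twist A g := by
  intro a _
  refine ⟨1, Subgroup.one_mem _, ?_⟩
  rw [one_mul]
  exact ((Subgroup.mem_center_iff.mp hg) a).symm

theorem twist_one (A : Subgroup G) : Twist A 1 := twist_of_mem_center A (Subgroup.one_mem _)

theorem twist_mul (A : Subgroup G) {g h : G} (hg : Twist A g) (hh : Twist A h) :
    Twist A (g * h) := by
  intro a ha
  obtain ⟨ζ₁, hζ₁, h₁⟩ := hg a ha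
  obtain ⟨ζ₂, hζ₂, h₂⟩ := hh a ha
  refine ⟨ζ₁ * ζ₂, Subgroup.mul_mem _ hζ₁ hζ₂, ?_⟩
  have c2 := Subgroup.mem_center_iff.mp hζ₂
  calc g * h * a = g * (h * a) := by group
    _ = g * (ζ₂ * (a * h)) := by rw [h₂]
    _ = (g * ζ₂) * (a * h) := by group
    _ = (ζ₂ * g) * (a * h) := by rw [c2 g]
    _ = ζ₂ * (g * a) * h := by group
    _ = ζ₂ * (ζ₁ * (a * g)) * h := by rw [h₁]
    _ = (ζ₂ * ζ₁) * (a * (g * h)) := by group
    _ = ζ₁ * ζ₂ * (a * (g * h)) := by rw [c2 ζ₁]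

theorem twist_inv (A : Subgroup G) {g : G} (hg : Twist A g) : Twist A g⁻¹ := by
  intro a ha
  obtain ⟨ζ, hζ, h⟩ := hg a ha
  refine ⟨ζ⁻¹, Subgroup.inv_mem _ hζ, ?_⟩
  have c := Subgroup.mem_center_iff.mp (Subgroup.inv_mem _ hζ)
  -- g a = ζ a g  →  a g⁻¹ = g⁻¹ ζ a  →  g⁻¹ a = ζ⁻¹ a g⁻¹
  have h' : a * g⁻¹ = ζ * (g⁻¹ * a) := by
    calc a * g⁻¹ = g⁻¹ * (g * a) * g⁻¹ := by group
      _ = g⁻¹ * (ζ * (a * g)) * g⁻¹ := by rw [h]
      _ = (g⁻¹ * ζ) * a := by group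
      _ = (ζ * g⁻¹) * a := by rw [(Subgroup.mem_center_iff.mp hζ) g⁻¹]
      _ = ζ * (g⁻¹ * a) := by group
  calc g⁻¹ * a = ζ⁻¹ * (ζ * (g⁻¹ * a)) := by group
    _ = ζ⁻¹ * (a * g⁻¹) := by rw [h']

theorem twist_of_small [Finite G] (A : Subgroup G) [A.Normal]
    (hA : ∀ a ∈ A, ∀ b ∈ A, a * b = b * a) (x : G)
    (hmin : ∀ y : G, 1 < (Subgroup.centralizer ({y} : Set G)).index →
      (Subgroup.centralizer ({x} : Set G)).index ≤ (Subgroup.centralizer ({y} : Set G)).index) :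
    Twist A x := by
  intro a ha
  have hz := small_comm_central A hA x hmin a ha
  refine ⟨(x⁻¹ * (a * x * a⁻¹))⁻¹, Subgroup.inv_mem _ hz, ?_⟩
  have c := Subgroup.mem_center_iff.mp hz
  have e : a * x = (x⁻¹ * (a * x * a⁻¹)) * (x * a) := by
    calc a * x = (x * (x⁻¹ * (a * x * a⁻¹))) * a := by group
      _ = ((x⁻¹ * (a * x * a⁻¹)) * x) * a := by rw [c x]
      _ = (x⁻¹ * (a * x * a⁻¹)) * (x * a) := by group
  calc x * a = (x⁻¹ * (a * x * a⁻¹))⁻¹ * ((x⁻¹ * (a * x * a⁻¹)) * (x * a)) := by group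
    _ = (x⁻¹ * (a * x * a⁻¹))⁻¹ * (a * x) := by rw [← e]

theorem twist_closure (A : Subgroup G) (S : Set G) (hS : ∀ x ∈ S, Twist A x) :
    ∀ g ∈ Subgroup.closure S, Twist A g := by
  intro g hg
  induction hg using Subgroup.closure_induction with
  | mem x hx => exact hS x hx
  | one => exact twist_one A
  | mul x y _ _ hx hy => exact twist_mul A hx hy
  | inv x _ hx => exact twist_inv A hx

theorem mem_center_of_index_eq_one {x : G} (h : (Subgroup.centralizer ({x} : Set G)).index = 1) :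
    x ∈ Subgroup.center G := by
  rw [Subgroup.index_eq_one] at h
  rw [Subgroup.mem_center_iff]
  intro g
  have : g ∈ Subgroup.centralizer ({x} : Set G) := by rw [h]; trivial
  exact (mem_centralizer_singleton_iff.mp this).symm

end Cfsg.Agent.Lib.Helper69.Small
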