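import Mathlib
import Cfsg.Agent.Lib.Helper69.ItoA
import Cfsg.Agent.Lib.Helper69.Small
import Cfsg.Agent.Lib.Helper69.Conj
import Cfsg.Agent.Lib.Helper53.SylowConj

set_option autoImplicit false

namespace Cfsg.Agent.Lib.Helper69.ItoB

open Cfsg.Agent.Lib.Helper69

variable {G : Type*} [Group G] [Finite G] {n : ℕ}

omit [Finite G] in
theorem index_eq
    (h : ∀ x : G, (Subgroup.centralizer ({x} : Set G)).index = 1 ∨
      (Subgroup.centralizer ({x} : Set G)).index = n)
    {x : G} (hx : x ∉ Subgroup.center G) : (Subgroup.centralizer ({x} : Set G)).index = n :=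
  (h x).resolve_left (fun h1 => hx (Small.mem_center_of_index_eq_one h1))

theorem n_pos
    (h : ∀ x : G, (Subgroup.centralizer ({x} : Set G)).index = 1 ∨
      (Subgroup.centralizer ({x} : Set G)).index = n)
    {x : G} (hx : x ∉ Subgroup.center G) : 0 < n := by
  rw [← index_eq h hx]
  exact Nat.pos_of_ne_zero Subgroup.index_ne_zero_of_finite

omit [Finite G] in
theorem card_mul
    (h : ∀ x : G, (Subgroup.centralizer ({x} : Set G)).index = 1 ∨
      (Subgroup.centralizer ({x} : Set G)).index = n)
    {x : G} (hx : x ∉ Subgroup.center G) :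
    Nat.card (Subgroup.centralizer ({x} : Set G)) * n = Nat.card G := by
  rw [← index_eq h hx]
  exact Subgroup.card_mul_index _

theorem card_eq
    (h : ∀ x : G, (Subgroup.centralizer ({x} : Set G)).index = 1 ∨
      (Subgroup.centralizer ({x} : Set G)).index = n)
    {x y : G} (hx : x ∉ Subgroup.center G) (hy : y ∉ Subgroup.center G) :
    Nat.card (Subgroup.centralizer ({x} : Set G)) = Nat.card (Subgroup.centralizer ({y} : Set G)) := by
  have h1 := card_mul h hx
  have h2 := card_mul h hy
  exact Nat.eq_of_mul_eq_mul_right (n_pos h hx) (h1.trans h2.symm)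

theorem eq_of_le
    (h : ∀ x : G, (Subgroup.centralizer ({x} : Set G)).index = 1 ∨
      (Subgroup.centralizer ({x} : Set G)).index = n)
    {x y : G} (hx : x ∉ Subgroup.center G) (hy : y ∉ Subgroup.center G)
    (hle : Subgroup.centralizer ({x} : Set G) ≤ Subgroup.centralizer ({y} : Set G)) :
    Subgroup.centralizer ({x} : Set G) = Subgroup.centralizer ({y} : Set G) :=
  Subgroup.eq_of_le_of_card_ge hle (card_eq h hx hy).ge

/-- F1: commuting noncentral elements of coprime orders have the same centralizer. -/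
theorem centralizer_eq_of_coprime
    (h : ∀ x : G, (Subgroup.centralizer ({x} : Set G)).index = 1 ∨
      (Subgroup.centralizer ({x} : Set G)).index = n)
    {x y : G} (hx : x ∉ Subgroup.center G) (hy : y ∉ Subgroup.center G)
    (hxy : Commute x y) (hcop : (orderOf x).Coprime (orderOf y)) :
    Subgroup.centralizer ({x} : Set G) = Subgroup.centralizer ({y} : Set G) := by
  have hxyZ : x * y ∉ Subgroup.center G := by
    intro hmem
    obtain ⟨m, hm⟩ := ItoA.exists_pow_eq_left x y hxy hcop
    apply hx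
    rw [← hm]
    exact Subgroup.pow_mem _ hmem m
  have hc := ItoA.centralizer_mul_of_coprime x y hxy hcop
  have e1 : Subgroup.centralizer ({x * y} : Set G) = Subgroup.centralizer ({x} : Set G) :=
    eq_of_le h hxyZ hx (by rw [hc]; exact inf_le_left)
  have e2 : Subgroup.centralizer ({x * y} : Set G) = Subgroup.centralizer ({y} : Set G) :=
    eq_of_le h hxyZ hy (by rw [hc]; exact inf_le_right)
  rw [← e1, e2]

omit [Finite G] in
theorem centralizer_eq_top_of_mem_center {z : G} (hz : z ∈ Subgroup.center G) :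
    Subgroup.centralizer ({z} : Set G) = ⊤ := by
  rw [eq_top_iff]
  intro g _
  rw [Small.mem_centralizer_singleton_iff]
  exact (Subgroup.mem_center_iff.1 hz g).symm

/-- F3: the dichotomy for a noncentral `p`-element. -/
theorem dichotomy
    (h : ∀ x : G, (Subgroup.centralizer ({x} : Set G)).index = 1 ∨
      (Subgroup.centralizer ({x} : Set G)).index = n)
    (p : ℕ) [hp : Fact p.Prime] {x : G} (hx : x ∉ Subgroup.center G)
    (hxp : ∃ k : ℕ, orderOf x = p ^ k) :
    (∀ w ∈ Subgroup.centralizer ({x} : Set G), (orderOf w).Coprime p → w ∈ Subgroup.center G) ∨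
    (∀ a ∈ Subgroup.centralizer ({x} : Set G), ∀ b ∈ Subgroup.centralizer ({x} : Set G),
      a * b = b * a) := by
  by_cases hA : ∀ w ∈ Subgroup.centralizer ({x} : Set G), (orderOf w).Coprime p →
      w ∈ Subgroup.center G
  · exact Or.inl hA
  · right
    push Not at hA
    obtain ⟨w, hwC, hwp, hwZ⟩ := hA
    obtain ⟨k, hk⟩ := hxp
    have hxw : Commute x w := Small.mem_centralizer_singleton_iff.1 hwC
    have hCw : Subgroup.centralizer ({x} : Set G) = Subgroup.centralizer ({w} : Set G) :=
      centralizer_eq_of_coprime h hx hwZ hxw (by rw [hk]; exact Nat.Coprime.pow_left _ hwp.symm)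
    intro a ha b hb
    obtain ⟨m, n', ⟨j, hj⟩, hcop, hdec⟩ := PNil.exists_pow_decomp p b
    -- the p'-part
    have h1 : Subgroup.centralizer ({x} : Set G) ≤ Subgroup.centralizer ({b ^ n'} : Set G) := by
      by_cases hz : b ^ n' ∈ Subgroup.center G
      · rw [centralizer_eq_top_of_mem_center hz]; exact le_top
      · have hcomm : Commute x (b ^ n') :=
          Small.mem_centralizer_singleton_iff.1 (Subgroup.pow_mem _ hb n')
        exact (centralizer_eq_of_coprime h hx hz hcomm
          (by rw [hk]; exact Nat.Coprime.pow_left _ hcop.symm)).le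
    -- the p-part
    have h2 : Subgroup.centralizer ({x} : Set G) ≤ Subgroup.centralizer ({b ^ m} : Set G) := by
      by_cases hz : b ^ m ∈ Subgroup.center G
      · rw [centralizer_eq_top_of_mem_center hz]; exact le_top
      · have hbw : b ^ m ∈ Subgroup.centralizer ({w} : Set G) := by
          rw [← hCw]; exact Subgroup.pow_mem _ hb m
        have hcomm : Commute (b ^ m) w := (Small.mem_centralizer_singleton_iff.1 hbw).symm
        have := centralizer_eq_of_coprime h hz hwZ hcomm
          (by rw [hj]; exact Nat.Coprime.pow_left _ hwp.symm)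
        rw [hCw, this]
    have e1 : b ^ n' * a = a * b ^ n' := Small.mem_centralizer_singleton_iff.1 (h1 ha)
    have e2 : b ^ m * a = a * b ^ m := Small.mem_centralizer_singleton_iff.1 (h2 ha)
    rw [← hdec]
    calc a * (b ^ m * b ^ n') = (a * b ^ m) * b ^ n' := by group
      _ = (b ^ m * a) * b ^ n' := by rw [e2]
      _ = b ^ m * (a * b ^ n') := by group
      _ = b ^ m * (b ^ n' * a) := by rw [e1]
      _ = b ^ m * b ^ n' * a := by group

/-- Case A: if all `p'`-elements of `C(x)` are central, then all `q`-elements, `q ≠ p`, are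
central. -/
theorem caseA
    (h : ∀ x : G, (Subgroup.centralizer ({x} : Set G)).index = 1 ∨
      (Subgroup.centralizer ({x} : Set G)).index = n)
    (p : ℕ) [hp : Fact p.Prime] {x : G} (hx : x ∉ Subgroup.center G)
    (hA : ∀ w ∈ Subgroup.centralizer ({x} : Set G), (orderOf w).Coprime p →
      w ∈ Subgroup.center G)
    (q : ℕ) (hq : q.Prime) (hqp : q ≠ p) (y : G) (hy : ∃ k : ℕ, orderOf y = q ^ k) :
    y ∈ Subgroup.center G := by
  by_contra hyZ
  -- (i) the index of Z in C(x) is a power of p
  have hI : ∃ e : ℕ, (Subgroup.center G).relIndex (Subgroup.centralizer ({x} : Set G)) = p ^ e := by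
    refine ⟨_, Nat.eq_prime_pow_of_unique_prime_dvd
      (Subgroup.index_ne_zero_of_finite
        (H := (Subgroup.center G).subgroupOf (Subgroup.centralizer ({x} : Set G)))) ?_⟩
    intro r hr hrd
    by_contra hrp
    have : Fact r.Prime := ⟨hr⟩
    have hnorm : ((Subgroup.center G).subgroupOf (Subgroup.centralizer ({x} : Set G))).Normal :=
      Subgroup.Normal.subgroupOf inferInstance _
    have hrd' : r ∣ Nat.card ((Subgroup.centralizer ({x} : Set G)) ⧸
        (Subgroup.center G).subgroupOf (Subgroup.centralizer ({x} : Set G))) := hrd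
    obtain ⟨u, hu⟩ := exists_prime_orderOf_dvd_card' r hrd'
    obtain ⟨w, hw, k, hk⟩ := PElem.exists_pElement_lift _ u ⟨1, by rw [hu, pow_one]⟩
    have hwp : (orderOf (w.1 : G)).Coprime p := by
      rw [Subgroup.orderOf_coe, hk]
      exact Nat.Coprime.pow_left _ ((Nat.coprime_primes hr hp.out).2 hrp)
    have hwZ := hA w.1 w.2 hwp
    have hw1 : (w : (Subgroup.centralizer ({x} : Set G)) ⧸
        (Subgroup.center G).subgroupOf (Subgroup.centralizer ({x} : Set G))) = 1 := by
      rw [QuotientGroup.eq_one_iff, Subgroup.mem_subgroupOf]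
      exact hwZ
    rw [hw1] at hw
    rw [← hw, orderOf_one] at hu
    exact hr.one_lt.ne' hu.symm
  obtain ⟨e, he⟩ := hI
  -- (ii) same index in C(y)
  have hI2 : (Subgroup.center G).relIndex (Subgroup.centralizer ({y} : Set G)) = p ^ e := by
    have h1 := Small.card_eq_relIndex_mul
      (Subgroup.center_le_centralizer ({x} : Set G))
    have h2 := Small.card_eq_relIndex_mul
      (Subgroup.center_le_centralizer ({y} : Set G))
    rw [card_eq h hx hyZ, h2, he] at h1
    exact Nat.eq_of_mul_eq_mul_right Nat.card_pos h1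
  -- (iii)
  have hnorm : ((Subgroup.center G).subgroupOf (Subgroup.centralizer ({y} : Set G))).Normal :=
    Subgroup.Normal.subgroupOf inferInstance _
  have hyC : y ∈ Subgroup.centralizer ({y} : Set G) := Small.mem_centralizer_singleton_iff.2 rfl
  have hpow := Subgroup.pow_index_mem
    ((Subgroup.center G).subgroupOf (Subgroup.centralizer ({y} : Set G))) ⟨y, hyC⟩
  have hpow' : y ^ (p ^ e) ∈ Subgroup.center G := by
    have : ((Subgroup.center G).subgroupOf (Subgroup.centralizer ({y} : Set G))).index = p ^ e := hI2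
    rw [this, Subgroup.mem_subgroupOf] at hpow
    exact hpow
  obtain ⟨k, hk⟩ := hy
  have hcop : (p ^ e).Coprime (orderOf y) := by
    rw [hk]
    exact Nat.Coprime.pow _ _ ((Nat.coprime_primes hp.out hq).2 (Ne.symm hqp))
  obtain ⟨m, hm⟩ := exists_pow_eq_self_of_coprime hcop
  apply hyZ
  rw [← hm]
  exact Subgroup.pow_mem _ hpow' m

/-- The centre of a Sylow `r`-subgroup is central when there is a noncentral `r`-element. -/
theorem sylow_center
    (h : ∀ x : G, (Subgroup.centralizer ({x} : Set G)).index = 1 ∨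
      (Subgroup.centralizer ({x} : Set G)).index = n)
    (r : ℕ) [hr : Fact r.Prime] (R : Sylow r G) (y₀ : G) (hy₀ : y₀ ∉ Subgroup.center G)
    (hy₀r : ∃ k : ℕ, orderOf y₀ = r ^ k)
    (g : G) (hg : ∀ u ∈ (R : Subgroup G), g * u = u * g) :
    g ∈ Subgroup.center G := by
  by_contra hgZ
  have hle : (R : Subgroup G) ≤ Subgroup.centralizer ({g} : Set G) := by
    intro u hu
    rw [Small.mem_centralizer_singleton_iff]
    exact hg u hu
  have hrn : ¬ r ∣ n := by
    rw [← index_eq h hgZ]
    intro hd
    exact R.not_dvd_index (hd.trans (Subgroup.index_dvd_of_le hle))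
  have hall : ∀ v : G, ¬ r ∣ (Subgroup.centralizer ({v} : Set G)).index := by
    intro v
    rcases h v with h1 | h1
    · rw [h1]; exact hr.out.one_lt.ne' ∘ Nat.dvd_one.1
    · rw [h1]; exact hrn
  have htop : Subgroup.centralizer ((R : Subgroup G) : Set G) = ⊤ :=
    PNil.eq_top_of_forall_conj_mem _
      (fun v => Conj.exists_conj_mem_centralizer_sylow R v (hall v))
  obtain ⟨k, hk⟩ := Cfsg.Agent.Lib.Helper53.SylowConj.exists_conj_le_sylow_top
    (Subgroup.zpowers y₀) (PNil.isPGroup_zpowers y₀ hy₀r) R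
  have hkR := hk y₀ (Subgroup.mem_zpowers y₀)
  have hkZ : k * y₀ * k⁻¹ ∈ Subgroup.center G := by
    rw [Subgroup.mem_center_iff]
    intro v
    have hv : v ∈ Subgroup.centralizer ((R : Subgroup G) : Set G) := by rw [htop]; trivial
    exact (Subgroup.mem_centralizer_iff.1 hv _ hkR).symm
  apply hy₀
  have := (inferInstance : (Subgroup.center G).Normal).conj_mem _ hkZ k⁻¹
  have e : k⁻¹ * (k * y₀ * k⁻¹) * k⁻¹⁻¹ = y₀ := by group
  rw [e] at this
  exact this

/-- An element of the second centre of a Sylow `r`-subgroup, outside the centre. -/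
theorem exists_second_center
    (h : ∀ x : G, (Subgroup.centralizer ({x} : Set G)).index = 1 ∨
      (Subgroup.centralizer ({x} : Set G)).index = n)
    (r : ℕ) [hr : Fact r.Prime] (R : Sylow r G) (y₀ : G) (hy₀ : y₀ ∉ Subgroup.center G)
    (hy₀r : ∃ k : ℕ, orderOf y₀ = r ^ k) :
    ∃ u ∈ (R : Subgroup G), u ∉ Subgroup.center G ∧
      ∀ g ∈ (R : Subgroup G), g * u * g⁻¹ * u⁻¹ ∈ Subgroup.center G := by
  -- a noncentral element of R
  obtain ⟨k, hk⟩ := Cfsg.Agent.Lib.Helper53.SylowConj.exists_conj_le_sylow_top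
    (Subgroup.zpowers y₀) (PNil.isPGroup_zpowers y₀ hy₀r) R
  have hyR := hk y₀ (Subgroup.mem_zpowers y₀)
  have hyZ : k * y₀ * k⁻¹ ∉ Subgroup.center G := by
    intro hmem
    apply hy₀
    have := (inferInstance : (Subgroup.center G).Normal).conj_mem _ hmem k⁻¹
    have e : k⁻¹ * (k * y₀ * k⁻¹) * k⁻¹⁻¹ = y₀ := by group
    rw [e] at this
    exact this
  -- centre of R is inside the centre of G
  have hZR : ∀ v : (R : Subgroup G), v ∈ Subgroup.center (R : Subgroup G) →
      (v : G) ∈ Subgroup.center G := by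
    intro v hv
    apply sylow_center h r R y₀ hy₀ hy₀r v.1
    intro u hu
    have := Subgroup.mem_center_iff.1 hv ⟨u, hu⟩
    exact (congrArg Subtype.val this).symm
  have hnt : Nontrivial ((R : Subgroup G) ⧸ Subgroup.center (R : Subgroup G)) := by
    refine nontrivial_of_ne
      ((⟨k * y₀ * k⁻¹, hyR⟩ : (R : Subgroup G)) : (R : Subgroup G) ⧸ Subgroup.center (R : Subgroup G))
      1 ?_
    intro h1
    rw [QuotientGroup.eq_one_iff] at h1
    exact hyZ (hZR _ h1)
  have hpq : IsPGroup r ((R : Subgroup G) ⧸ Subgroup.center (R : Subgroup G)) :=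
    R.isPGroup'.to_quotient _
  have hcn := hpq.center_nontrivial
  obtain ⟨⟨ubar, hubar⟩, hne⟩ := exists_ne (1 : Subgroup.center
    ((R : Subgroup G) ⧸ Subgroup.center (R : Subgroup G)))
  obtain ⟨u, rfl⟩ := QuotientGroup.mk_surjective ubar
  have hu1 : u ∉ Subgroup.center (R : Subgroup G) := by
    intro hmem
    apply hne
    apply Subtype.ext
    exact (QuotientGroup.eq_one_iff u).2 hmem
  refine ⟨u.1, u.2, ?_, ?_⟩
  · intro hmem
    apply hu1
    rw [Subgroup.mem_center_iff]
    intro v
    apply Subtype.ext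
    exact Subgroup.mem_center_iff.1 hmem v.1
  · intro g hg
    have hc := Subgroup.mem_center_iff.1 hubar
      ((⟨g, hg⟩ : (R : Subgroup G)) : (R : Subgroup G) ⧸ Subgroup.center (R : Subgroup G))
    have h2 : ((⟨g, hg⟩ * u * (⟨g, hg⟩ : (R : Subgroup G))⁻¹ * u⁻¹ : (R : Subgroup G)) :
        (R : Subgroup G) ⧸ Subgroup.center (R : Subgroup G)) = 1 := by
      rw [QuotientGroup.mk_mul, QuotientGroup.mk_mul, QuotientGroup.mk_mul, hc,
        QuotientGroup.mk_inv, QuotientGroup.mk_inv]
      group
    rw [QuotientGroup.eq_one_iff] at h2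
    exact hZR _ h2

omit [Finite G] in
/-- If `g u g⁻¹ u⁻¹` is central then `g` normalizes `C(u)`. -/
theorem conj_mem_centralizer {u g w : G} (hz : g * u * g⁻¹ * u⁻¹ ∈ Subgroup.center G)
    (hw : w ∈ Subgroup.centralizer ({u} : Set G)) :
    g * w * g⁻¹ ∈ Subgroup.centralizer ({u} : Set G) := by
  rw [Small.mem_centralizer_singleton_iff] at hw ⊢
  have hc := Subgroup.mem_center_iff.1 hz
  have e1 : g * u * g⁻¹ = (g * u * g⁻¹ * u⁻¹) * u := by group
  have e2 : (g * u * g⁻¹) * (g * w * g⁻¹) = (g * w * g⁻¹) * (g * u * g⁻¹) := by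
    calc (g * u * g⁻¹) * (g * w * g⁻¹) = g * (u * w) * g⁻¹ := by group
      _ = g * (w * u) * g⁻¹ := by rw [hw]
      _ = (g * w * g⁻¹) * (g * u * g⁻¹) := by group
  rw [e1] at e2
  have e3 : (g * u * g⁻¹ * u⁻¹) * (u * (g * w * g⁻¹)) = (g * u * g⁻¹ * u⁻¹) * ((g * w * g⁻¹) * u) := by
    calc (g * u * g⁻¹ * u⁻¹) * (u * (g * w * g⁻¹)) = (g * u * g⁻¹ * u⁻¹) * u * (g * w * g⁻¹) := by group
      _ = (g * w * g⁻¹) * ((g * u * g⁻¹ * u⁻¹) * u) := e2
      _ = ((g * w * g⁻¹) * (g * u * g⁻¹ * u⁻¹)) * u := by group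
      _ = ((g * u * g⁻¹ * u⁻¹) * (g * w * g⁻¹)) * u := by rw [hc]
      _ = (g * u * g⁻¹ * u⁻¹) * ((g * w * g⁻¹) * u) := by group
  exact mul_left_cancel e3

/-- conjugation action of a subgroup on an invariant set -/
@[reducible] def conjAction (R : Subgroup G) (Y : Set G)
    (hY : ∀ g ∈ R, ∀ w ∈ Y, g * w * g⁻¹ ∈ Y) : MulAction R Y where
  smul g w := ⟨g.1 * w.1 * g.1⁻¹, hY g.1 g.2 w.1 w.2⟩
  one_smul w := by
    apply Subtype.ext
    change (1 : G) * w.1 * (1 : G)⁻¹ = w.1
    group
  mul_smul g g' w := by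
    apply Subtype.ext
    change (g.1 * g'.1) * w.1 * (g.1 * g'.1)⁻¹ = g.1 * (g'.1 * w.1 * g'.1⁻¹) * g.1⁻¹
    group

/-- The key divisibility. -/
theorem beta
    (h : ∀ x : G, (Subgroup.centralizer ({x} : Set G)).index = 1 ∨
      (Subgroup.centralizer ({x} : Set G)).index = n)
    (hB : ∀ x : G, x ∉ Subgroup.center G → ∀ r : ℕ, r.Prime → (∃ k : ℕ, orderOf x = r ^ k) →
      ∀ a ∈ Subgroup.centralizer ({x} : Set G), ∀ b ∈ Subgroup.centralizer ({x} : Set G),
        a * b = b * a)
    (m : ℕ) (hm : m * n = Nat.card G)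
    (r s : ℕ) [hr : Fact r.Prime] [hs : Fact s.Prime] (hrs : r ≠ s)
    (yr : G) (hyr : yr ∉ Subgroup.center G) (hyrr : ∃ k : ℕ, orderOf yr = r ^ k)
    (ys : G) (hys : ys ∉ Subgroup.center G) (hyss : ∃ k : ℕ, orderOf ys = s ^ k) :
    (Nat.card (Subgroup.center G)).factorization s < m.factorization s ∧
    r ^ n.factorization r ∣
      s ^ (m.factorization s - (Nat.card (Subgroup.center G)).factorization s) - 1 := by
  classical
  have hnpos : 0 < n := n_pos h hyr
  have hcardC : ∀ x : G, x ∉ Subgroup.center G →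
      Nat.card (Subgroup.centralizer ({x} : Set G)) = m := by
    intro x hx
    have := card_mul h hx
    rw [← hm] at this
    exact Nat.eq_of_mul_eq_mul_right hnpos this
  have hZcomm : ∀ a ∈ Subgroup.center G, ∀ b ∈ Subgroup.center G, a * b = b * a :=
    fun a ha b _ => (Subgroup.mem_center_iff.1 ha b).symm
  have hMs := hB ys hys s hs.out hyss
  have hpart1 : (Nat.card (Subgroup.center G)).factorization s < m.factorization s := by
    by_contra hnot
    push Not at hnot
    have hle : ItoA.sPart s (Subgroup.center G) hZcomm ≤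
        ItoA.sPart s (Subgroup.centralizer ({ys} : Set G)) hMs := by
      intro w hw
      exact ⟨Subgroup.center_le_centralizer _ hw.1, hw.2⟩
    have hys_mem : ys ∈ ItoA.sPart s (Subgroup.centralizer ({ys} : Set G)) hMs := by
      refine ⟨Small.mem_centralizer_singleton_iff.2 rfl, ?_⟩
      obtain ⟨k, hk⟩ := hyss
      exact ⟨k, by rw [← hk]; exact pow_orderOf_eq_one ys⟩
    have hge : Nat.card (ItoA.sPart s (Subgroup.centralizer ({ys} : Set G)) hMs) ≤
        Nat.card (ItoA.sPart s (Subgroup.center G) hZcomm) := by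
      rw [ItoA.card_sPart, ItoA.card_sPart, hcardC ys hys]
      exact Nat.pow_le_pow_right hs.out.pos hnot
    have heq := Subgroup.eq_of_le_of_card_ge hle hge
    rw [← heq] at hys_mem
    exact hys hys_mem.1
  refine ⟨hpart1, ?_⟩
  obtain ⟨R⟩ : Nonempty (Sylow r G) := inferInstance
  obtain ⟨u, huR, huZ, hu2⟩ := exists_second_center h r R yr hyr hyrr
  have hur : ∃ k : ℕ, orderOf u = r ^ k := PNil.pElem_of_mem_isPGroup _ R.isPGroup' u huR
  have hMab := hB u huZ r hr.out hur
  have hcardM : Nat.card (Subgroup.centralizer ({u} : Set G)) = m := hcardC u huZ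
  have hY : ∀ g ∈ (R : Subgroup G),
      ∀ w ∈ {w : G | w ∈ ItoA.sPart s (Subgroup.centralizer ({u} : Set G)) hMab ∧
        w ∉ Subgroup.center G},
      g * w * g⁻¹ ∈ {w : G | w ∈ ItoA.sPart s (Subgroup.centralizer ({u} : Set G)) hMab ∧
        w ∉ Subgroup.center G} := by
    rintro g hg w ⟨⟨hwM, k, hk⟩, hwZ⟩
    refine ⟨⟨conj_mem_centralizer (hu2 g hg) hwM, k, ?_⟩, ?_⟩
    · rw [conj_pow, hk]; group
    · intro hmem
      apply hwZ
      have := (inferInstance : (Subgroup.center G).Normal).conj_mem _ hmem g⁻¹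
      have e : g⁻¹ * (g * w * g⁻¹) * g⁻¹⁻¹ = w := by group
      rwa [e] at this
  let _ := conjAction (R : Subgroup G) _ hY
  have hstab : ∀ y : {w : G | w ∈ ItoA.sPart s (Subgroup.centralizer ({u} : Set G)) hMab ∧
        w ∉ Subgroup.center G},
      (MulAction.stabilizer (R : Subgroup G) y).index =
        (Subgroup.centralizer ({u} : Set G)).relIndex (R : Subgroup G) := by
    rintro ⟨w, ⟨hwM, hwk⟩, hwZ⟩
    have hCw : Subgroup.centralizer ({u} : Set G) = Subgroup.centralizer ({w} : Set G) := by
      apply eq_of_le h huZ hwZ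
      intro a ha
      rw [Small.mem_centralizer_singleton_iff]
      exact hMab w hwM a ha
    have hst : MulAction.stabilizer (R : Subgroup G)
        (⟨w, ⟨hwM, hwk⟩, hwZ⟩ : {w : G | w ∈ ItoA.sPart s (Subgroup.centralizer ({u} : Set G)) hMab ∧
        w ∉ Subgroup.center G}) =
        (Subgroup.centralizer ({u} : Set G)).subgroupOf (R : Subgroup G) := by
      ext g
      have key : (g.1 ∈ Subgroup.centralizer ({u} : Set G)) ↔ w * g.1 = g.1 * w := by
        rw [hCw]; exact Small.mem_centralizer_singleton_iff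
      rw [MulAction.mem_stabilizer_iff, Subgroup.mem_subgroupOf, key]
      constructor
      · intro hg
        have hg' : g.1 * w * g.1⁻¹ = w := congrArg Subtype.val hg
        calc w * g.1 = (g.1 * w * g.1⁻¹) * g.1 := by rw [hg']
          _ = g.1 * w := by group
      · intro hg
        apply Subtype.ext
        change g.1 * w * g.1⁻¹ = w
        rw [← hg]; group
    rw [hst]; rfl
  have hd := ItoA.dvd_card_of_index_stabilizer (R := (R : Subgroup G)) _ hstab
  -- cardinality of Y
  have hcardY : Nat.card (ItoA.sPart s (Subgroup.centralizer ({u} : Set G)) hMab) =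
      Nat.card (ItoA.sPart s (Subgroup.center G) hZcomm) +
      Nat.card {w : G | w ∈ ItoA.sPart s (Subgroup.centralizer ({u} : Set G)) hMab ∧
        w ∉ Subgroup.center G} := by
    rw [Nat.card_congr (Equiv.sumCompl
      (fun w : ItoA.sPart s (Subgroup.centralizer ({u} : Set G)) hMab =>
        (w : G) ∈ Subgroup.center G)).symm, Nat.card_sum]
    congr 1
    · exact Nat.card_congr
        { toFun := fun w => ⟨w.1.1, ⟨w.2, w.1.2.2⟩⟩
          invFun := fun v => ⟨⟨v.1, ⟨Subgroup.center_le_centralizer _ v.2.1, v.2.2⟩⟩, v.2.1⟩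
          left_inv := fun w => rfl
          right_inv := fun v => rfl }
    · exact Nat.card_congr
        { toFun := fun w => ⟨w.1.1, ⟨w.1.2, w.2⟩⟩
          invFun := fun y => ⟨⟨y.1, y.2.1⟩, y.2.2⟩
          left_inv := fun w => rfl
          right_inv := fun v => rfl }
  rw [ItoA.card_sPart, ItoA.card_sPart, hcardM] at hcardY
  -- the r-part of the index
  have hrd : r ^ n.factorization r ∣
      (Subgroup.centralizer ({u} : Set G)).relIndex (R : Subgroup G) := by
    have h1 := Small.card_eq_relIndex_mul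
      (inf_le_right : Subgroup.centralizer ({u} : Set G) ⊓ (R : Subgroup G) ≤ (R : Subgroup G))
    rw [Subgroup.inf_relIndex_right, R.card_eq_multiplicity, ← hm] at h1
    have hpg : IsPGroup r (Subgroup.centralizer ({u} : Set G) ⊓ (R : Subgroup G) : Subgroup G) :=
      R.isPGroup'.to_le inf_le_right
    obtain ⟨j, hj⟩ := IsPGroup.iff_card.1 hpg
    have hjm : r ^ j ∣ m := by
      rw [← hj, ← hcardM]
      exact Subgroup.card_dvd_of_le inf_le_left
    have hmpos : 0 < m := by
      rw [← hcardM]; exact Nat.card_pos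
    have hjle : j ≤ m.factorization r := (hr.out.pow_dvd_iff_le_factorization hmpos.ne').1 hjm
    rw [hj, Nat.factorization_mul hmpos.ne' hnpos.ne'] at h1
    simp only [Finsupp.coe_add, Pi.add_apply] at h1
    have h2 : r ^ (m.factorization r + n.factorization r) =
        r ^ (m.factorization r - j) * r ^ n.factorization r * r ^ j := by
      rw [← pow_add, ← pow_add]
      congr 1
      omega
    rw [h2] at h1
    have h3 := Nat.eq_of_mul_eq_mul_right (pow_pos hr.out.pos j) h1
    rw [← h3]
    exact dvd_mul_left _ _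
  have hdvd := hrd.trans hd
  have hsplit : s ^ m.factorization s =
      s ^ (Nat.card (Subgroup.center G)).factorization s *
        s ^ (m.factorization s - (Nat.card (Subgroup.center G)).factorization s) := by
    rw [← pow_add]
    congr 1
    omega
  have hcY : Nat.card {w : G | w ∈ ItoA.sPart s (Subgroup.centralizer ({u} : Set G)) hMab ∧
        w ∉ Subgroup.center G} =
      s ^ (Nat.card (Subgroup.center G)).factorization s *
        (s ^ (m.factorization s - (Nat.card (Subgroup.center G)).factorization s) - 1) := by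
    rw [Nat.mul_sub_one, ← hsplit]
    omega
  rw [hcY] at hdvd
  have hcop : Nat.Coprime (r ^ n.factorization r)
      (s ^ (Nat.card (Subgroup.center G)).factorization s) :=
    Nat.Coprime.pow _ _ ((Nat.coprime_primes hr.out hs.out).2 hrs)
  exact hcop.dvd_of_dvd_mul_left hdvd

/-- `[G : Z] ≤ n²` when some noncentral centralizer is abelian. -/
theorem alpha
    (h : ∀ x : G, (Subgroup.centralizer ({x} : Set G)).index = 1 ∨
      (Subgroup.centralizer ({x} : Set G)).index = n)
    (x : G) (hx : x ∉ Subgroup.center G)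
    (hxab : ∀ a ∈ Subgroup.centralizer ({x} : Set G), ∀ b ∈ Subgroup.centralizer ({x} : Set G),
      a * b = b * a) :
    (Subgroup.center G).index ≤ n * n := by
  have hne : Subgroup.centralizer ({x} : Set G) ≠ ⊤ := by
    intro htop
    apply hx
    rw [Subgroup.mem_center_iff]
    intro g
    have : g ∈ Subgroup.centralizer ({x} : Set G) := by rw [htop]; trivial
    exact (Small.mem_centralizer_singleton_iff.1 this).symm
  obtain ⟨y, hy⟩ : ∃ y, y ∉ Subgroup.centralizer ({x} : Set G) := by
    by_contra hcon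
    push Not at hcon
    exact hne (eq_top_iff.2 (fun g _ => hcon g))
  have hyZ : y ∉ Subgroup.center G := fun hmem => hy (Subgroup.center_le_centralizer _ hmem)
  have hinf : Subgroup.centralizer ({x} : Set G) ⊓ Subgroup.centralizer ({y} : Set G) ≤
      Subgroup.center G := by
    rintro w ⟨hwx, hwy⟩
    by_contra hwZ
    have h1 : Subgroup.centralizer ({x} : Set G) = Subgroup.centralizer ({w} : Set G) :=
      eq_of_le h hx hwZ (fun a ha => Small.mem_centralizer_singleton_iff.2 (hxab w hwx a ha))
    have h2 : y ∈ Subgroup.centralizer ({w} : Set G) :=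
      Small.mem_centralizer_singleton_iff.2 (Small.mem_centralizer_singleton_iff.1 hwy).symm
    rw [← h1] at h2
    exact hy h2
  calc (Subgroup.center G).index
      ≤ (Subgroup.centralizer ({x} : Set G) ⊓ Subgroup.centralizer ({y} : Set G)).index :=
        Nat.le_of_dvd (Nat.pos_of_ne_zero Subgroup.index_ne_zero_of_finite)
          (Subgroup.index_dvd_of_le hinf)
    _ ≤ (Subgroup.centralizer ({x} : Set G)).index * (Subgroup.centralizer ({y} : Set G)).index :=
        Subgroup.index_inf_le
    _ = n * n := by rw [index_eq h hx, index_eq h hyZ]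

/-- Two primes with noncentral elements are impossible when centralizers of noncentral
prime-power-order elements are abelian. -/
theorem no_two_primes
    (h : ∀ x : G, (Subgroup.centralizer ({x} : Set G)).index = 1 ∨
      (Subgroup.centralizer ({x} : Set G)).index = n)
    (hB : ∀ x : G, x ∉ Subgroup.center G → ∀ r : ℕ, r.Prime → (∃ k : ℕ, orderOf x = r ^ k) →
      ∀ a ∈ Subgroup.centralizer ({x} : Set G), ∀ b ∈ Subgroup.centralizer ({x} : Set G),
        a * b = b * a)
    (p q : ℕ) [hp : Fact p.Prime] [hq : Fact q.Prime] (hpq : p ≠ q)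
    (xp : G) (hxp : xp ∉ Subgroup.center G) (hxpp : ∃ k : ℕ, orderOf xp = p ^ k)
    (xq : G) (hxq : xq ∉ Subgroup.center G) (hxqq : ∃ k : ℕ, orderOf xq = q ^ k) : False := by
  have hnpos := n_pos h hxp
  have hm : Nat.card (Subgroup.centralizer ({xp} : Set G)) * n = Nat.card G := card_mul h hxp
  have hzm : Nat.card (Subgroup.center G) ∣ Nat.card (Subgroup.centralizer ({xp} : Set G)) :=
    Subgroup.card_dvd_of_le (Subgroup.center_le_centralizer _)
  have hα : Nat.card (Subgroup.centralizer ({xp} : Set G)) ≤ n * Nat.card (Subgroup.center G) := by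
    have h1 := alpha h xp hxp (hB xp hxp p hp.out hxpp)
    have h2 : (Subgroup.center G).index * Nat.card (Subgroup.center G) = Nat.card G :=
      Subgroup.index_mul_card _
    have h3 : Nat.card (Subgroup.centralizer ({xp} : Set G)) * n ≤
        (n * Nat.card (Subgroup.center G)) * n := by
      rw [hm, ← h2]
      calc (Subgroup.center G).index * Nat.card (Subgroup.center G)
          ≤ (n * n) * Nat.card (Subgroup.center G) := Nat.mul_le_mul_right _ h1
        _ = (n * Nat.card (Subgroup.center G)) * n := by ring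
    exact Nat.le_of_mul_le_mul_right h3 hnpos
  obtain ⟨h1', h1⟩ := beta h hB _ hm p q hpq xp hxp hxpp xq hxq hxqq
  obtain ⟨h2', -⟩ := beta h hB _ hm q p hpq.symm xq hxq hxqq xp hxp hxpp
  apply ItoA.numeric_contra n _ (Nat.card (Subgroup.center G)) p q hp.out hq.out hpq hnpos
    Nat.card_pos hzm Nat.card_pos hα h1 h1' ?_ h2'
  intro r hr hrp
  by_cases hrn : r ∣ n
  · have : Fact r.Prime := ⟨hr⟩
    have hex : ∃ y : G, y ∉ Subgroup.center G ∧ ∃ k : ℕ, orderOf y = r ^ k := by
      by_contra hcon
      push Not at hcon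
      obtain ⟨R⟩ : Nonempty (Sylow r G) := inferInstance
      have hRZ : (R : Subgroup G) ≤ Subgroup.centralizer ({xp} : Set G) := by
        intro g hg
        apply Subgroup.center_le_centralizer
        by_contra hgZ
        obtain ⟨k, hk⟩ := PNil.pElem_of_mem_isPGroup _ R.isPGroup' g hg
        exact hcon g hgZ k hk
      have hd := Subgroup.index_dvd_of_le hRZ
      rw [index_eq h hxp] at hd
      exact R.not_dvd_index (hrn.trans hd)
    obtain ⟨y, hy, hyr⟩ := hex
    exact (beta h hB _ hm r p hrp y hy hyr xp hxp hxpp).2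
  · rw [Nat.factorization_eq_zero_of_not_dvd hrn, pow_zero]
    exact one_dvd _

/-- There is a prime `p` such that all elements of prime power order for other primes are
central. -/
theorem main_prime
    (h : ∀ x : G, (Subgroup.centralizer ({x} : Set G)).index = 1 ∨
      (Subgroup.centralizer ({x} : Set G)).index = n)
    (hn : 1 < n) (hex : ∃ x : G, (Subgroup.centralizer ({x} : Set G)).index = n) :
    ∃ p : ℕ, p.Prime ∧ ∀ q : ℕ, q.Prime → q ≠ p → ∀ y : G, (∃ k : ℕ, orderOf y = q ^ k) →
      y ∈ Subgroup.center G := by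
  obtain ⟨x₀, hx₀⟩ := hex
  have hx₀Z : x₀ ∉ Subgroup.center G := by
    intro hmem
    rw [centralizer_eq_top_of_mem_center hmem, Subgroup.index_top] at hx₀
    omega
  obtain ⟨p₁, hp₁, j, hj, hjZ⟩ := ItoA.exists_pow_prime_not_mem (Subgroup.center G) x₀ hx₀Z
  by_contra hcon
  push Not at hcon
  obtain ⟨q₁, hq₁, hq₁p, y₁, hy₁q, hy₁Z⟩ := hcon p₁ hp₁
  have hB : ∀ x : G, x ∉ Subgroup.center G → ∀ r : ℕ, r.Prime → (∃ k : ℕ, orderOf x = r ^ k) →
      ∀ a ∈ Subgroup.centralizer ({x} : Set G), ∀ b ∈ Subgroup.centralizer ({x} : Set G),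
        a * b = b * a := by
    intro x hx r hr hxr
    have : Fact r.Prime := ⟨hr⟩
    rcases dichotomy h r hx hxr with hA | hBx
    · exfalso
      by_cases hrp : r = p₁
      · subst hrp
        exact hy₁Z (caseA h r hx hA q₁ hq₁ hq₁p y₁ hy₁q)
      · exact hjZ (caseA h r hx hA p₁ hp₁ (Ne.symm hrp) (x₀ ^ j) hj)
    · exact hBx
  have : Fact p₁.Prime := ⟨hp₁⟩
  have : Fact q₁.Prime := ⟨hq₁⟩
  exact no_two_primes h hB p₁ q₁ (Ne.symm hq₁p) (x₀ ^ j) hjZ hj y₁ hy₁Z hy₁q

end Cfsg.Agent.Lib.Helper69.ItoB
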