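import Mathlib
import Cfsg.Agent.Lib.Helper69.ItoA
import Cfsg.Agent.Lib.Helper69.Small
import Cfsg.Agent.Lib.Helper69.RepAvg

set_option autoImplicit false

namespace Cfsg.Agent.Lib.Helper69.BHMa

open Cfsg.Agent.Lib.Helper69

variable {G : Type*} [Group G]

local notation:max "C⟮" g "⟯" => Subgroup.centralizer ({g} : Set _)
local notation:max "cs⟮" g "⟯" => Subgroup.index (Subgroup.centralizer ({g} : Set _))

theorem mem_C {g x : G} : g ∈ C⟮x⟯ ↔ x * g = g * x := Small.mem_centralizer_singleton_iff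

theorem self_mem_C (x : G) : x ∈ C⟮x⟯ := mem_C.2 rfl

theorem center_le_C (x : G) : Subgroup.center G ≤ C⟮x⟯ := by
  intro z hz
  rw [mem_C]
  exact (Subgroup.mem_center_iff.1 hz) x

/-- the centralizer of a conjugate -/
theorem C_conj (g a : G) : C⟮g * a * g⁻¹⟯ = (C⟮a⟯).map (MulAut.conj g).toMonoidHom := by
  ext w
  rw [mem_C, Subgroup.mem_map]
  constructor
  · intro h
    refine ⟨g⁻¹ * w * g, ?_, ?_⟩
    · rw [mem_C]
      have : g⁻¹ * (g * a * g⁻¹ * w) * g = g⁻¹ * (w * (g * a * g⁻¹)) * g := by rw [h]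
      calc a * (g⁻¹ * w * g) = g⁻¹ * (g * a * g⁻¹ * w) * g := by group
        _ = g⁻¹ * (w * (g * a * g⁻¹)) * g := this
        _ = g⁻¹ * w * g * a := by group
    · simp only [MulEquiv.coe_toMonoidHom, MulAut.conj_apply]; group
  · rintro ⟨v, hv, rfl⟩
    rw [mem_C] at hv
    simp only [MulEquiv.coe_toMonoidHom, MulAut.conj_apply]
    calc g * a * g⁻¹ * (g * v * g⁻¹) = g * (a * v) * g⁻¹ := by group
      _ = g * (v * a) * g⁻¹ := by rw [hv]
      _ = g * v * g⁻¹ * (g * a * g⁻¹) := by group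

theorem cs_conj (g a : G) : cs⟮g * a * g⁻¹⟯ = cs⟮a⟯ := by
  rw [C_conj]
  exact Subgroup.index_map_equiv _ (MulAut.conj g)

theorem conj_mem_C_iff (g a w : G) : w ∈ C⟮g * a * g⁻¹⟯ ↔ g⁻¹ * w * g ∈ C⟮a⟯ := by
  rw [mem_C, mem_C]
  constructor
  · intro h
    calc a * (g⁻¹ * w * g) = g⁻¹ * (g * a * g⁻¹ * w) * g := by group
      _ = g⁻¹ * (w * (g * a * g⁻¹)) * g := by rw [h]
      _ = g⁻¹ * w * g * a := by group
  · intro h
    calc g * a * g⁻¹ * w = g * (a * (g⁻¹ * w * g)) * g⁻¹ := by group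
      _ = g * (g⁻¹ * w * g * a) * g⁻¹ := by rw [h]
      _ = w * (g * a * g⁻¹) := by group

theorem orderOf_conj' (g a : G) : orderOf (g * a * g⁻¹) = orderOf a := by
  have := MulEquiv.orderOf_eq (MulAut.conj g) a
  rwa [MulAut.conj_apply] at this

theorem cs_dvd_of_le {a b : G} (h : C⟮a⟯ ≤ C⟮b⟯) : cs⟮b⟯ ∣ cs⟮a⟯ := Subgroup.index_dvd_of_le h

theorem C_eq_of_le_of_cs [Finite G] {a b : G} (h : C⟮a⟯ ≤ C⟮b⟯) (e : cs⟮a⟯ = cs⟮b⟯) :
    C⟮a⟯ = C⟮b⟯ := by
  apply le_antisymm h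
  rw [← Subgroup.relIndex_eq_one]
  have h1 := Subgroup.relIndex_mul_index h
  rw [e] at h1
  have h2 : cs⟮b⟯ ≠ 0 := Subgroup.index_ne_zero_of_finite
  have h3 : (C⟮a⟯).relIndex C⟮b⟯ * cs⟮b⟯ = 1 * cs⟮b⟯ := by rw [h1, one_mul]
  exact Nat.eq_of_mul_eq_mul_right (Nat.pos_of_ne_zero h2) h3

theorem C_le_C_pow (g : G) (k : ℕ) : C⟮g⟯ ≤ C⟮g ^ k⟯ := by
  intro w hw
  rw [mem_C] at hw ⊢
  exact ((show Commute g w from hw).pow_left k)

theorem C_le_C_zpow (g : G) (k : ℤ) : C⟮g⟯ ≤ C⟮g ^ k⟯ := by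
  intro w hw
  rw [mem_C] at hw ⊢
  exact ((show Commute g w from hw).zpow_left k)

theorem C_pow_of_coprime (g : G) (k : ℕ) (h : k.Coprime (orderOf g)) : C⟮g ^ k⟯ = C⟮g⟯ := by
  apply le_antisymm _ (C_le_C_pow g k)
  obtain ⟨m, hm⟩ := exists_pow_eq_self_of_coprime h
  have := C_le_C_pow (g ^ k) m
  rwa [hm] at this

theorem C_mul_central (g z : G) (hz : z ∈ Subgroup.center G) : C⟮g * z⟯ = C⟮g⟯ := by
  ext w
  rw [mem_C, mem_C]
  have hzw : z * w = w * z := ((Subgroup.mem_center_iff.1 hz) w).symm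
  constructor
  · intro h
    have : g * w * z = w * g * z := by
      calc g * w * z = g * (w * z) := by group
        _ = g * (z * w) := by rw [hzw]
        _ = g * z * w := by group
        _ = w * (g * z) := h
        _ = w * g * z := by group
    exact mul_right_cancel this
  · intro h
    calc g * z * w = g * (z * w) := by group
      _ = g * (w * z) := by rw [hzw]
      _ = g * w * z := by group
      _ = w * g * z := by rw [h]
      _ = w * (g * z) := by group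

theorem C_eq_top_of_central {z : G} (hz : z ∈ Subgroup.center G) : C⟮z⟯ = ⊤ := by
  rw [eq_top_iff]
  intro g _
  rw [mem_C]
  exact ((Subgroup.mem_center_iff.1 hz) g).symm

theorem cs_eq_one_of_central {z : G} (hz : z ∈ Subgroup.center G) : cs⟮z⟯ = 1 := by
  rw [C_eq_top_of_central hz, Subgroup.index_top]

theorem central_of_cs_eq_one {z : G} (h : cs⟮z⟯ = 1) : z ∈ Subgroup.center G :=
  Small.mem_center_of_index_eq_one h

theorem pElem_pow {p : ℕ} (hp : p.Prime) {g : G} (h : ∃ k : ℕ, orderOf g = p ^ k) (j : ℕ) :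
    ∃ k : ℕ, orderOf (g ^ j) = p ^ k := by
  obtain ⟨k, hk⟩ := h
  have h1 : orderOf (g ^ j) ∣ p ^ k := by rw [← hk]; exact orderOf_pow_dvd j
  obtain ⟨i, _, hi⟩ := (Nat.dvd_prime_pow hp).1 h1
  exact ⟨i, hi⟩

theorem pElem_conj {p : ℕ} {a : G} (h : ∃ k : ℕ, orderOf a = p ^ k) (g : G) :
    ∃ k : ℕ, orderOf (g * a * g⁻¹) = p ^ k := by
  rw [orderOf_conj']; exact h

/-- the conjugacy class as a set -/
def cls (a : G) : Set G := Set.range (fun g : G => g * a * g⁻¹)

theorem mem_cls {a k : G} : k ∈ cls a ↔ ∃ g : G, g * a * g⁻¹ = k := Iff.rfl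

theorem self_mem_cls (a : G) : a ∈ cls a := ⟨1, by group⟩

theorem conj_mem_cls {a k : G} (hk : k ∈ cls a) (g : G) : g * k * g⁻¹ ∈ cls a := by
  obtain ⟨h, rfl⟩ := hk
  exact ⟨g * h, by group⟩

theorem cls_eq_of_mem {a k : G} (hk : k ∈ cls a) : cls k = cls a := by
  obtain ⟨h, rfl⟩ := hk
  ext w
  constructor
  · rintro ⟨g, rfl⟩; exact ⟨g * h, by group⟩
  · rintro ⟨g, rfl⟩; exact ⟨g * h⁻¹, by group⟩

theorem card_cls [Finite G] (a : G) : Nat.card (cls a) = cs⟮a⟯ := by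
  have hbij : Function.Bijective
      (fun q : G ⧸ C⟮a⟯ => (⟨q.out * a * q.out⁻¹, ⟨q.out, rfl⟩⟩ : cls a)) := by
    constructor
    · intro q q' e
      have e1 : q.out * a * q.out⁻¹ = q'.out * a * q'.out⁻¹ := congrArg Subtype.val e
      rw [← QuotientGroup.out_eq' q, ← QuotientGroup.out_eq' q', QuotientGroup.eq, mem_C]
      calc a * (q.out⁻¹ * q'.out) = q.out⁻¹ * (q.out * a * q.out⁻¹) * q'.out := by group
        _ = q.out⁻¹ * (q'.out * a * q'.out⁻¹) * q'.out := by rw [e1]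
        _ = q.out⁻¹ * q'.out * a := by group
    · rintro ⟨k, g, rfl⟩
      obtain ⟨c, hc⟩ := QuotientGroup.mk_out_eq_mul C⟮a⟯ g
      refine ⟨(g : G ⧸ C⟮a⟯), ?_⟩
      apply Subtype.ext
      show (g : G ⧸ C⟮a⟯).out * a * (g : G ⧸ C⟮a⟯).out⁻¹ = g * a * g⁻¹
      rw [hc]
      have h1 := mem_C.1 c.2
      calc g * ↑c * a * (g * ↑c)⁻¹ = g * (↑c * a) * (↑c)⁻¹ * g⁻¹ := by group
        _ = g * (a * ↑c) * (↑c)⁻¹ * g⁻¹ := by rw [h1]
        _ = g * a * g⁻¹ := by group
  exact (Nat.card_congr (Equiv.ofBijective _ hbij)).symm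

/-- products of conjugates when the class sizes are coprime -/
theorem conj_mul_conj [Finite G] (a b g h : G) (hc : (cs⟮a⟯).Coprime (cs⟮b⟯)) :
    ∃ w : G, (g * a * g⁻¹) * (h * b * h⁻¹) = w * (a * b) * w⁻¹ := by
  obtain ⟨ca, hca, cb, hcb, e⟩ := PNil.exists_mul_of_coprime_index C⟮b⟯ C⟮a⟯ hc.symm (g⁻¹ * h)
  refine ⟨g * ca, ?_⟩
  rw [mem_C] at hca hcb
  have hh : h = g * ca * cb := by rw [mul_assoc, ← e]; group
  have e1 : cb * b * cb⁻¹ = b := by rw [← hcb]; group
  rw [hh]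
  calc g * a * g⁻¹ * (g * ca * cb * b * (g * ca * cb)⁻¹)
      = g * a * ca * (cb * b * cb⁻¹) * ca⁻¹ * g⁻¹ := by group
    _ = g * (a * ca) * b * ca⁻¹ * g⁻¹ := by rw [e1]; group
    _ = g * (ca * a) * b * ca⁻¹ * g⁻¹ := by rw [hca]
    _ = g * ca * (a * b) * (g * ca)⁻¹ := by group

/-- right stabilizer of a set -/
def rstab (K : Set G) : Subgroup G where
  carrier := {s | ∀ k ∈ K, k * s ∈ K ∧ k * s⁻¹ ∈ K}
  one_mem' := fun k hk => by simp [hk]
  mul_mem' := by
    intro s t hs ht k hk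
    refine ⟨?_, ?_⟩
    · rw [← mul_assoc]; exact (ht _ (hs k hk).1).1
    · rw [mul_inv_rev, ← mul_assoc]; exact (hs _ (ht k hk).2).2
  inv_mem' := by
    intro s hs k hk
    refine ⟨(hs k hk).2, ?_⟩
    rw [inv_inv]; exact (hs k hk).1

theorem mem_rstab {K : Set G} {s : G} : s ∈ rstab K ↔ ∀ k ∈ K, k * s ∈ K ∧ k * s⁻¹ ∈ K := Iff.rfl

theorem rstab_normal (K : Set G) (hK : ∀ k ∈ K, ∀ g : G, g * k * g⁻¹ ∈ K) : (rstab K).Normal := by
  constructor
  intro s hs g k hk
  have h0 : g⁻¹ * k * g ∈ K := by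
    have := hK k hk g⁻¹
    rwa [inv_inv] at this
  have h1 := hs (g⁻¹ * k * g) h0
  constructor
  · have := hK _ h1.1 g
    have e : g * (g⁻¹ * k * g * s) * g⁻¹ = k * (g * s * g⁻¹) := by group
    rwa [e] at this
  · have := hK _ h1.2 g
    have e : g * (g⁻¹ * k * g * s⁻¹) * g⁻¹ = k * (g * s * g⁻¹)⁻¹ := by group
    rwa [e] at this

theorem card_rstab_dvd [Finite G] (K : Set G) : Nat.card (rstab K) ∣ Nat.card K := by
  have hK : K = (QuotientGroup.mk : G → G ⧸ rstab K) ⁻¹'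
      ((QuotientGroup.mk : G → G ⧸ rstab K) '' K) := by
    ext g
    constructor
    · intro hg; exact ⟨g, hg, rfl⟩
    · rintro ⟨k, hk, e⟩
      rw [QuotientGroup.eq] at e
      have := (e k hk).1
      rwa [mul_inv_cancel_left] at this
  have e := QuotientGroup.preimageMkEquivSubgroupProdSet (rstab K)
    ((QuotientGroup.mk : G → G ⧸ rstab K) '' K)
  have h2 : Nat.card K = Nat.card (rstab K) * Nat.card ((QuotientGroup.mk : G → G ⧸ rstab K) '' K) := by
    rw [← Nat.card_prod, ← Nat.card_congr e]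
    exact Nat.card_congr (Equiv.setCongr hK)
  exact Dvd.intro _ h2.symm

/-- a subgroup is generated by its elements of prime power order -/
theorem le_of_prime_pow_mem [Finite G] (H K : Subgroup G)
    (h : ∀ g ∈ H, ∀ p : ℕ, p.Prime → (∃ k : ℕ, orderOf g = p ^ k) → g ∈ K) : H ≤ K := by
  have key : ∀ N : ℕ, ∀ g ∈ H, orderOf g = N → g ∈ K := by
    intro N
    induction N using Nat.strong_induction_on with
    | _ N ih =>
      intro g hg hN
      by_cases h1 : orderOf g = 1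
      · rw [orderOf_eq_one_iff] at h1; rw [h1]; exact K.one_mem
      · obtain ⟨p, hp, hpd⟩ := Nat.exists_prime_and_dvd h1
        have := Fact.mk hp
        obtain ⟨a, b, ha, hb, hab⟩ := PNil.exists_pow_decomp p g
        rw [← hab]
        refine K.mul_mem (h _ (H.pow_mem hg a) p hp ha) ?_
        refine ih (orderOf (g ^ b)) ?_ (g ^ b) (H.pow_mem hg b) rfl
        rw [← hN]
        have hd : orderOf (g ^ b) ∣ orderOf g := orderOf_pow_dvd b
        have hne : orderOf (g ^ b) ≠ orderOf g := by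
          intro e
          rw [e] at hb
          exact hp.one_lt.ne' (Nat.Coprime.eq_one_of_dvd hb.symm hpd)
        exact lt_of_le_of_ne (Nat.le_of_dvd (orderOf_pos g) hd) hne
  intro g hg
  exact key _ g hg rfl

/-- if `q` divides `|H : H ∩ K|` then `H` has a `q`-element outside `K` -/
theorem exists_pElem_not_mem_of_dvd_relIndex [Finite G] (q : ℕ) [hq : Fact q.Prime]
    (K H : Subgroup G) (h : q ∣ K.relIndex H) :
    ∃ d ∈ H, (∃ k : ℕ, orderOf d = q ^ k) ∧ d ∉ K := by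
  by_contra hcon
  push Not at hcon
  obtain ⟨P⟩ : Nonempty (Sylow q H) := inferInstance
  have hP : (P : Subgroup H) ≤ K.subgroupOf H := by
    intro u hu
    rw [Subgroup.mem_subgroupOf]
    obtain ⟨k, hk⟩ := PNil.pElem_of_mem_isPGroup (P : Subgroup H) P.isPGroup' u hu
    apply hcon _ u.2
    refine ⟨k, ?_⟩
    rw [← hk]; exact (Subgroup.orderOf_coe u)
  have h1 : (K.subgroupOf H).index ∣ (P : Subgroup H).index := Subgroup.index_dvd_of_le hP
  have h2 : ¬ q ∣ (P : Subgroup H).index := Sylow.not_dvd_index P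
  exact h2 (dvd_trans h h1)

/-- bounding a relative index by an injection of cosets -/
theorem relIndex_le_card_of_inj (H K : Subgroup G) {T : Type*} [Finite T] (f : H → T)
    (hf : ∀ k k' : H, f k = f k' → (k : G)⁻¹ * k' ∈ K) : K.relIndex H ≤ Nat.card T := by
  have : Function.Injective (fun q : H ⧸ K.subgroupOf H => f q.out) := by
    intro q q' e
    have h1 := hf _ _ e
    rw [← QuotientGroup.out_eq' q, ← QuotientGroup.out_eq' q', QuotientGroup.eq,
      Subgroup.mem_subgroupOf]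
    simpa using h1
  exact Nat.card_le_card_of_injective _ this

section Norm

variable {B : Type*} [CommGroup B]

/-- the norm map attached to an automorphism -/
def nrm (p : ℕ) (σ : MulAut B) : B →* B where
  toFun a := ∏ k ∈ Finset.range p, (σ ^ k) a
  map_one' := by simp
  map_mul' a b := by simp [Finset.prod_mul_distrib]

theorem nrm_apply (p : ℕ) (σ : MulAut B) (a : B) :
    nrm p σ a = ∏ k ∈ Finset.range p, (σ ^ k) a := rfl

theorem nrm_fixed (p : ℕ) (σ : MulAut B) (hσ : σ ^ p = 1) (a : B) :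
    σ (nrm p σ a) = nrm p σ a := by
  rw [nrm_apply, map_prod]
  have h1 : ∀ k, σ ((σ ^ k) a) = (σ ^ (k + 1)) a := by
    intro k; rw [pow_succ']; rfl
  simp only [h1]
  have h2 := Finset.prod_range_succ' (fun k => (σ ^ k) a) p
  have h3 := Finset.prod_range_succ (fun k => (σ ^ k) a) p
  rw [h2] at h3
  simp only [hσ, pow_zero] at h3
  exact mul_right_cancel h3

theorem nrm_of_fixed (p : ℕ) (σ : MulAut B) (a : B) (ha : σ a = a) : nrm p σ a = a ^ p := by
  have h1 : ∀ k : ℕ, (σ ^ k) a = a := by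
    intro k
    induction k with
    | zero => simp
    | succ k ih => rw [pow_succ, MulAut.mul_apply, ha, ih]
  rw [nrm_apply]; simp [h1]

theorem nrm_comm (p : ℕ) (σ τ : MulAut B) (h : τ * σ = σ * τ) (a : B) :
    τ (nrm p σ a) = nrm p σ (τ a) := by
  rw [nrm_apply, nrm_apply, map_prod]
  refine Finset.prod_congr rfl fun k _ => ?_
  have : Commute τ (σ ^ k) := (show Commute τ σ from h).pow_right k
  have h2 : τ * σ ^ k = σ ^ k * τ := this
  calc τ ((σ ^ k) a) = (τ * σ ^ k) a := rfl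
    _ = (σ ^ k * τ) a := by rw [h2]
    _ = (σ ^ k) (τ a) := rfl

theorem prod_nrm (p : ℕ) (σ τ : MulAut B) (h : σ * τ = τ * σ) (a : B)
    (hτ : ∀ k, 0 < k → k < p → nrm p (τ ^ k) a = 1) :
    ∏ i ∈ Finset.range p, nrm p (σ * τ ^ i) a = a ^ p := by
  simp only [nrm_apply]
  rw [Finset.prod_comm]
  have h1 : ∀ k ∈ Finset.range p,
      ∏ i ∈ Finset.range p, ((σ * τ ^ i) ^ k) a = (σ ^ k) (nrm p (τ ^ k) a) := by
    intro k _
    rw [nrm_apply, map_prod]
    refine Finset.prod_congr rfl fun i _ => ?_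
    have hc : Commute σ (τ ^ i) := (show Commute σ τ from h).pow_right i
    rw [hc.mul_pow, ← pow_mul, mul_comm i k, pow_mul]
    rfl
  rw [Finset.prod_congr rfl h1]
  rcases Nat.eq_zero_or_pos p with rfl | hp
  · simp
  rw [Finset.prod_eq_single 0]
  · simp [nrm_apply]
  · intro k hk hk0
    rw [hτ k (Nat.pos_of_ne_zero hk0) (Finset.mem_range.1 hk), map_one]
  · intro h0; exact absurd (Finset.mem_range.2 hp) h0

theorem prod_card_le [Finite B] {ι : Type*} [Fintype ι] [DecidableEq ι] (p : ℕ)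
    (hcop : (Nat.card B).Coprime p) (F : ι → Subgroup B) (N : ι → (B →* B))
    (h1 : ∀ i, ∀ a ∈ F i, N i a = a ^ p) (h2 : ∀ i j, i ≠ j → ∀ a ∈ F i, N j a = 1) :
    ∏ i, Nat.card (F i) ≤ Nat.card B := by
  rw [← Nat.card_pi]
  apply Nat.card_le_card_of_injective (fun f : (∀ i, F i) => ∏ i, (f i : B))
  intro f f' e
  funext j
  have e2 := congrArg (N j) e
  simp only [map_prod] at e2
  rw [Finset.prod_eq_single j, Finset.prod_eq_single j] at e2
  · rw [h1 j _ (f j).2, h1 j _ (f' j).2] at e2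
    exact Subtype.ext ((powCoprime hcop).injective e2)
  · intro b _ hb; exact h2 b j hb _ (f' b).2
  · intro hj; exact absurd (Finset.mem_univ j) hj
  · intro b _ hb; exact h2 b j hb _ (f b).2
  · intro hj; exact absurd (Finset.mem_univ j) hj

end Norm

end Cfsg.Agent.Lib.Helper69.BHMa
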