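import Mathlib
import Cfsg.Agent.Lib.Helper69.BHMa

set_option autoImplicit false

namespace Cfsg.Agent.Lib.Helper69.BHMb

open Cfsg.Agent.Lib.Helper69 Cfsg.Agent.Lib.Helper69.BHMa

variable {G : Type*} [Group G]

local notation:max "C⟮" g "⟯" => Subgroup.centralizer ({g} : Set _)
local notation:max "cs⟮" g "⟯" => Subgroup.index (Subgroup.centralizer ({g} : Set _))

theorem orderOf_dvd_card_of_mem {S : Subgroup G} {s : G} (hs : s ∈ S) : orderOf s ∣ Nat.card S := by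
  have := orderOf_dvd_natCard (⟨s, hs⟩ : S)
  rwa [Subgroup.orderOf_mk] at this

theorem rstab_cls_normal (y : G) : (rstab (cls y)).Normal :=
  rstab_normal _ (fun _ hk g => conj_mem_cls hk g)

theorem card_rstab_cls_dvd [Finite G] (y : G) : Nat.card (rstab (cls y)) ∣ cs⟮y⟯ := by
  rw [← card_cls]; exact card_rstab_dvd _

theorem stab_aux [Finite G] {y a : G} (hc : (cs⟮y⟯).Coprime (cs⟮a⟯)) (hle : cs⟮y * a⟯ ≤ cs⟮y⟯)
    {a' a'' k : G} (ha' : a' ∈ cls a) (ha'' : a'' ∈ cls a) (hk : k ∈ cls y) :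
    k * a' * a''⁻¹ ∈ cls y := by
  have hmem : ∀ a1 ∈ cls a, ∀ k1 ∈ cls y, k1 * a1 ∈ cls (y * a) := by
    rintro _ ⟨g, rfl⟩ _ ⟨h, rfl⟩
    obtain ⟨w, hw⟩ := conj_mul_conj y a h g hc
    exact ⟨w, hw.symm⟩
  have hbij : Function.Bijective
      (fun k1 : cls y => (⟨k1 * a'', hmem a'' ha'' k1 k1.2⟩ : cls (y * a))) := by
    apply Function.Injective.bijective_of_nat_card_le
    · intro k1 k2 e
      have := congrArg Subtype.val e
      exact Subtype.ext (mul_right_cancel this)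
    · rw [card_cls, card_cls]; exact hle
  obtain ⟨k2, hk2⟩ := hbij.2 ⟨k * a', hmem a' ha' k hk⟩
  have e : (k2 : G) * a'' = k * a' := congrArg Subtype.val hk2
  have : k * a' * a''⁻¹ = k2 := by rw [← e]; group
  rw [this]; exact k2.2

theorem stab_mem [Finite G] {y a : G} (hc : (cs⟮y⟯).Coprime (cs⟮a⟯)) (hle : cs⟮y * a⟯ ≤ cs⟮y⟯)
    (g : G) : g * a * g⁻¹ * a⁻¹ ∈ rstab (cls y) := by
  rw [mem_rstab]; intro k hk
  constructor
  · have := stab_aux hc hle (⟨g, rfl⟩ : g * a * g⁻¹ ∈ cls a) (self_mem_cls a) hk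
    have e : k * (g * a * g⁻¹ * a⁻¹) = k * (g * a * g⁻¹) * a⁻¹ := by group
    rwa [e]
  · have := stab_aux hc hle (self_mem_cls a) (⟨g, rfl⟩ : g * a * g⁻¹ ∈ cls a) hk
    have e : k * (g * a * g⁻¹ * a⁻¹)⁻¹ = k * a * (g * a * g⁻¹)⁻¹ := by group
    rwa [e]

/-- the standing hypotheses: `m > n > 1` coprime are the two largest class sizes -/
structure Hyp (G : Type*) [Group G] (m n : ℕ) : Prop where
  hmn : n < m
  hn : 1 < n
  hcop : m.Coprime n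
  htop : ∀ z : G, cs⟮z⟯ ≤ m
  hsecond : ∀ z : G, cs⟮z⟯ < m → cs⟮z⟯ ≤ n
  exm : ∃ y : G, cs⟮y⟯ = m

variable {m n : ℕ}

theorem Hyp.le_n (H : Hyp G m n) {z : G} (hz : cs⟮z⟯ ≠ m) : cs⟮z⟯ ≤ n :=
  H.hsecond z (lt_of_le_of_ne (H.htop z) hz)

theorem Hyp.not_central_m (H : Hyp G m n) {v : G} (hv : cs⟮v⟯ = m) : v ∉ Subgroup.center G := by
  intro h
  have := cs_eq_one_of_central h
  have h1 := H.hmn
  have h2 := H.hn
  omega

theorem Hyp.not_central_n (H : Hyp G m n) {v : G} (hv : cs⟮v⟯ = n) : v ∉ Subgroup.center G := by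
  intro h
  have := cs_eq_one_of_central h
  have h2 := H.hn
  omega

section
variable [Finite G]

theorem S1_mem (H : Hyp G m n) {y a : G} (hy : cs⟮y⟯ = m) (ha : (cs⟮a⟯).Coprime m) (g : G) :
    g * a * g⁻¹ * a⁻¹ ∈ rstab (cls y) :=
  stab_mem (by rw [hy]; exact ha.symm) (by rw [hy]; exact H.htop _) g

theorem S1_card {y : G} (hy : cs⟮y⟯ = m) : Nat.card (rstab (cls y)) ∣ m := by
  rw [← hy]; exact card_rstab_cls_dvd y

theorem S1_le {y a : G} (hy : cs⟮y⟯ = m) (ha : (cs⟮a⟯).Coprime m) :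
    rstab (cls y) ≤ C⟮a⟯ := by
  have := rstab_cls_normal y
  rw [← Subgroup.relIndex_eq_one]
  have h1 : (C⟮a⟯).relIndex (rstab (cls y)) ∣ cs⟮a⟯ :=
    RepAvg.relIndex_dvd_index_of_normal_right _ _
  have h2 : (C⟮a⟯).relIndex (rstab (cls y)) ∣ m :=
    dvd_trans (Subgroup.relIndex_dvd_card _ _) (S1_card hy)
  exact Nat.eq_one_of_dvd_coprimes ha h1 h2

theorem S1_comm (H : Hyp G m n) {a : G} (ha : (cs⟮a⟯).Coprime m) (g : G) :
    a * (g * a * g⁻¹) = g * a * g⁻¹ * a := by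
  obtain ⟨y, hy⟩ := H.exm
  have h1 := mem_C.1 (S1_le hy ha (S1_mem H hy ha g))
  calc a * (g * a * g⁻¹) = a * (g * a * g⁻¹ * a⁻¹) * a := by group
    _ = g * a * g⁻¹ * a⁻¹ * a * a := by rw [h1]
    _ = g * a * g⁻¹ * a := by group

/-- (A): coprime class size and coprime order force centrality -/
theorem S2 (H : Hyp G m n) {a : G} (ha : (cs⟮a⟯).Coprime m) (ho : (orderOf a).Coprime m) :
    a ∈ Subgroup.center G := by
  obtain ⟨y, hy⟩ := H.exm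
  rw [Subgroup.mem_center_iff]
  intro g
  have hs := S1_mem H hy ha g
  have hcomm := S1_comm H ha g
  have h1 : orderOf (g * a * g⁻¹ * a⁻¹) ∣ m :=
    dvd_trans (orderOf_dvd_card_of_mem hs) (S1_card hy)
  have h2 : orderOf (g * a * g⁻¹ * a⁻¹) ∣ orderOf a := by
    apply orderOf_dvd_of_pow_eq_one
    have hc : Commute (g * a * g⁻¹) a⁻¹ := (show Commute (g * a * g⁻¹) a from hcomm.symm).inv_right
    rw [hc.mul_pow, inv_pow, pow_orderOf_eq_one, inv_one, mul_one]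
    have := pow_orderOf_eq_one (g * a * g⁻¹)
    rwa [orderOf_conj'] at this
  have h3 : orderOf (g * a * g⁻¹ * a⁻¹) = 1 := Nat.eq_one_of_dvd_coprimes ho h2 h1
  rw [orderOf_eq_one_iff] at h3
  have h4 : g * a * g⁻¹ = a := by
    calc g * a * g⁻¹ = g * a * g⁻¹ * a⁻¹ * a := by group
      _ = a := by rw [h3, one_mul]
  calc g * a = g * a * g⁻¹ * g := by group
    _ = a * g := by rw [h4]

theorem n_absorb (H : Hyp G m n) {x d : G} (hx : cs⟮x⟯ = n) (hd : d ∈ C⟮x⟯)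
    (hco : (orderOf x).Coprime (orderOf d)) : C⟮x⟯ ≤ C⟮d⟯ := by
  have hcomm : Commute x d := mem_C.1 hd
  have hC := ItoA.centralizer_mul_of_coprime x d hcomm hco
  have hle : C⟮x * d⟯ ≤ C⟮x⟯ := by rw [hC]; exact inf_le_left
  have hdvd : n ∣ cs⟮x * d⟯ := by
    have := cs_dvd_of_le hle; rwa [hx] at this
  have hne : cs⟮x * d⟯ ≠ m := by
    intro e; rw [e] at hdvd
    have := Nat.Coprime.eq_one_of_dvd H.hcop.symm hdvd
    have := H.hn; omega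
  have hle2 : cs⟮x * d⟯ ≤ n := H.le_n hne
  have hpos : 0 < cs⟮x * d⟯ := Nat.pos_of_ne_zero Subgroup.index_ne_zero_of_finite
  have heq : cs⟮x * d⟯ = n := le_antisymm hle2 (Nat.le_of_dvd hpos hdvd)
  have hCeq : C⟮x * d⟯ = C⟮x⟯ := C_eq_of_le_of_cs hle (by rw [heq, hx])
  rw [← hCeq, hC]; exact inf_le_right

theorem m_absorb (H : Hyp G m n) {v d : G} (hv : cs⟮v⟯ = m) (hd : d ∈ C⟮v⟯)
    (hco : (orderOf v).Coprime (orderOf d)) : C⟮v⟯ ≤ C⟮d⟯ := by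
  have hcomm : Commute v d := mem_C.1 hd
  have hC := ItoA.centralizer_mul_of_coprime v d hcomm hco
  have hle : C⟮v * d⟯ ≤ C⟮v⟯ := by rw [hC]; exact inf_le_left
  have hdvd : m ∣ cs⟮v * d⟯ := by
    have := cs_dvd_of_le hle; rwa [hv] at this
  have hpos : 0 < cs⟮v * d⟯ := Nat.pos_of_ne_zero Subgroup.index_ne_zero_of_finite
  have heq : cs⟮v * d⟯ = m := le_antisymm (H.htop _) (Nat.le_of_dvd hpos hdvd)
  have hCeq : C⟮v * d⟯ = C⟮v⟯ := C_eq_of_le_of_cs hle (by rw [heq, hv])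
  rw [← hCeq, hC]; exact inf_le_right

theorem coprime_pow_m {r : ℕ} (hr : r.Prime) (hrm : ¬ r ∣ m) (k : ℕ) : (r ^ k).Coprime m :=
  Nat.Coprime.pow_left k ((Nat.Prime.coprime_iff_not_dvd hr).2 hrm)

/-- splitting off a central `r`-part -/
theorem exists_coprime_part (r : ℕ) (hr : r.Prime) (x : G)
    (hcen : ∀ i : ℕ, (∃ k : ℕ, orderOf (x ^ i) = r ^ k) → x ^ i ∈ Subgroup.center G) :
    ∃ j : ℕ, (orderOf (x ^ j)).Coprime r ∧ C⟮x ^ j⟯ = C⟮x⟯ := by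
  have := Fact.mk hr
  obtain ⟨i, j, hi, hj, hij⟩ := PNil.exists_pow_decomp r x
  refine ⟨j, hj, ?_⟩
  have := C_mul_central (x ^ j) (x ^ i) (hcen i hi)
  rw [← pow_add, add_comm, pow_add, hij] at this
  exact this.symm

/-- (B): `r`-elements of `C(x)` are central for `r ∤ m` -/
theorem S3 (H : Hyp G m n) {x : G} (hx : cs⟮x⟯ = n) {r : ℕ} (hr : r.Prime) (hrm : ¬ r ∣ m)
    {d : G} (hd : d ∈ C⟮x⟯) (hdr : ∃ k : ℕ, orderOf d = r ^ k) : d ∈ Subgroup.center G := by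
  have hcn : n.Coprime m := H.hcop.symm
  obtain ⟨j, hj, hCj⟩ := exists_coprime_part r hr x (by
    intro i hi
    refine S2 H (Nat.Coprime.coprime_dvd_left (cs_dvd_of_le (C_le_C_pow x i)) (by rw [hx]; exact hcn)) ?_
    obtain ⟨k, hk⟩ := hi; rw [hk]; exact coprime_pow_m hr hrm k)
  have hxj : cs⟮x ^ j⟯ = n := by rw [hCj]; exact hx
  have hle3 : C⟮x ^ j⟯ ≤ C⟮d⟯ := n_absorb H hxj (by rw [hCj]; exact hd) (by
    obtain ⟨k, hk⟩ := hdr; rw [hk]; exact Nat.Coprime.pow_right k hj)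
  refine S2 H (Nat.Coprime.coprime_dvd_left (cs_dvd_of_le hle3) (by rw [hxj]; exact hcn)) ?_
  obtain ⟨k, hk⟩ := hdr; rw [hk]; exact coprime_pow_m hr hrm k

/-- (T) -/
theorem S4' (H : Hyp G m n) {x b : G} (hx : cs⟮x⟯ = n) (hb : b ∉ Subgroup.center G)
    (hbn : (cs⟮b⟯).Coprime n) : cs⟮x * b⟯ = m := by
  by_contra hne
  obtain ⟨y, hy⟩ := H.exm
  have hle : cs⟮x * b⟯ ≤ cs⟮x⟯ := by rw [hx]; exact H.le_n hne
  have hc : (cs⟮x⟯).Coprime (cs⟮b⟯) := by rw [hx]; exact hbn.symm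
  apply hb
  rw [Subgroup.mem_center_iff]
  intro g
  have hs1 : g * b * g⁻¹ * b⁻¹ ∈ rstab (cls x) := stab_mem hc hle g
  have h1 : orderOf (g * b * g⁻¹ * b⁻¹) ∣ n := by
    refine dvd_trans (orderOf_dvd_card_of_mem hs1) ?_
    rw [← hx]; exact card_rstab_cls_dvd x
  have hxs : x * (g * b * g⁻¹) * b⁻¹ ∈ cls x :=
    stab_aux hc hle (⟨g, rfl⟩ : g * b * g⁻¹ ∈ cls b) (self_mem_cls b) (self_mem_cls x)
  obtain ⟨h, hh⟩ := hxs
  have hh : h * x * h⁻¹ = x * (g * b * g⁻¹) * b⁻¹ := hh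
  have hxm : (cs⟮x⟯).Coprime m := by rw [hx]; exact H.hcop.symm
  have hs2 := S1_mem H hy hxm h
  rw [hh] at hs2
  have := rstab_cls_normal y
  have hs3 : g * b * g⁻¹ * b⁻¹ ∈ rstab (cls y) := by
    have := (rstab_cls_normal y).conj_mem _ hs2 x⁻¹
    have e : x⁻¹ * (x * (g * b * g⁻¹) * b⁻¹ * x⁻¹) * x⁻¹⁻¹ = g * b * g⁻¹ * b⁻¹ := by group
    rwa [e] at this
  have h2 : orderOf (g * b * g⁻¹ * b⁻¹) ∣ m :=
    dvd_trans (orderOf_dvd_card_of_mem hs3) (S1_card hy)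
  have h3 : orderOf (g * b * g⁻¹ * b⁻¹) = 1 := Nat.eq_one_of_dvd_coprimes H.hcop h2 h1
  rw [orderOf_eq_one_iff] at h3
  have h4 : g * b * g⁻¹ = b := by
    calc g * b * g⁻¹ = g * b * g⁻¹ * b⁻¹ * b := by group
      _ = b := by rw [h3, one_mul]
  calc g * b = g * b * g⁻¹ * g := by group
    _ = b * g := by rw [h4]

theorem S4 (H : Hyp G m n) {x b : G} (hx : cs⟮x⟯ = n) (hb : b ∉ Subgroup.center G)
    (hbn : (cs⟮b⟯).Coprime n) (g : G) : cs⟮g * x * g⁻¹ * b⟯ = m :=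
  S4' H (by rw [cs_conj]; exact hx) hb hbn

/-- no element of `C(x)` has class size `m` -/
theorem S5 (H : Hyp G m n) {x e : G} (hx : cs⟮x⟯ = n) (he : e ∈ C⟮x⟯) : cs⟮e⟯ ≠ m := by
  intro hem
  have hn1 : n ≠ 1 := by have := H.hn; omega
  obtain ⟨p, hp, hpn⟩ := Nat.exists_prime_and_dvd hn1
  have hpm : ¬ p ∣ m := by
    intro h
    have := Nat.eq_one_of_dvd_coprimes H.hcop h hpn
    exact hp.one_lt.ne' this
  have := Fact.mk hp
  obtain ⟨j, hj, hCj⟩ := exists_coprime_part p hp e (by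
    intro i hi
    exact S3 H hx hp hpm (Subgroup.pow_mem _ he i) hi)
  have hej : cs⟮e ^ j⟯ = m := by rw [hCj]; exact hem
  -- all p-elements of C(e^j) are central
  have hcen : ∀ c ∈ C⟮e ^ j⟯, (∃ k : ℕ, orderOf c = p ^ k) → c ∈ Subgroup.center G := by
    intro c hc hcp
    have hle : C⟮e ^ j⟯ ≤ C⟮c⟯ := m_absorb H hej hc (by
      obtain ⟨k, hk⟩ := hcp; rw [hk]; exact Nat.Coprime.pow_right k hj)
    have hxc : x ∈ C⟮c⟯ := by
      apply hle; rw [hCj, mem_C]; exact (mem_C.1 he).symm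
    exact S3 H hx hp hpm (mem_C.2 (mem_C.1 hxc).symm) hcp
  have hall : ∀ u : G, (∃ k : ℕ, orderOf u = p ^ k) → u ∈ Subgroup.center G := by
    intro u hu
    obtain ⟨g, hg⟩ := PNil.exists_conj_mem_of_not_dvd_index p C⟮e ^ j⟯ (by rw [hej]; exact hpm) u hu
    have h1 := hcen _ hg (by
      have := pElem_conj hu g⁻¹
      rwa [inv_inv] at this)
    have h2 := (Subgroup.mem_center_iff.1 h1) g
    have e1 : u = g * (g⁻¹ * u * g) * g⁻¹ := by group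
    rw [e1, h2]
    have e2 : g⁻¹ * u * g * g * g⁻¹ = g⁻¹ * u * g := by group
    rw [e2]; exact h1
  have h3 : p ∣ (C⟮x⟯).relIndex ⊤ := by rw [Subgroup.relIndex_top_right, hx]; exact hpn
  obtain ⟨d, _, hdp, hd⟩ := exists_pElem_not_mem_of_dvd_relIndex p C⟮x⟯ ⊤ h3
  exact hd (center_le_C x (hall d hdp))

/-- elements of `C(x)` with class size prime to `n` are central -/
theorem S6 (H : Hyp G m n) {x e : G} (hx : cs⟮x⟯ = n) (he : e ∈ C⟮x⟯)
    (hen : (cs⟮e⟯).Coprime n) : e ∈ Subgroup.center G := by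
  by_contra hcon
  have h1 := S4' H hx hcon hen
  exact S5 H hx (Subgroup.mul_mem _ (self_mem_C x) he) h1

/-- `q`-elements (`q ∣ m`) with class size prime to `n` are central -/
theorem S7 (H : Hyp G m n) {x : G} (hx : cs⟮x⟯ = n) {q : ℕ} (hq : q.Prime) (hqm : q ∣ m)
    {d : G} (hdq : ∃ k : ℕ, orderOf d = q ^ k) (hdn : (cs⟮d⟯).Coprime n) :
    d ∈ Subgroup.center G := by
  have := Fact.mk hq
  have hqn : ¬ q ∣ n := by
    intro h
    exact hq.one_lt.ne' (Nat.eq_one_of_dvd_coprimes H.hcop hqm h)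
  obtain ⟨g, hg⟩ := PNil.exists_conj_mem_of_not_dvd_index q C⟮x⟯ (by rw [hx]; exact hqn) d hdq
  have h1 : g⁻¹ * d * g ∈ Subgroup.center G := by
    refine S6 H hx hg ?_
    have := cs_conj g⁻¹ d
    rw [inv_inv] at this
    rw [this]; exact hdn
  have h2 := (Subgroup.mem_center_iff.1 h1) g
  have e1 : d = g * (g⁻¹ * d * g) * g⁻¹ := by group
  rw [e1, h2]
  have e2 : g⁻¹ * d * g * g * g⁻¹ = g⁻¹ * d * g := by group
  rw [e2]; exact h1

omit [Finite G] in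
theorem coprime_of_dvd_m (H : Hyp G m n) {k : ℕ} (hk : k ∣ m) : k.Coprime n :=
  Nat.Coprime.coprime_dvd_left hk H.hcop

/-- `q`-elements (`q ∣ m`) of `C(y)` are central when `y` has class size `m` -/
theorem S8 (H : Hyp G m n) {x : G} (hx : cs⟮x⟯ = n) {y : G} (hy : cs⟮y⟯ = m) {q : ℕ}
    (hq : q.Prime) (hqm : q ∣ m) {d : G} (hd : d ∈ C⟮y⟯) (hdq : ∃ k : ℕ, orderOf d = q ^ k) :
    d ∈ Subgroup.center G := by
  obtain ⟨j, hj, hCj⟩ := exists_coprime_part q hq y (by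
    intro i hi
    refine S7 H hx hq hqm hi (coprime_of_dvd_m H ?_)
    rw [← hy]; exact cs_dvd_of_le (C_le_C_pow y i))
  have hyj : cs⟮y ^ j⟯ = m := by rw [hCj]; exact hy
  have hle : C⟮y ^ j⟯ ≤ C⟮d⟯ := m_absorb H hyj (by rw [hCj]; exact hd) (by
    obtain ⟨k, hk⟩ := hdq; rw [hk]; exact Nat.Coprime.pow_right k hj)
  refine S7 H hx hq hqm hdq (coprime_of_dvd_m H ?_)
  rw [← hyj]; exact cs_dvd_of_le hle

theorem num_lemma (a b m n : ℕ) (hm : 0 < m) (hcop : m.Coprime n) (e : a * n = b * m)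
    (ha : ∀ r : ℕ, r.Prime → r ∣ a → r ∣ m) (hb : b.Coprime m) : a = m ∧ b = n := by
  have h1 : m ∣ a := Nat.Coprime.dvd_of_dvd_mul_right hcop (Dvd.intro_left b e.symm)
  obtain ⟨t, rfl⟩ := h1
  have h2 : t * n = b := by
    have : m * (t * n) = m * b := by rw [← mul_assoc, e, mul_comm]
    exact Nat.eq_of_mul_eq_mul_left hm this
  have ht : t = 1 := by
    by_contra ht
    obtain ⟨r, hr, hrt⟩ := Nat.exists_prime_and_dvd ht
    have h3 : r ∣ m := ha r hr (dvd_mul_of_dvd_right hrt m)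
    have h4 : r ∣ b := by rw [← h2]; exact dvd_mul_of_dvd_left hrt n
    exact hr.one_lt.ne' (Nat.eq_one_of_dvd_coprimes hb h4 h3)
  subst ht
  exact ⟨by rw [mul_one], by rw [← h2, one_mul]⟩

theorem S9 (H : Hyp G m n) {x : G} (hx : cs⟮x⟯ = n) {y : G} (hy : cs⟮y⟯ = m) :
    (Subgroup.center G).relIndex C⟮x⟯ = m ∧ (Subgroup.center G).relIndex C⟮y⟯ = n := by
  have e1 := Subgroup.relIndex_mul_index (center_le_C x)
  have e2 := Subgroup.relIndex_mul_index (center_le_C y)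
  rw [hx] at e1
  rw [hy] at e2
  have hm : 0 < m := by have := H.hmn; omega
  apply num_lemma _ _ m n hm H.hcop (e1.trans e2.symm)
  · intro r hr hra
    by_contra hrm
    have := Fact.mk hr
    obtain ⟨d, hd, hdr, hdZ⟩ := exists_pElem_not_mem_of_dvd_relIndex r (Subgroup.center G) C⟮x⟯ hra
    exact hdZ (S3 H hx hr hrm hd hdr)
  · apply Nat.coprime_of_dvd
    intro q hq hqb hqm
    have := Fact.mk hq
    obtain ⟨d, hd, hdq, hdZ⟩ := exists_pElem_not_mem_of_dvd_relIndex q (Subgroup.center G) C⟮y⟯ hqb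
    exact hdZ (S8 H hx hy hq hqm hd hdq)

theorem index_center (H : Hyp G m n) {x : G} (hx : cs⟮x⟯ = n) : (Subgroup.center G).index = m * n := by
  obtain ⟨y, hy⟩ := H.exm
  have e1 := Subgroup.relIndex_mul_index (center_le_C x)
  rw [hx, (S9 H hx hy).1] at e1
  exact e1.symm

/-- noncentral elements of class size prime to `n` have class size `m` -/
theorem S10 (H : Hyp G m n) {x : G} (hx : cs⟮x⟯ = n) {b : G} (hb : b ∉ Subgroup.center G)
    (hbn : (cs⟮b⟯).Coprime n) : cs⟮b⟯ = m := by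
  by_contra hne
  have e1 := Subgroup.relIndex_mul_index (center_le_C b)
  rw [index_center H hx] at e1
  have h1 : cs⟮b⟯ ∣ m := Nat.Coprime.dvd_of_dvd_mul_right hbn (Dvd.intro_left _ e1)
  obtain ⟨u, hu⟩ := h1
  have hpos : 0 < cs⟮b⟯ := Nat.pos_of_ne_zero Subgroup.index_ne_zero_of_finite
  have hu1 : u ≠ 1 := by
    intro h; rw [h, mul_one] at hu; exact hne hu.symm
  have e2 : (Subgroup.center G).relIndex C⟮b⟯ = u * n := by
    have : cs⟮b⟯ * (Subgroup.center G).relIndex C⟮b⟯ = cs⟮b⟯ * (u * n) := by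
      rw [mul_comm, e1, hu, mul_assoc]
    exact Nat.eq_of_mul_eq_mul_left hpos this
  obtain ⟨q, hq, hqu⟩ := Nat.exists_prime_and_dvd hu1
  have hqm : q ∣ m := by rw [hu]; exact dvd_mul_of_dvd_right hqu _
  have hqt : q ∣ (Subgroup.center G).relIndex C⟮b⟯ := by rw [e2]; exact dvd_mul_of_dvd_left hqu _
  have := Fact.mk hq
  obtain ⟨d, hd, hdq, hdZ⟩ := exists_pElem_not_mem_of_dvd_relIndex q (Subgroup.center G) C⟮b⟯ hqt
  have hqn : ¬ q ∣ n := by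
    intro h
    exact hq.one_lt.ne' (Nat.eq_one_of_dvd_coprimes H.hcop hqm h)
  obtain ⟨g, hg⟩ := PNil.exists_conj_mem_of_not_dvd_index q C⟮x⟯ (by rw [hx]; exact hqn) d hdq
  have hd2 : d ∈ C⟮g * x * g⁻¹⟯ := (conj_mem_C_iff g x d).2 hg
  have h3 := S4 H hx hb hbn g
  apply hdZ
  refine S8 H hx h3 hq hqm ?_ hdq
  rw [mem_C] at hd hd2 ⊢
  calc g * x * g⁻¹ * b * d = g * x * g⁻¹ * (b * d) := by group
    _ = g * x * g⁻¹ * (d * b) := by rw [hd]
    _ = (g * x * g⁻¹ * d) * b := by group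
    _ = d * (g * x * g⁻¹) * b := by rw [hd2]
    _ = d * (g * x * g⁻¹ * b) := by group

theorem S11 (H : Hyp G m n) {x : G} (hx : cs⟮x⟯ = n) {v : G} (hv : cs⟮v⟯ = m) :
    C⟮x⟯ ⊓ C⟮v⟯ ≤ Subgroup.center G := by
  apply le_of_prime_pow_mem
  intro g hg r hr hgr
  by_cases hrm : r ∣ m
  · exact S8 H hx hv hr hrm hg.2 hgr
  · exact S3 H hx hr hrm hg.1 hgr

theorem S12 (H : Hyp G m n) {x : G} (hx : cs⟮x⟯ = n) {y : G} (hy : cs⟮y⟯ = m) :
    ∃ p : ℕ, p.Prime ∧ ¬ p ∣ m ∧ ∃ y1 : G, (∃ k : ℕ, orderOf y1 = p ^ k) ∧ cs⟮y1⟯ = m ∧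
      C⟮y1⟯ = C⟮y⟯ := by
  have hyZ := H.not_central_m hy
  have h1 : ¬ (Subgroup.zpowers y ≤ Subgroup.center G) := fun h => hyZ (h (Subgroup.mem_zpowers y))
  have h2 : ¬ (∀ g ∈ Subgroup.zpowers y, ∀ p : ℕ, p.Prime → (∃ k : ℕ, orderOf g = p ^ k) →
      g ∈ Subgroup.center G) := fun h => h1 (le_of_prime_pow_mem _ _ h)
  push Not at h2
  obtain ⟨g, hg, p, hp, hgp, hgZ⟩ := h2
  obtain ⟨k, rfl⟩ := Subgroup.mem_zpowers_iff.1 hg
  have hle : C⟮y⟯ ≤ C⟮y ^ k⟯ := C_le_C_zpow y k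
  have hcs : cs⟮y ^ k⟯ = m := by
    refine S10 H hx hgZ (coprime_of_dvd_m H ?_)
    rw [← hy]; exact cs_dvd_of_le hle
  refine ⟨p, hp, ?_, y ^ k, hgp, hcs, (C_eq_of_le_of_cs hle (by rw [hy, hcs])).symm⟩
  intro hpm
  exact hgZ (S8 H hx hcs hp hpm (self_mem_C _) hgp)

end

end Cfsg.Agent.Lib.Helper69.BHMb
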