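import Mathlib
import Cfsg.Agent.Lib.Helper69.BHMb

set_option autoImplicit false

namespace Cfsg.Agent.Lib.Helper69.BHMc

open Cfsg.Agent.Lib.Helper69 Cfsg.Agent.Lib.Helper69.BHMa Cfsg.Agent.Lib.Helper69.BHMb

open scoped IsMulCommutative Pointwise

variable {G : Type*} [Group G]

local notation:max "C⟮" g "⟯" => Subgroup.centralizer ({g} : Set _)
local notation:max "cs⟮" g "⟯" => Subgroup.index (Subgroup.centralizer ({g} : Set _))

/-- the center of a subgroup, as a subgroup of the whole group -/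
def Zs (S : Subgroup G) : Subgroup G := S ⊓ Subgroup.centralizer (S : Set G)

instance Zs_comm (S : Subgroup G) : IsMulCommutative (Zs S) :=
  ⟨⟨fun a b => Subtype.ext (by
    have h1 : (b : G) ∈ Subgroup.centralizer (S : Set G) := b.2.2
    have h2 : (a : G) ∈ S := a.2.1
    exact h1 a h2)⟩⟩

instance Zs_normal (S : Subgroup G) [S.Normal] : (Zs S).Normal := by
  unfold Zs; infer_instance

theorem Zs_le (S : Subgroup G) : Zs S ≤ S := inf_le_left

section act

variable (A : Subgroup G) [A.Normal]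

theorem cn_coe (u : G) (a : A) : ((MulAut.conjNormal u a : A) : G) = u * a * u⁻¹ :=
  MulAut.conjNormal_apply u a

theorem cn_fixed_iff (u : G) (a : A) : MulAut.conjNormal u a = a ↔ u * (a : G) = a * u := by
  rw [Subtype.ext_iff, cn_coe]
  constructor
  · intro h
    calc u * (a : G) = u * a * u⁻¹ * u := by group
      _ = a * u := by rw [h]
  · intro h; rw [h]; group

theorem cn_central {z : G} (hz : z ∈ Subgroup.center G) : (MulAut.conjNormal z : MulAut A) = 1 := by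
  apply MulEquiv.ext
  intro a
  apply Subtype.ext
  rw [cn_coe]
  have := (Subgroup.mem_center_iff.1 hz) (a : G)
  rw [MulAut.one_apply, ← this]; group

end act

theorem commute_of_pow_commute {p : ℕ} (hp : p.Prime) {y v : G}
    (hyp : y ^ p ∈ Subgroup.center G) {k : ℕ} (hk0 : 0 < k) (hkp : k < p)
    (h : y ^ k * v = v * y ^ k) : y * v = v * y := by
  have hcop : Nat.Coprime k p :=
    ((Nat.Prime.coprime_iff_not_dvd hp).2 (Nat.not_dvd_of_pos_of_lt hk0 hkp)).symm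
  obtain ⟨e, -, he⟩ := Nat.exists_mul_mod_eq_one_of_coprime hcop hp.one_lt
  have h1 := Nat.div_add_mod (k * e) p
  rw [he] at h1
  have h2 : y ^ (k * e) = (y ^ p) ^ (k * e / p) * y := by
    conv_lhs => rw [← h1]
    rw [pow_add, pow_mul, pow_one]
  have hz : (y ^ p) ^ (k * e / p) ∈ Subgroup.center G := Subgroup.pow_mem _ hyp _
  have h3 : y ^ (k * e) * v = v * y ^ (k * e) := by
    rw [pow_mul]; exact ((show Commute (y ^ k) v from h).pow_left e)
  rw [h2] at h3
  generalize (y ^ p) ^ (k * e / p) = z at hz h3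
  have hzv := (Subgroup.mem_center_iff.1 hz) v
  have : z * (y * v) = z * (v * y) := by
    calc z * (y * v) = z * y * v := by group
      _ = v * (z * y) := h3
      _ = (v * z) * y := by group
      _ = (z * v) * y := by rw [hzv]
      _ = z * (v * y) := by group
  exact mul_left_cancel this

theorem commute_y_of_two {p : ℕ} (hp : p.Prime) {y c v : G} (hyp : y ^ p ∈ Subgroup.center G)
    {i j : ℕ} (hij : i < j) (hj : j < p)
    (h1 : c * y ^ i * v = v * (c * y ^ i)) (h2 : c * y ^ j * v = v * (c * y ^ j)) :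
    y * v = v * y := by
  apply commute_of_pow_commute hp hyp (k := j - i) (by omega) (by omega)
  have e : y ^ j = y ^ i * y ^ (j - i) := by rw [← pow_add]; congr 1; omega
  have hc1 : Commute (c * y ^ i) v := h1
  have hc2 : Commute (c * y ^ j) v := h2
  have : y ^ (j - i) = (c * y ^ i)⁻¹ * (c * y ^ j) := by rw [e]; group
  rw [this]
  exact (hc1.inv_left.mul_left hc2)

section core

variable [Finite G] (A : Subgroup G) [A.Normal] [IsMulCommutative A]

omit [Finite G] in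
/-- the key computation in `A ⋊ C` -/
theorem KA {p : ℕ} (hAp : (Nat.card A).Coprime p) (C : Subgroup G)
    (hAC : ∀ a ∈ A, a ∈ C → a = 1)
    {u b : G} (hu : u ∈ C) (hup : u ^ p ∈ Subgroup.center G) (hb : b ∈ A) (hbu : u * b = b * u)
    {a k : G} (ha : a ∈ A) (hk : k ∈ C) (hcomm : (a * k) * (u * b) = (u * b) * (a * k)) :
    u * a = a * u ∧ u * k = k * u ∧ b * k = k * b := by
  have hAn : A.Normal := inferInstance
  -- step 1
  have e1 : k * u * k⁻¹ * u⁻¹ = a⁻¹ * (u * (b * a) * u⁻¹) * (u * (k * b⁻¹ * k⁻¹) * u⁻¹) := by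
    have : k * u = a⁻¹ * (u * b * (a * k)) * b⁻¹ := by rw [← hcomm]; group
    calc k * u * k⁻¹ * u⁻¹ = (k * u) * k⁻¹ * u⁻¹ := by group
      _ = (a⁻¹ * (u * b * (a * k)) * b⁻¹) * k⁻¹ * u⁻¹ := by rw [this]
      _ = a⁻¹ * (u * (b * a) * u⁻¹) * (u * (k * b⁻¹ * k⁻¹) * u⁻¹) := by group
  have ht : k * u * k⁻¹ * u⁻¹ = 1 := by
    apply hAC
    · rw [e1]
      exact A.mul_mem (A.mul_mem (A.inv_mem ha) (hAn.conj_mem _ (A.mul_mem hb ha) u))
        (hAn.conj_mem _ (hAn.conj_mem _ (A.inv_mem hb) k) u)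
    · exact C.mul_mem (C.mul_mem (C.mul_mem hk hu) (C.inv_mem hk)) (C.inv_mem hu)
  have hku : k * u = u * k := by
    calc k * u = k * u * k⁻¹ * u⁻¹ * u * k := by group
      _ = u * k := by rw [ht, one_mul]
  -- step 2
  have hab : a * b = b * a := setLike_mul_comm ha hb
  have e2 : a⁻¹ * (u⁻¹ * a * u) = b * (k * b * k⁻¹)⁻¹ := by
    have h1 : a * u * (k * b * k⁻¹) = u * (a * b) := by
      calc a * u * (k * b * k⁻¹) = a * (u * k) * b * k⁻¹ := by group
        _ = a * (k * u) * b * k⁻¹ := by rw [hku]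
        _ = (a * k * (u * b)) * k⁻¹ := by group
        _ = (u * b * (a * k)) * k⁻¹ := by rw [hcomm]
        _ = u * (b * a) := by group
        _ = u * (a * b) := by rw [hab]
    calc a⁻¹ * (u⁻¹ * a * u) = a⁻¹ * u⁻¹ * (a * u * (k * b * k⁻¹)) * (k * b * k⁻¹)⁻¹ := by group
      _ = a⁻¹ * u⁻¹ * (u * (a * b)) * (k * b * k⁻¹)⁻¹ := by rw [h1]
      _ = b * (k * b * k⁻¹)⁻¹ := by group
  -- e commutes with u
  have hkb : u * (k * b * k⁻¹) = (k * b * k⁻¹) * u := by
    have ck : Commute u k := hku.symm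
    have cb : Commute u b := hbu
    exact (ck.mul_right cb).mul_right ck.inv_right
  have heu : u * (b * (k * b * k⁻¹)⁻¹) = (b * (k * b * k⁻¹)⁻¹) * u := by
    have c1 : Commute u b := hbu
    have c2 : Commute u (k * b * k⁻¹) := hkb
    exact (c1.mul_right c2.inv_right)
  -- in A
  have hkbA : k * b * k⁻¹ ∈ A := hAn.conj_mem _ hb k
  let a' : A := ⟨a, ha⟩
  let e' : A := ⟨b * (k * b * k⁻¹)⁻¹, A.mul_mem hb (A.inv_mem hkbA)⟩
  let σ : MulAut A := MulAut.conjNormal u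
  have hσp : σ ^ p = 1 := by
    show (MulAut.conjNormal u : MulAut A) ^ p = 1
    rw [← map_pow]; exact cn_central A hup
  have he' : e' = a'⁻¹ * σ⁻¹ a' := by
    apply Subtype.ext
    show b * (k * b * k⁻¹)⁻¹ = a⁻¹ * ((MulAut.conjNormal u : MulAut A)⁻¹ a' : A)
    rw [MulAut.conjNormal_inv_apply, ← e2]
  have hN1 : nrm p σ e' = 1 := by
    rw [he', map_mul, map_inv]
    have h1 : σ⁻¹ (nrm p σ a') = nrm p σ (σ⁻¹ a') := nrm_comm p σ σ⁻¹ (by group) a'
    have h2 : σ (nrm p σ a') = nrm p σ a' := nrm_fixed p σ hσp a'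
    have h3 : σ⁻¹ (nrm p σ a') = nrm p σ a' := by
      conv_lhs => rw [← h2]
      exact MulAut.inv_apply_self _ _ _
    rw [← h1, h3, inv_mul_cancel]
  have hN2 : nrm p σ e' = e' ^ p := by
    apply nrm_of_fixed
    exact (cn_fixed_iff A u e').2 heu
  have he1 : e' = 1 := by
    have : e' ^ p = (1 : A) ^ p := by rw [← hN2, hN1, one_pow]
    exact (powCoprime hAp).injective this
  have he1' : b * (k * b * k⁻¹)⁻¹ = 1 := congrArg Subtype.val he1
  refine ⟨?_, hku.symm, ?_⟩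
  · have h := e2
    rw [he1'] at h
    calc u * a = a * u * (a⁻¹ * (u⁻¹ * a * u))⁻¹ := by group
      _ = a * u := by rw [h, inv_one, mul_one]
  · calc b * k = b * (k * b * k⁻¹)⁻¹ * (k * b) := by group
      _ = k * b := by rw [he1', one_mul]

theorem stepD {n p : ℕ} (hAp : (Nat.card A).Coprime p) (C : Subgroup G)
    (hAC : ∀ a ∈ A, a ∈ C → a = 1)
    {u b : G} (hu : u ∈ C) (hup : u ^ p ∈ Subgroup.center G) (hb : b ∈ A) (hbu : u * b = b * u)
    (hcs : cs⟮u * b⟯ ≤ n) :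
    Nat.card A * Nat.card C ≤
      n * (Nat.card (A ⊓ C⟮u⟯ : Subgroup G) * Nat.card (C ⊓ C⟮u⟯ ⊓ C⟮b⟯ : Subgroup G)) := by
  have hbot : A ⊓ C = ⊥ := by
    rw [eq_bot_iff]; intro a ha; exact Subgroup.mem_bot.2 (hAC a ha.1 ha.2)
  have h1 : Nat.card (A ⊔ C : Subgroup G) = Nat.card C * Nat.card A := by
    rw [Small.card_eq_relIndex_mul (le_sup_left : A ≤ A ⊔ C), Subgroup.relIndex_sup_left]
    congr 1
    have := Small.card_eq_relIndex_mul (inf_le_right : A ⊓ C ≤ C)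
    rw [Subgroup.inf_relIndex_right, hbot, Subgroup.card_bot, mul_one] at this
    exact this.symm
  have h2 : Nat.card (A ⊔ C : Subgroup G) =
      (C⟮u * b⟯).relIndex (A ⊔ C) * Nat.card ((A ⊔ C) ⊓ C⟮u * b⟯ : Subgroup G) := by
    have := Small.card_eq_relIndex_mul (inf_le_left : (A ⊔ C) ⊓ C⟮u * b⟯ ≤ A ⊔ C)
    rwa [Subgroup.inf_relIndex_left] at this
  have h3 : (C⟮u * b⟯).relIndex (A ⊔ C) ≤ n := by
    refine le_trans ?_ hcs
    rw [← Subgroup.relIndex_top_right]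
    exact Subgroup.relIndex_le_of_le_right le_top
      (by rw [Subgroup.relIndex_top_right]; exact Subgroup.index_ne_zero_of_finite)
  have h4 : Nat.card ((A ⊔ C) ⊓ C⟮u * b⟯ : Subgroup G) ≤
      Nat.card (A ⊓ C⟮u⟯ : Subgroup G) * Nat.card (C ⊓ C⟮u⟯ ⊓ C⟮b⟯ : Subgroup G) := by
    have hsub : (((A ⊔ C) ⊓ C⟮u * b⟯ : Subgroup G) : Set G) ⊆
        ((A ⊓ C⟮u⟯ : Subgroup G) : Set G) * ((C ⊓ C⟮u⟯ ⊓ C⟮b⟯ : Subgroup G) : Set G) := by
      intro h hh
      have hh1 : h ∈ ((A ⊔ C : Subgroup G) : Set G) := hh.1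
      rw [Subgroup.normal_mul] at hh1
      obtain ⟨a, ha, k, hk, rfl⟩ := Set.mem_mul.1 hh1
      have hcomm := mem_C.1 hh.2
      obtain ⟨r1, r2, r3⟩ := KA A hAp C hAC hu hup hb hbu ha hk hcomm.symm
      exact Set.mul_mem_mul ⟨ha, mem_C.2 r1⟩ ⟨⟨hk, mem_C.2 r2⟩, mem_C.2 r3⟩
    calc Nat.card ((A ⊔ C) ⊓ C⟮u * b⟯ : Subgroup G)
        ≤ Nat.card (((A ⊓ C⟮u⟯ : Subgroup G) : Set G) *
            ((C ⊓ C⟮u⟯ ⊓ C⟮b⟯ : Subgroup G) : Set G) : Set G) :=
          Nat.card_mono (Set.toFinite _) hsub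
      _ ≤ _ := Set.natCard_mul_le
  calc Nat.card A * Nat.card C = Nat.card (A ⊔ C : Subgroup G) := by rw [h1, mul_comm]
    _ = _ := h2
    _ ≤ n * _ := Nat.mul_le_mul h3 h4

end core

section x0

variable [Finite G]

theorem exists_x0 {m n : ℕ} (H : Hyp G m n) {p : ℕ} (A : Subgroup G) {x y : G}
    (hx : cs⟮x⟯ = n) (hxp : (orderOf x).Coprime p) (hy : cs⟮y⟯ = m)
    (hyp : y ^ p ∈ Subgroup.center G)
    (hAmem : ∀ g : G, x * (g * x * g⁻¹)⁻¹ ∈ A) : ∃ x0 ∈ A, C⟮x0 ^ p⟯ = C⟮x⟯ := by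
  let fl : ℕ → G := fun j => y ^ j * x * (y ^ j)⁻¹
  let F : ℕ → G := fun k => ((List.range k).map fl).prod
  have hxm : (cs⟮x⟯).Coprime m := by rw [hx]; exact H.hcop.symm
  have hX1 : ∀ j, x * fl j = fl j * x := fun j => S1_comm H hxm (y ^ j)
  have hFsucc : ∀ k, F (k + 1) = F k * fl k := by
    intro k
    show ((List.range (k + 1)).map fl).prod = ((List.range k).map fl).prod * fl k
    rw [List.range_succ, List.map_append, List.prod_append, List.map_singleton,
      List.prod_singleton]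
  have hF0 : F 0 = 1 := by simp [F]
  have hX2 : ∀ k, F k ∈ C⟮x⟯ := by
    intro k
    induction k with
    | zero => rw [hF0]; exact Subgroup.one_mem _
    | succ k ih => rw [hFsucc]; exact Subgroup.mul_mem _ ih (mem_C.2 (hX1 k))
  have hX3 : ∀ k, x ^ k * (F k)⁻¹ ∈ A := by
    intro k
    induction k with
    | zero => rw [hF0]; simp
    | succ k ih =>
      rw [hFsucc]
      have hc : Commute x (fl k) := hX1 k
      have e : x ^ (k + 1) * (F k * fl k)⁻¹ = (x * (fl k)⁻¹) * (x ^ k * (F k)⁻¹) := by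
        have hc2 : (fl k)⁻¹ * x ^ k = x ^ k * (fl k)⁻¹ := ((hc.pow_left k).inv_right).symm
        calc x ^ (k + 1) * (F k * fl k)⁻¹ = x * (x ^ k * (fl k)⁻¹) * (F k)⁻¹ := by
              rw [pow_succ']; group
          _ = x * ((fl k)⁻¹ * x ^ k) * (F k)⁻¹ := by rw [hc2]
          _ = (x * (fl k)⁻¹) * (x ^ k * (F k)⁻¹) := by group
      rw [e]; exact A.mul_mem (hAmem (y ^ k)) ih
  have hX4 : y * F p * y⁻¹ = F p := by
    have e1 : F (p + 1) = x * (y * F p * y⁻¹) := by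
      show ((List.range (p + 1)).map fl).prod = _
      rw [List.range_succ_eq_map, List.map_cons, List.prod_cons, List.map_map]
      have h0 : fl 0 = x := by simp [fl]
      rw [h0]
      congr 1
      have : y * F p * y⁻¹ = (MulAut.conj y).toMonoidHom (F p) := by simp [MulAut.conj_apply]
      rw [this]
      show _ = (MulAut.conj y).toMonoidHom ((List.range p).map fl).prod
      rw [← List.prod_hom, List.map_map]
      congr 1
      apply List.map_congr_left
      intro j _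
      simp only [fl, Function.comp, MulEquiv.coe_toMonoidHom, MulAut.conj_apply, Nat.succ_eq_add_one,
        pow_succ']
      group
    have e2 : F (p + 1) = F p * x := by
      rw [hFsucc]
      congr 1
      have hz := (Subgroup.mem_center_iff.1 hyp) x
      show y ^ p * x * (y ^ p)⁻¹ = x
      rw [← hz]; group
    have e3 : x * (y * F p * y⁻¹) = x * F p := by
      rw [← e1, e2]; exact (mem_C.1 (hX2 p)).symm
    exact mul_left_cancel e3
  have hFZ : F p ∈ Subgroup.center G := by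
    apply S11 H hx hy
    refine ⟨hX2 p, mem_C.2 ?_⟩
    calc y * F p = y * F p * y⁻¹ * y := by group
      _ = F p * y := by rw [hX4]
  refine ⟨x ^ p * (F p)⁻¹, hX3 p, ?_⟩
  have hz : (F p)⁻¹ ∈ Subgroup.center G := Subgroup.inv_mem _ hFZ
  have hcomm : Commute (x ^ p) (F p)⁻¹ := (Subgroup.mem_center_iff.1 hz) (x ^ p)
  rw [hcomm.mul_pow, C_mul_central _ _ (Subgroup.pow_mem _ hz p), ← pow_mul]
  exact C_pow_of_coprime x (p * p) (Nat.Coprime.mul_left hxp.symm hxp.symm)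

end x0

theorem num_contra (s I : Finset ℕ) (α β : ℕ → ℕ) (a ρ : ℕ) (hI : I ⊆ s) (h2 : 2 ≤ I.card)
    (hα : ∀ i ∈ s, 1 ≤ α i) (hβ : ∀ i ∈ s, i ∉ I → β i = 1)
    (hP2 : ∀ i ∈ I, a * β i ≤ α i * ρ) (hP3 : ∏ i ∈ s, α i ≤ a) (hP1 : ρ ≤ ∏ i ∈ s, β i)
    (hρ : ρ < a) (hρ0 : 0 < ρ) : False := by
  classical
  have h3 : ∏ i ∈ I, (a * β i) ≤ ∏ i ∈ I, (α i * ρ) :=
    Finset.prod_le_prod (fun _ _ => Nat.zero_le _) hP2
  rw [Finset.prod_mul_distrib, Finset.prod_mul_distrib, Finset.prod_const, Finset.prod_const] at h3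
  have h4 : ∏ i ∈ I, β i = ∏ i ∈ s, β i :=
    Finset.prod_subset hI (fun i hi hnot => hβ i hi hnot)
  have h5 : ∏ i ∈ I, α i ≤ ∏ i ∈ s, α i := by
    rw [← Finset.prod_sdiff hI]
    apply Nat.le_mul_of_pos_left
    apply Finset.prod_pos
    intro i hi
    exact hα i (Finset.mem_sdiff.1 hi).1
  have h6 : a ^ I.card * ρ ≤ a * ρ ^ I.card := by
    calc a ^ I.card * ρ ≤ a ^ I.card * ∏ i ∈ I, β i :=
          Nat.mul_le_mul_left _ (by rw [h4]; exact hP1)
      _ ≤ (∏ i ∈ I, α i) * ρ ^ I.card := h3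
      _ ≤ a * ρ ^ I.card := Nat.mul_le_mul_right _ (h5.trans hP3)
  obtain ⟨t, ht⟩ : ∃ t, I.card = t + 2 := ⟨I.card - 2, by omega⟩
  rw [ht] at h6
  have ha0 : 0 < a := by omega
  have h7 : (a * ρ) * a ^ (t + 1) ≤ (a * ρ) * ρ ^ (t + 1) := by
    calc (a * ρ) * a ^ (t + 1) = a ^ (t + 2) * ρ := by ring
      _ ≤ a * ρ ^ (t + 2) := h6
      _ = (a * ρ) * ρ ^ (t + 1) := by ring
  have h8 : a ^ (t + 1) ≤ ρ ^ (t + 1) := Nat.le_of_mul_le_mul_left h7 (Nat.mul_pos ha0 hρ0)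
  have h9 : a ≤ ρ := (Nat.pow_le_pow_iff_left (by omega)).1 h8
  omega

theorem arith1 (a z α t β ρ n R : ℕ) (hn : 0 < n) (hz : 0 < z)
    (hd : a * (n * z) ≤ n * (α * t)) (e2 : R = ρ * z) (e3 : R = β * t) : a * β ≤ α * ρ := by
  have h5 : a * z ≤ α * t := by
    have : n * (a * z) ≤ n * (α * t) := by
      calc n * (a * z) = a * (n * z) := by ring
        _ ≤ n * (α * t) := hd
    exact Nat.le_of_mul_le_mul_left this hn
  have h6 : (a * β) * z ≤ (α * ρ) * z := by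
    calc (a * β) * z = (a * z) * β := by ring
      _ ≤ (α * t) * β := Nat.mul_le_mul_right _ h5
      _ = α * (β * t) := by ring
      _ = α * (ρ * z) := by rw [← e3, e2]
      _ = (α * ρ) * z := by ring
  exact Nat.le_of_mul_le_mul_right h6 hz

theorem card_subgroupOf_eq (A K : Subgroup G) :
    Nat.card (K.subgroupOf A) = Nat.card (A ⊓ K : Subgroup G) := by
  rw [← Subgroup.inf_subgroupOf_left K A]
  exact Nat.card_congr (Subgroup.subgroupOfEquivOfLe inf_le_left).toEquiv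

section main

variable [Finite G]

theorem coreN {m n : ℕ} (H : Hyp G m n) {p : ℕ} (hp : p.Prime) (A : Subgroup G) [A.Normal]
    [IsMulCommutative A]
    {x y c : G} (hx : cs⟮x⟯ = n) (hxp : (orderOf x).Coprime p)
    (hy : cs⟮y⟯ = m) (hyp : y ^ p ∈ Subgroup.center G)
    (hcy : c ∈ C⟮y⟯) (hcZ : c ∉ Subgroup.center G) (hcp : c ^ p ∈ Subgroup.center G)
    (hcm : cs⟮c⟯ ≠ m)
    (hAx : A ≤ C⟮x⟯) (hAZ : ∀ a ∈ A, a ∈ Subgroup.center G → a = 1)
    (hAp : (Nat.card A).Coprime p)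
    (hAmem : ∀ g : G, x * (g * x * g⁻¹)⁻¹ ∈ A) : False := by
  classical
  have hAn : A.Normal := inferInstance
  have hAC : ∀ a ∈ A, a ∈ C⟮y⟯ → a = 1 :=
    fun a ha hay => hAZ a ha (S11 H hx hy ⟨hAx ha, hay⟩)
  obtain ⟨x0, hx0A, hx0C⟩ := exists_x0 H A hx hxp hy hyp hAmem
  obtain ⟨hZD, hZC⟩ := S9 H hx hy
  have hCD : C⟮y⟯ ⊓ C⟮x0 ^ p⟯ ≤ Subgroup.center G := by
    rw [hx0C, inf_comm]; exact S11 H hx hy
  have hcy' : y * c = c * y := mem_C.1 hcy
  have hu_mem : ∀ i : ℕ, c * y ^ i ∈ C⟮y⟯ :=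
    fun i => Subgroup.mul_mem _ hcy (Subgroup.pow_mem _ (self_mem_C y) i)
  have hu_pow : ∀ i : ℕ, (c * y ^ i) ^ p ∈ Subgroup.center G := by
    intro i
    have hc : Commute c (y ^ i) := (show Commute c y from hcy'.symm).pow_right i
    rw [hc.mul_pow, ← pow_mul, mul_comm i p, pow_mul]
    exact Subgroup.mul_mem _ hcp (Subgroup.pow_mem _ hyp i)
  have hu_comm : ∀ i j : ℕ, (c * y ^ i) * (c * y ^ j) = (c * y ^ j) * (c * y ^ i) := by
    intro i j
    have hc : Commute c y := hcy'.symm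
    have h1 : Commute (c * y ^ i) (c * y ^ j) :=
      ((Commute.refl c).mul_right (hc.pow_right j)).mul_left
        (((hc.pow_right i).symm).mul_right ((Commute.refl y).pow_pow i j))
    exact h1
  let σ : G →* MulAut A := MulAut.conjNormal
  have hσp : ∀ i : ℕ, σ (c * y ^ i) ^ p = 1 :=
    fun i => by rw [← map_pow]; exact cn_central A (hu_pow i)
  let X0 : A := ⟨x0, hx0A⟩
  let bb : ℕ → A := fun i => nrm p (σ (c * y ^ i)) X0
  have hbb_fix : ∀ i : ℕ, (c * y ^ i) * (bb i : G) = (bb i : G) * (c * y ^ i) :=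
    fun i => (cn_fixed_iff A (c * y ^ i) (bb i)).1 (nrm_fixed p _ (hσp i) X0)
  -- (F1)
  have hF1 : ∏ i ∈ Finset.range p, bb i = X0 ^ p := by
    have hστ : σ c * σ y = σ y * σ c := by rw [← map_mul, ← map_mul, hcy']
    have e : ∀ i : ℕ, σ (c * y ^ i) = σ c * σ y ^ i := fun i => by rw [map_mul, map_pow]
    simp only [bb, e]
    apply prod_nrm p (σ c) (σ y) hστ X0
    intro k hk0 hkp
    rw [← map_pow]
    have hfix : (σ (y ^ k)) (nrm p (σ (y ^ k)) X0) = nrm p (σ (y ^ k)) X0 := by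
      apply nrm_fixed
      rw [← map_pow, ← pow_mul, mul_comm, pow_mul]
      exact cn_central A (Subgroup.pow_mem _ hyp k)
    have h1 := (cn_fixed_iff A (y ^ k) _).1 hfix
    have h2 := commute_of_pow_commute hp hyp hk0 hkp h1
    exact Subtype.ext (hAC _ (Subtype.mem _) (mem_C.2 h2))
  -- (F3)
  have hF3 : ∏ i ∈ Finset.range p, Nat.card ((C⟮c * y ^ i⟯).subgroupOf A) ≤ Nat.card A := by
    rw [← Fin.prod_univ_eq_prod_range (fun i => Nat.card ((C⟮c * y ^ i⟯).subgroupOf A)) p]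
    apply prod_card_le p hAp (fun i : Fin p => (C⟮c * y ^ (i : ℕ)⟯).subgroupOf A)
      (fun i : Fin p => nrm p (σ (c * y ^ (i : ℕ))))
    · intro i a ha
      apply nrm_of_fixed
      exact (cn_fixed_iff A _ a).2 (mem_C.1 (Subgroup.mem_subgroupOf.1 ha))
    · intro i j hij a ha
      have hfixj : σ (c * y ^ (j : ℕ)) (nrm p (σ (c * y ^ (j : ℕ))) a) =
          nrm p (σ (c * y ^ (j : ℕ))) a := nrm_fixed p _ (hσp j) a
      have hcomm_ij : σ (c * y ^ (i : ℕ)) * σ (c * y ^ (j : ℕ)) =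
          σ (c * y ^ (j : ℕ)) * σ (c * y ^ (i : ℕ)) := by
        rw [← map_mul, ← map_mul, hu_comm i j]
      have hfixi : σ (c * y ^ (i : ℕ)) (nrm p (σ (c * y ^ (j : ℕ))) a) =
          nrm p (σ (c * y ^ (j : ℕ))) a := by
        rw [nrm_comm p _ _ hcomm_ij a]
        congr 1
        exact (cn_fixed_iff A _ a).2 (mem_C.1 (Subgroup.mem_subgroupOf.1 ha))
      have h1 := (cn_fixed_iff A _ _).1 hfixj
      have h2 := (cn_fixed_iff A _ _).1 hfixi
      have hne : (i : ℕ) ≠ (j : ℕ) := fun h => hij (Fin.ext h)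
      have h3 : y * ((nrm p (σ (c * y ^ (j : ℕ))) a : A) : G) =
          ((nrm p (σ (c * y ^ (j : ℕ))) a : A) : G) * y := by
        rcases lt_or_gt_of_ne hne with hlt | hgt
        · exact commute_y_of_two hp hyp hlt j.2 h2 h1
        · exact commute_y_of_two hp hyp hgt i.2 h1 h2
      exact Subtype.ext (hAC _ (Subtype.mem _) (mem_C.2 h3))
  -- R
  have hR : ∀ i : ℕ, C⟮y⟯ ⊓ C⟮c * y ^ i⟯ = C⟮y⟯ ⊓ C⟮c⟯ := by
    intro i
    ext k
    simp only [Subgroup.mem_inf, mem_C]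
    constructor
    · rintro ⟨h1, h2⟩
      refine ⟨h1, ?_⟩
      have c1 : Commute (y ^ i) k := (show Commute y k from h1).pow_left i
      have c2 : Commute (c * y ^ i) k := h2
      have : c = (c * y ^ i) * (y ^ i)⁻¹ := by group
      rw [this]
      exact (c2.mul_left c1.inv_left)
    · rintro ⟨h1, h2⟩
      refine ⟨h1, ?_⟩
      have c1 : Commute (y ^ i) k := (show Commute y k from h1).pow_left i
      exact ((show Commute c k from h2).mul_left c1)
  have hZR : Subgroup.center G ≤ C⟮y⟯ ⊓ C⟮c⟯ := le_inf (center_le_C y) (center_le_C c)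
  have hzpos : 0 < Nat.card (Subgroup.center G) := Nat.card_pos
  have hnpos : 0 < n := by have := H.hn; omega
  -- (F2)
  have hF2 : ∀ i : ℕ, (bb i : G) ≠ 1 →
      Nat.card A * (C⟮(bb i : G)⟯).relIndex (C⟮y⟯ ⊓ C⟮c⟯) ≤
        Nat.card ((C⟮c * y ^ i⟯).subgroupOf A) *
          (Subgroup.center G).relIndex (C⟮y⟯ ⊓ C⟮c⟯) := by
    intro i hne
    have hcs : cs⟮c * y ^ i * (bb i : G)⟯ ≤ n := by
      apply H.le_n
      intro hm
      apply hne
      apply hAZ _ (bb i).2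
      apply S11 H hx hm
      refine ⟨hAx (bb i).2, mem_C.2 ?_⟩
      have c1 : Commute (c * y ^ i) (bb i : G) := hbb_fix i
      exact (c1.mul_left (Commute.refl _))
    have hd := stepD A hAp C⟮y⟯ hAC (hu_mem i) (hu_pow i) (bb i).2 (hbb_fix i) hcs
    rw [hR i, ← card_subgroupOf_eq] at hd
    have e1 := Small.card_eq_relIndex_mul (center_le_C y)
    rw [hZC] at e1
    have e2 := Small.card_eq_relIndex_mul hZR
    have e3 := Small.card_eq_relIndex_mul
      (inf_le_left : (C⟮y⟯ ⊓ C⟮c⟯) ⊓ C⟮(bb i : G)⟯ ≤ C⟮y⟯ ⊓ C⟮c⟯)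
    rw [Subgroup.inf_relIndex_left] at e3
    rw [e1] at hd
    exact arith1 _ _ _ _ _ _ n _ hnpos hzpos hd e2 e3
  -- (F4)
  have hF4 : (Subgroup.center G).relIndex (C⟮y⟯ ⊓ C⟮c⟯) ≤
      ∏ i ∈ Finset.range p, (C⟮(bb i : G)⟯).relIndex (C⟮y⟯ ⊓ C⟮c⟯) := by
    rw [← Fin.prod_univ_eq_prod_range (fun i => (C⟮(bb i : G)⟯).relIndex (C⟮y⟯ ⊓ C⟮c⟯)) p]
    refine le_trans ?_ (Subgroup.relIndex_iInf_le (fun i : Fin p => C⟮(bb (i : ℕ) : G)⟯))
    conv_rhs => rw [← Subgroup.inf_relIndex_right]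
    apply Subgroup.relIndex_le_of_le_left
    · intro k hk
      apply hCD
      refine ⟨hk.2.1, ?_⟩
      have hk1 : ∀ i : Fin p, k ∈ C⟮(bb (i : ℕ) : G)⟯ := fun i => (Subgroup.mem_iInf.1 hk.1) i
      have hmem : (∏ i ∈ Finset.range p, bb i) ∈ (C⟮k⟯).subgroupOf A := by
        apply Subgroup.prod_mem
        intro i hi
        rw [Subgroup.mem_subgroupOf, mem_C]
        exact (mem_C.1 (hk1 ⟨i, Finset.mem_range.1 hi⟩)).symm
      rw [hF1, Subgroup.mem_subgroupOf, mem_C] at hmem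
      exact mem_C.2 hmem.symm
    · exact Subgroup.index_ne_zero_of_finite
  -- (F5)
  have hF5 : (Subgroup.center G).relIndex (C⟮y⟯ ⊓ C⟮c⟯) < Nat.card A := by
    have hx0ne : x0 ≠ 1 := by
      intro h
      rw [h, one_pow] at hx0C
      have : cs⟮x⟯ = 1 := by
        rw [← hx0C, C_eq_top_of_central (Subgroup.one_mem _), Subgroup.index_top]
      have := H.hn; omega
    have hne1 : ∀ k : G, (⟨k * x0 * k⁻¹, hAn.conj_mem _ hx0A _⟩ : A) ≠ 1 := by
      intro k h
      apply hx0ne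
      have h' : k * x0 * k⁻¹ = 1 := congrArg Subtype.val h
      calc x0 = k⁻¹ * (k * x0 * k⁻¹) * k := by group
        _ = 1 := by rw [h']; group
    have h1 : (Subgroup.center G).relIndex (C⟮y⟯ ⊓ C⟮c⟯) ≤ Nat.card {a : A // a ≠ 1} := by
      apply relIndex_le_card_of_inj (C⟮y⟯ ⊓ C⟮c⟯) (Subgroup.center G)
        (fun k => (⟨⟨(k : G) * x0 * (k : G)⁻¹, hAn.conj_mem _ hx0A _⟩, hne1 k⟩ :
          {a : A // a ≠ 1}))
      intro k k' e
      have e1 : (k : G) * x0 * (k : G)⁻¹ = (k' : G) * x0 * (k' : G)⁻¹ :=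
        congrArg (fun t : {a : A // a ≠ 1} => ((t : A) : G)) e
      apply hCD
      refine ⟨Subgroup.mul_mem _ (Subgroup.inv_mem _ k.2.1) k'.2.1, ?_⟩
      apply C_le_C_pow x0 p
      rw [mem_C]
      calc x0 * ((k : G)⁻¹ * k') = (k : G)⁻¹ * (k * x0 * (k : G)⁻¹) * k' := by group
        _ = (k : G)⁻¹ * (k' * x0 * (k' : G)⁻¹) * k' := by rw [e1]
        _ = (k : G)⁻¹ * k' * x0 := by group
    exact lt_of_le_of_lt h1 (Finite.card_subtype_lt (x := (1 : A)) (fun h => h rfl))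
  -- case analysis
  have hIs : (Finset.range p).filter (fun i => bb i ≠ 1) ⊆ Finset.range p :=
    Finset.filter_subset _ _
  have hnotI : ∀ i ∈ Finset.range p, i ∉ (Finset.range p).filter (fun i => bb i ≠ 1) →
      bb i = 1 := by
    intro i hi hni
    by_contra h
    exact hni (Finset.mem_filter.2 ⟨hi, h⟩)
  rcases Nat.lt_or_ge ((Finset.range p).filter (fun i => bb i ≠ 1)).card 2 with hlt | hge
  · rcases Nat.eq_zero_or_pos ((Finset.range p).filter (fun i => bb i ≠ 1)).card with h0 | hpos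
    · have hempty := Finset.card_eq_zero.1 h0
      have hall : ∀ i ∈ Finset.range p, bb i = 1 :=
        fun i hi => hnotI i hi (by rw [hempty]; exact Finset.notMem_empty i)
      have hprod : X0 ^ p = 1 := by rw [← hF1]; exact Finset.prod_eq_one hall
      have hx0p : x0 ^ p = 1 := congrArg Subtype.val hprod
      rw [hx0p] at hx0C
      have : cs⟮x⟯ = 1 := by
        rw [← hx0C, C_eq_top_of_central (Subgroup.one_mem _), Subgroup.index_top]
      have := H.hn; omega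
    · have hcard : ((Finset.range p).filter (fun i => bb i ≠ 1)).card = 1 := by omega
      obtain ⟨i, hi⟩ := Finset.card_eq_one.1 hcard
      have hiI : i ∈ (Finset.range p).filter (fun i => bb i ≠ 1) := by
        rw [hi]; exact Finset.mem_singleton_self i
      have hir : i < p := Finset.mem_range.1 (hIs hiI)
      have hprod : bb i = X0 ^ p := by
        rw [← hF1]
        symm
        apply Finset.prod_eq_single i
        · intro j hj hji
          exact hnotI j hj (by rw [hi, Finset.mem_singleton]; exact hji)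
        · intro h; exact absurd (hIs hiI) h
      have h1 := hbb_fix i
      rw [hprod] at h1
      have h2 : c * y ^ i ∈ Subgroup.center G := hCD ⟨hu_mem i, mem_C.2 h1.symm⟩
      have hle : C⟮c⟯ ≤ C⟮y⟯ := by
        intro k hk
        rw [mem_C] at hk ⊢
        rcases Nat.eq_zero_or_pos i with h0 | hpos
        · exfalso; rw [h0, pow_zero, mul_one] at h2; exact hcZ h2
        · apply commute_of_pow_commute hp hyp hpos hir
          have c1 : Commute c k := hk
          have c2 : Commute (c * y ^ i) k := ((Subgroup.mem_center_iff.1 h2) k).symm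
          have : y ^ i = c⁻¹ * (c * y ^ i) := by group
          rw [this]
          exact (c1.inv_left.mul_left c2)
      have hdvd : m ∣ cs⟮c⟯ := by rw [← hy]; exact cs_dvd_of_le hle
      have hle2 := H.le_n hcm
      have hpos : 0 < cs⟮c⟯ := Nat.pos_of_ne_zero Subgroup.index_ne_zero_of_finite
      have := Nat.le_of_dvd hpos hdvd
      have := H.hmn; omega
  · apply num_contra (Finset.range p) ((Finset.range p).filter (fun i => bb i ≠ 1))
      (fun i => Nat.card ((C⟮c * y ^ i⟯).subgroupOf A))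
      (fun i => (C⟮(bb i : G)⟯).relIndex (C⟮y⟯ ⊓ C⟮c⟯)) (Nat.card A)
      ((Subgroup.center G).relIndex (C⟮y⟯ ⊓ C⟮c⟯)) hIs hge
    · intro i _; exact Nat.card_pos
    · intro i hi hni
      have := hnotI i hi hni
      show (C⟮(bb i : G)⟯).relIndex _ = 1
      rw [this, Subgroup.coe_one, C_eq_top_of_central (Subgroup.one_mem _),
        Subgroup.relIndex_top_left]
    · intro i hi
      apply hF2 i
      intro h
      exact (Finset.mem_filter.1 hi).2 (Subtype.ext h)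
    · exact hF3
    · exact hF4
    · exact hF5
    · exact Nat.pos_of_ne_zero Subgroup.index_ne_zero_of_finite

theorem rstab_inf_center {m : ℕ} {y : G} (hy : cs⟮y⟯ = m) (hyo : (orderOf y).Coprime m) :
    ∀ s ∈ rstab (cls y), s ∈ Subgroup.center G → s = 1 := by
  intro s hs hsZ
  obtain ⟨g, hg⟩ := (hs y (self_mem_cls y)).1
  have hg : g * y * g⁻¹ = y * s := hg
  have h1 : orderOf s ∣ m := dvd_trans (orderOf_dvd_card_of_mem hs) (S1_card hy)
  have h2 : orderOf s ∣ orderOf y := by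
    apply orderOf_dvd_of_pow_eq_one
    have hc : Commute y s := (Subgroup.mem_center_iff.1 hsZ) y
    have h3 : (y * s) ^ orderOf y = 1 := by
      rw [← hg, ← orderOf_conj' g y]; exact pow_orderOf_eq_one _
    rw [hc.mul_pow, pow_orderOf_eq_one, one_mul] at h3
    exact h3
  have h3 : orderOf s = 1 := Nat.eq_one_of_dvd_coprimes hyo h2 h1
  exact orderOf_eq_one_iff.1 h3

theorem lemmaN' {m n : ℕ} (H : Hyp G m n) {p : ℕ} (hp : p.Prime) {x y c : G}
    (hx : cs⟮x⟯ = n) (hxp : (orderOf x).Coprime p)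
    (hy : cs⟮y⟯ = m) (hyo : ∃ k : ℕ, orderOf y = p ^ k) (hyp : y ^ p ∈ Subgroup.center G)
    (hcy : c ∈ C⟮y⟯) (hcZ : c ∉ Subgroup.center G) (hcp : c ^ p ∈ Subgroup.center G)
    (hcm : cs⟮c⟯ ≠ m) : False := by
  have hpm : ¬ p ∣ m := fun h => H.not_central_m hy (S8 H hx hy hp h (self_mem_C y) hyo)
  have hSn : (rstab (cls y)).Normal := rstab_cls_normal y
  have hxm : (cs⟮x⟯).Coprime m := by rw [hx]; exact H.hcop.symm
  have hSx : ∀ g : G, rstab (cls y) ≤ C⟮g * x * g⁻¹⟯ :=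
    fun g => S1_le hy (by rw [cs_conj]; exact hxm)
  have hSx1 : rstab (cls y) ≤ C⟮x⟯ := S1_le hy hxm
  have hSZ := rstab_inf_center hy (by
    obtain ⟨k, hk⟩ := hyo; rw [hk]; exact coprime_pow_m hp hpm k)
  apply coreN H hp (Zs (rstab (cls y))) hx hxp hy hyp hcy hcZ hcp hcm
  · exact (Zs_le _).trans hSx1
  · intro a ha haZ; exact hSZ a (Zs_le _ ha) haZ
  · have h1 : Nat.card (Zs (rstab (cls y))) ∣ m :=
      dvd_trans (Subgroup.card_dvd_of_le (Zs_le _)) (S1_card hy)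
    exact Nat.Coprime.coprime_dvd_left h1 ((Nat.Prime.coprime_iff_not_dvd hp).2 hpm).symm
  · intro g
    constructor
    · have := (rstab (cls y)).inv_mem (S1_mem H hy hxm g)
      have e : (g * x * g⁻¹ * x⁻¹)⁻¹ = x * (g * x * g⁻¹)⁻¹ := by group
      rwa [e] at this
    · have h1 : x ∈ Subgroup.centralizer (rstab (cls y) : Set G) := by
        rw [Subgroup.mem_centralizer_iff]; intro s hs; exact (mem_C.1 (hSx1 hs)).symm
      have h2 : g * x * g⁻¹ ∈ Subgroup.centralizer (rstab (cls y) : Set G) := by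
        rw [Subgroup.mem_centralizer_iff]; intro s hs; exact (mem_C.1 (hSx g hs)).symm
      exact Subgroup.mul_mem _ h1 (Subgroup.inv_mem _ h2)

omit [Finite G] in
theorem exists_last_noncentral {p : ℕ} {g : G} (hg : ∃ k : ℕ, orderOf g = p ^ k)
    (hgZ : g ∉ Subgroup.center G) :
    ∃ j : ℕ, g ^ (p ^ j) ∉ Subgroup.center G ∧ (g ^ (p ^ j)) ^ p ∈ Subgroup.center G := by
  classical
  obtain ⟨k, hk⟩ := hg
  have hex : ∃ j : ℕ, g ^ (p ^ j) ∈ Subgroup.center G :=
    ⟨k, by rw [← hk, pow_orderOf_eq_one]; exact Subgroup.one_mem _⟩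
  have hmin := @Nat.find_min _ _ hex
  have hspec := Nat.find_spec hex
  have h0 : Nat.find hex ≠ 0 := by
    intro h; rw [h, pow_zero, pow_one] at hspec; exact hgZ hspec
  obtain ⟨j, hj⟩ := Nat.exists_eq_succ_of_ne_zero h0
  refine ⟨j, hmin (by omega), ?_⟩
  rw [← pow_mul, ← pow_succ, ← Nat.succ_eq_add_one, ← hj]; exact hspec

/-- Lemma N: a noncentral `p`-element centralizing a `p`-element of class size `m` has class
size `m` -/
theorem lemmaN {m n : ℕ} (H : Hyp G m n) {p : ℕ} (hp : p.Prime) {x y c : G}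
    (hx : cs⟮x⟯ = n) (hy : cs⟮y⟯ = m) (hyo : ∃ k : ℕ, orderOf y = p ^ k)
    (hcy : c ∈ C⟮y⟯) (hco : ∃ k : ℕ, orderOf c = p ^ k) (hcZ : c ∉ Subgroup.center G) :
    cs⟮c⟯ = m := by
  by_contra hcm
  have hpm : ¬ p ∣ m := fun h => H.not_central_m hy (S8 H hx hy hp h (self_mem_C y) hyo)
  obtain ⟨l, hl1, hl2⟩ := exists_last_noncentral hyo (H.not_central_m hy)
  have hy0 : cs⟮y ^ p ^ l⟯ = m := by
    refine S10 H hx hl1 (coprime_of_dvd_m H ?_)
    rw [← hy]; exact cs_dvd_of_le (C_le_C_pow y _)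
  have hCy0 : C⟮y ^ p ^ l⟯ = C⟮y⟯ :=
    (C_eq_of_le_of_cs (C_le_C_pow y _) (by rw [hy, hy0])).symm
  obtain ⟨j, hj1, hj2⟩ := exists_last_noncentral hco hcZ
  have hc0 : cs⟮c ^ p ^ j⟯ ≠ m := by
    intro h
    have hdvd : m ∣ cs⟮c⟯ := by rw [← h]; exact cs_dvd_of_le (C_le_C_pow c _)
    have hle2 := H.le_n hcm
    have hpos : 0 < cs⟮c⟯ := Nat.pos_of_ne_zero Subgroup.index_ne_zero_of_finite
    have := Nat.le_of_dvd hpos hdvd
    have := H.hmn; omega
  obtain ⟨i, hi, hCi⟩ := exists_coprime_part p hp x (by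
    intro i hi
    exact S3 H hx hp hpm (Subgroup.pow_mem _ (self_mem_C x) i) hi)
  have hxi : cs⟮x ^ i⟯ = n := by rw [hCi]; exact hx
  exact lemmaN' H hp hxi hi hy0 (pElem_pow hp hyo _) hl2
    (by rw [hCy0]; exact Subgroup.pow_mem _ hcy _) hj1 hj2 hc0

/-- every noncentral `r`-element with `r ∤ m` has class size `m` -/
theorem N0 {m n : ℕ} (H : Hyp G m n) {x : G} (hx : cs⟮x⟯ = n) {r : ℕ} (hr : r.Prime)
    (hrm : ¬ r ∣ m) {v : G} (hvr : ∃ k : ℕ, orderOf v = r ^ k)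
    (hvZ : v ∉ Subgroup.center G) : cs⟮v⟯ = m := by
  obtain ⟨y, hy⟩ := H.exm
  obtain ⟨p, hp, hpm, y1, hy1o, hy1, -⟩ := S12 H hx hy
  have := Fact.mk hr
  obtain ⟨g, hg⟩ := PNil.exists_conj_mem_of_not_dvd_index r C⟮y1⟯ (by rw [hy1]; exact hrm) v hvr
  have hcs : cs⟮g⁻¹ * v * g⟯ = cs⟮v⟯ := by
    have := cs_conj g⁻¹ v; rwa [inv_inv] at this
  have hco : ∃ k : ℕ, orderOf (g⁻¹ * v * g) = r ^ k := by
    have := pElem_conj hvr g⁻¹; rwa [inv_inv] at this
  have hcZ : g⁻¹ * v * g ∉ Subgroup.center G := by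
    intro h
    apply hvZ
    have h2 := (Subgroup.mem_center_iff.1 h) g
    have e1 : v = g * (g⁻¹ * v * g) * g⁻¹ := by group
    rw [e1, h2]
    have e2 : g⁻¹ * v * g * g * g⁻¹ = g⁻¹ * v * g := by group
    rw [e2]; exact h
  rw [← hcs]
  by_cases hrp : r = p
  · subst hrp
    exact lemmaN H hr hx hy1 hy1o hg hco hcZ
  · have hcop : (orderOf y1).Coprime (orderOf (g⁻¹ * v * g)) := by
      obtain ⟨k1, hk1⟩ := hy1o
      obtain ⟨k2, hk2⟩ := hco
      rw [hk1, hk2]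
      exact Nat.Coprime.pow _ _ ((Nat.coprime_primes hp hr).2 (Ne.symm hrp))
    have hle := m_absorb H hy1 hg hcop
    refine S10 H hx hcZ (coprime_of_dvd_m H ?_)
    rw [← hy1]; exact cs_dvd_of_le hle

end main

end Cfsg.Agent.Lib.Helper69.BHMc
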