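import Mathlib
import Cfsg.Agent.Lib.Helper69.BHMc

set_option autoImplicit false

namespace Cfsg.Agent.Lib.Helper69.BHMd

open Cfsg.Agent.Lib.Helper69 Cfsg.Agent.Lib.Helper69.BHMa Cfsg.Agent.Lib.Helper69.BHMb
  Cfsg.Agent.Lib.Helper69.BHMc

variable {G : Type*} [Group G]

local notation:max "C⟮" g "⟯" => Subgroup.centralizer ({g} : Set _)
local notation:max "cs⟮" g "⟯" => Subgroup.index (Subgroup.centralizer ({g} : Set _))

theorem comm_pow_central {c d : G} (h : c * d * c⁻¹ * d⁻¹ ∈ Subgroup.center G) (k : ℕ) :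
    c ^ k * d * (c ^ k)⁻¹ * d⁻¹ ∈ Subgroup.center G := by
  induction k with
  | zero => simp
  | succ k ih =>
    have e : c ^ (k + 1) * d * (c ^ (k + 1))⁻¹ * d⁻¹ =
        c * (c ^ k * d * (c ^ k)⁻¹ * d⁻¹) * c⁻¹ * (c * d * c⁻¹ * d⁻¹) := by
      rw [pow_succ']; group
    rw [e]
    have hn : (Subgroup.center G).Normal := inferInstance
    exact Subgroup.mul_mem _ (hn.conj_mem _ ih c) h

variable [Finite G] {m n : ℕ}

/-- noncentral `q`-elements (`q ∣ m`) have class size `n` -/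
theorem E1 (H : Hyp G m n) {x : G} (hx : cs⟮x⟯ = n) {q : ℕ} (hq : q.Prime) (hqm : q ∣ m) {t : G}
    (htq : ∃ k : ℕ, orderOf t = q ^ k) (htZ : t ∉ Subgroup.center G) :
    cs⟮t⟯ = n ∧ ∀ r : ℕ, r.Prime → ¬ r ∣ m → ∀ g ∈ C⟮t⟯, (∃ k : ℕ, orderOf g = r ^ k) →
      g ∈ Subgroup.center G := by
  have hne : cs⟮t⟯ ≠ m := fun h => htZ (S8 H hx h hq hqm (self_mem_C t) htq)
  have hcen : ∀ r : ℕ, r.Prime → ¬ r ∣ m → ∀ g ∈ C⟮t⟯, (∃ k : ℕ, orderOf g = r ^ k) →
      g ∈ Subgroup.center G := by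
    intro r hr hrm g hg hgr
    by_contra hgZ
    have hgm := N0 H hx hr hrm hgr hgZ
    have htg : t ∈ C⟮g⟯ := mem_C.2 (mem_C.1 hg).symm
    exact htZ (S8 H hx hgm hq hqm htg htq)
  refine ⟨?_, hcen⟩
  have e1 := Subgroup.relIndex_mul_index (center_le_C t)
  rw [index_center H hx] at e1
  have hcop : n.Coprime ((Subgroup.center G).relIndex C⟮t⟯) := by
    apply Nat.Coprime.symm
    apply Nat.coprime_of_dvd
    intro k hk hka hkn
    have hkm : k ∣ m := by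
      by_contra hkm
      have := Fact.mk hk
      obtain ⟨d, hd, hdk, hdZ⟩ :=
        exists_pElem_not_mem_of_dvd_relIndex k (Subgroup.center G) C⟮t⟯ hka
      exact hdZ (hcen k hk hkm d hd hdk)
    exact hk.one_lt.ne' (Nat.eq_one_of_dvd_coprimes H.hcop hkm hkn)
  have hdvd : n ∣ cs⟮t⟯ := Nat.Coprime.dvd_of_dvd_mul_left hcop (Dvd.intro_left m e1.symm)
  have hle := H.le_n hne
  have hpos : 0 < cs⟮t⟯ := Nat.pos_of_ne_zero Subgroup.index_ne_zero_of_finite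
  exact le_antisymm hle (Nat.le_of_dvd hpos hdvd)

theorem E2 (H : Hyp G m n) {x : G} (hx : cs⟮x⟯ = n) (g : G) : C⟮x⟯ ≤ C⟮g * x * g⁻¹⟯ := by
  obtain ⟨y, hy⟩ := H.exm
  have hxm : (cs⟮x⟯).Coprime m := by rw [hx]; exact H.hcop.symm
  apply le_of_prime_pow_mem
  intro d hd r hr hdr
  by_cases hdZ : d ∈ Subgroup.center G
  · exact center_le_C _ hdZ
  · have hrm : r ∣ m := by
      by_contra hrm; exact hdZ (S3 H hx hr hrm hd hdr)
    have hdn := (E1 H hx hr hrm hdr hdZ).1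
    have hdm : (cs⟮d⟯).Coprime m := by rw [hdn]; exact H.hcop.symm
    have h1 := S1_le hy hdm (S1_mem H hy hxm g)
    rw [mem_C] at h1 hd ⊢
    have c1 : Commute (g * x * g⁻¹ * x⁻¹) d := (show Commute d (g * x * g⁻¹ * x⁻¹) from h1).symm
    have c2 : Commute x d := hd
    have : g * x * g⁻¹ = (g * x * g⁻¹ * x⁻¹) * x := by group
    rw [this]
    exact (c1.mul_left c2)

theorem D_normal (H : Hyp G m n) {x : G} (hx : cs⟮x⟯ = n) : (C⟮x⟯).Normal := by
  constructor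
  intro d hd g
  have := E2 H hx g⁻¹ hd
  rw [conj_mem_C_iff] at this
  simpa using this

theorem D_abelian (H : Hyp G m n) {x : G} (hx : cs⟮x⟯ = n) :
    ∀ a ∈ C⟮x⟯, ∀ b ∈ C⟮x⟯, a * b = b * a := by
  have hDn := D_normal H hx
  have key : C⟮x⟯ ≤ Subgroup.centralizer (C⟮x⟯ : Set G) := by
    apply le_of_prime_pow_mem
    intro t ht r hr htr
    by_cases htZ : t ∈ Subgroup.center G
    · rw [Subgroup.mem_centralizer_iff]; intro h _; exact (Subgroup.mem_center_iff.1 htZ) h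
    · have hrm : r ∣ m := by
        by_contra hrm; exact htZ (S3 H hx hr hrm ht htr)
      obtain ⟨htn, hcen⟩ := E1 H hx hr hrm htr htZ
      have hle : C⟮t⟯ ≤ C⟮x⟯ := by
        apply le_of_prime_pow_mem
        intro g hg r' hr' hgr'
        by_cases hr'm : r' ∣ m
        · have := Fact.mk hr'
          have hr'n : ¬ r' ∣ n :=
            fun h => hr'.one_lt.ne' (Nat.eq_one_of_dvd_coprimes H.hcop hr'm h)
          obtain ⟨h, hh⟩ :=
            PNil.exists_conj_mem_of_not_dvd_index r' C⟮x⟯ (by rw [hx]; exact hr'n) g hgr'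
          have := hDn.conj_mem _ hh h
          have e : h * (h⁻¹ * g * h) * h⁻¹ = g := by group
          rwa [e] at this
        · exact center_le_C x (hcen r' hr' hr'm g hg hgr')
      have heq : C⟮t⟯ = C⟮x⟯ := C_eq_of_le_of_cs hle (by rw [htn, hx])
      rw [Subgroup.mem_centralizer_iff]
      intro h hh
      have hh' : h ∈ C⟮t⟯ := by rw [heq]; exact hh
      exact (mem_C.1 hh').symm
  intro a ha b hb
  exact (Subgroup.mem_centralizer_iff.1 (key hb)) a ha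

theorem comm_mem_D (H : Hyp G m n) {x : G} (hx : cs⟮x⟯ = n) {v : G} (hv : cs⟮v⟯ = m) (g : G) :
    g * v * g⁻¹ * v⁻¹ ∈ C⟮x⟯ := by
  have hDn := D_normal H hx
  obtain ⟨d, hd, k, hk, e⟩ :=
    PNil.exists_mul_of_coprime_index C⟮v⟯ C⟮x⟯ (by rw [hv, hx]; exact H.hcop) g
  rw [mem_C] at hk
  have e1 : g * v * g⁻¹ * v⁻¹ = d * (v * d⁻¹ * v⁻¹) := by
    rw [e]
    have : k * v * k⁻¹ = v := by rw [← hk]; group
    calc d * k * v * (d * k)⁻¹ * v⁻¹ = d * (k * v * k⁻¹) * d⁻¹ * v⁻¹ := by group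
      _ = d * v * d⁻¹ * v⁻¹ := by rw [this]
      _ = d * (v * d⁻¹ * v⁻¹) := by group
  rw [e1]
  exact Subgroup.mul_mem _ hd (hDn.conj_mem _ (Subgroup.inv_mem _ hd) v)

theorem E4 (H : Hyp G m n) {x : G} (hx : cs⟮x⟯ = n) {r : ℕ} (hr : r.Prime) (hrm : ¬ r ∣ m)
    {v : G} (hvr : ∃ k : ℕ, orderOf v = r ^ k) (hvZ : v ∉ Subgroup.center G) {g : G}
    (hg : g * v * g⁻¹ * v⁻¹ ∈ Subgroup.center G) : g * v = v * g := by
  obtain ⟨y, hy⟩ := H.exm
  have hv := N0 H hx hr hrm hvr hvZ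
  obtain ⟨d, hd, k, hk, e⟩ :=
    PNil.exists_mul_of_coprime_index C⟮v⟯ C⟮x⟯ (by rw [hv, hx]; exact H.hcop) g
  rw [mem_C] at hk
  have hkv : k * v * k⁻¹ = v := by rw [← hk]; group
  have ez : g * v * g⁻¹ * v⁻¹ = d * v * d⁻¹ * v⁻¹ := by
    rw [e]
    calc d * k * v * (d * k)⁻¹ * v⁻¹ = d * (k * v * k⁻¹) * d⁻¹ * v⁻¹ := by group
      _ = d * v * d⁻¹ * v⁻¹ := by rw [hkv]
  rw [ez] at hg
  obtain ⟨z, hz⟩ : ∃ z, z = d * v * d⁻¹ * v⁻¹ := ⟨_, rfl⟩
  rw [← hz] at hg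
  have hzc := Subgroup.mem_center_iff.1 hg
  have hdv : d * v * d⁻¹ = z * v := by rw [hz]; group
  have hpow : ∀ j : ℕ, d ^ j * v * (d ^ j)⁻¹ = z ^ j * v := by
    intro j
    induction j with
    | zero => simp
    | succ j ih =>
      have hzj : d * z ^ j = z ^ j * d :=
        (Subgroup.mem_center_iff.1 (Subgroup.pow_mem _ hg j)) d
      calc d ^ (j + 1) * v * (d ^ (j + 1))⁻¹ = d * (d ^ j * v * (d ^ j)⁻¹) * d⁻¹ := by
            rw [pow_succ']; group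
        _ = d * (z ^ j * v) * d⁻¹ := by rw [ih]
        _ = (d * z ^ j) * v * d⁻¹ := by group
        _ = (z ^ j * d) * v * d⁻¹ := by rw [hzj]
        _ = z ^ j * (d * v * d⁻¹) := by group
        _ = z ^ j * (z * v) := by rw [hdv]
        _ = z ^ (j + 1) * v := by rw [pow_succ]; group
  have hdm : d ^ m ∈ Subgroup.center G := by
    have h1 := (S9 H hx hy).1
    have h2 := Subgroup.pow_index_mem ((Subgroup.center G).subgroupOf C⟮x⟯) (⟨d, hd⟩ : C⟮x⟯)
    rw [Subgroup.mem_subgroupOf] at h2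
    have h3 : ((Subgroup.center G).subgroupOf C⟮x⟯).index = m := h1
    rw [h3] at h2
    simpa using h2
  have hzm : z ^ m = 1 := by
    have h1 := hpow m
    have h2 : d ^ m * v * (d ^ m)⁻¹ = v := by
      have := (Subgroup.mem_center_iff.1 hdm) v
      rw [← this]; group
    rw [h2] at h1
    have : z ^ m * v = 1 * v := by rw [← h1, one_mul]
    exact mul_right_cancel this
  have hzo : z ^ orderOf v = 1 := by
    have h1 : (z * v) ^ orderOf v = 1 := by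
      rw [← hdv, conj_pow, pow_orderOf_eq_one]; group
    have hc : Commute z v := (hzc v).symm
    rw [hc.mul_pow, pow_orderOf_eq_one, mul_one] at h1
    exact h1
  have hz1 : z = 1 := by
    obtain ⟨k', hk'⟩ := hvr
    have h1 : orderOf z ∣ m := orderOf_dvd_of_pow_eq_one hzm
    have h2 : orderOf z ∣ r ^ k' := by rw [← hk']; exact orderOf_dvd_of_pow_eq_one hzo
    have h3 := Nat.eq_one_of_dvd_coprimes (coprime_pow_m hr hrm k') h2 h1
    exact orderOf_eq_one_iff.1 h3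
  have hdv' : d * v = v * d := by
    rw [hz1, one_mul] at hdv
    calc d * v = d * v * d⁻¹ * d := by group
      _ = v * d := by rw [hdv]
  rw [e]
  calc d * k * v = d * (k * v) := by group
    _ = d * (v * k) := by rw [← hk]
    _ = (d * v) * k := by group
    _ = (v * d) * k := by rw [hdv']
    _ = v * (d * k) := by group

theorem C_abelian (H : Hyp G m n) {x : G} (hx : cs⟮x⟯ = n) {y : G} (hy : cs⟮y⟯ = m) :
    ∀ a ∈ C⟮y⟯, ∀ b ∈ C⟮y⟯, a * b = b * a := by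
  have key : C⟮y⟯ ≤ Subgroup.centralizer (C⟮y⟯ : Set G) := by
    apply le_of_prime_pow_mem
    intro c hc r hr hcr
    rw [Subgroup.mem_centralizer_iff]
    intro c' hc'
    by_cases hcZ : c ∈ Subgroup.center G
    · exact (Subgroup.mem_center_iff.1 hcZ) c'
    · have hrm : ¬ r ∣ m := fun hrm => hcZ (S8 H hx hy hr hrm hc hcr)
      have hcm := N0 H hx hr hrm hcr hcZ
      apply E4 H hx hr hrm hcr hcZ
      apply S11 H hx hy
      exact ⟨comm_mem_D H hx hcm c', Subgroup.mul_mem _ (Subgroup.mul_mem _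
        (Subgroup.mul_mem _ hc' hc) (Subgroup.inv_mem _ hc')) (Subgroup.inv_mem _ hc)⟩
  intro a ha b hb
  exact (Subgroup.mem_centralizer_iff.1 (key hb)) a ha

theorem fpf (H : Hyp G m n) {x : G} (hx : cs⟮x⟯ = n) {y : G} (hy : cs⟮y⟯ = m) {c d : G}
    (hc : c ∈ C⟮y⟯) (hd : d ∈ C⟮x⟯) (h : c * d * c⁻¹ * d⁻¹ ∈ Subgroup.center G) :
    c ∈ Subgroup.center G ∨ d ∈ Subgroup.center G := by
  by_contra hcon
  push Not at hcon
  obtain ⟨hcZ, hdZ⟩ := hcon
  have h1 : ¬ (Subgroup.zpowers c ≤ Subgroup.center G) :=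
    fun h => hcZ (h (Subgroup.mem_zpowers c))
  have h2 : ¬ (∀ g ∈ Subgroup.zpowers c, ∀ p : ℕ, p.Prime → (∃ k : ℕ, orderOf g = p ^ k) →
      g ∈ Subgroup.center G) := fun h => h1 (le_of_prime_pow_mem _ _ h)
  push Not at h2
  obtain ⟨g, hg, r, hr, hgr, hgZ⟩ := h2
  obtain ⟨k, rfl⟩ := (Submonoid.mem_powers_iff _ _).1 ((mem_powers_iff_mem_zpowers).2 hg)
  have hgC : c ^ k ∈ C⟮y⟯ := Subgroup.pow_mem _ hc k
  have hrm : ¬ r ∣ m := fun hrm => hgZ (S8 H hx hy hr hrm hgC hgr)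
  have hgm := N0 H hx hr hrm hgr hgZ
  have h3 := comm_pow_central h k
  have h4 : d * c ^ k * d⁻¹ * (c ^ k)⁻¹ ∈ Subgroup.center G := by
    have e : d * c ^ k * d⁻¹ * (c ^ k)⁻¹ = (c ^ k * d * (c ^ k)⁻¹ * d⁻¹)⁻¹ := by group
    rw [e]
    exact Subgroup.inv_mem _ h3
  have h5 := E4 H hx hr hrm hgr hgZ h4
  apply hdZ
  exact S11 H hx hgm ⟨hd, mem_C.2 h5.symm⟩

end Cfsg.Agent.Lib.Helper69.BHMd
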