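import Mathlib
import Cfsg.Agent.Lib.Helper27.CzStmt
import Cfsg.Agent.Lib.Helper4.SympA

/-! Piece [K1XS] of S2136: the monomial automorphisms `mono σ c` with `σ` fixing the octad
pointwise and `c` a code word inside the complement form an extraspecial group of order `2 ^ 9`. -/

set_option autoImplicit false

namespace Cfsg.Agent.Lib.Helper69.CzK1XS

open Cfsg Cfsg.Agent.Lib.Helper92.LeechCore Cfsg.Agent.Lib.Helper92.MinVec
open Cfsg.Agent.Lib.Helper92.MaxMono Cfsg.Agent.Lib.Helper92.NormalMono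
open Cfsg.Agent.Lib.Helper7.GolayBase Cfsg.Agent.Lib.Helper7.GolayCode
open Cfsg.Agent.Lib.Helper7.M24Main Cfsg.Agent.Lib.Helper26.OctadStab
open Cfsg.Agent.Lib.Helper7.M24Mem
open Cfsg.Agent.Lib.Helper27.CzStmt
open scoped Pointwise

/-- the second clause of `K1Str` -/
def H2 : Prop :=
  ∀ σ ∈ fix Oset, ∀ c, IsCW c → c ⊆ Dset → σ • c = c ∨ σ • c = Dset \ c

theorem smul_sub (h2 : H2) {σ : Equiv.Perm GolayPt} (hσ : σ ∈ fix Oset) {c : Finset GolayPt}
    (hc : IsCW c) (hs : c ⊆ Dset) : σ • c ⊆ Dset := by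
  rcases h2 σ hσ c hc hs with h | h
  · rw [h]; exact hs
  · rw [h]; exact Finset.sdiff_subset

theorem sd_cases (h2 : H2) {σ : Equiv.Perm GolayPt} (hσ : σ ∈ fix Oset) {c : Finset GolayPt}
    (hc : IsCW c) (hs : c ⊆ Dset) :
    symmDiff c (σ • c) = ∅ ∨ symmDiff c (σ • c) = Dset := by
  rcases h2 σ hσ c hc hs with h | h
  · left; rw [h, symmDiff_self]; rfl
  · right; rw [h]
    ext p
    have hA := @hs p
    simp only [Finset.mem_symmDiff, Finset.mem_sdiff]
    tauto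

theorem fix_comm {σ τ : Equiv.Perm GolayPt} (hσ : σ ∈ fix Oset) (hτ : τ ∈ fix Oset) :
    σ * τ = τ * σ := by
  have h1 := sq_of_mem_fix hO hσ
  have h2 := sq_of_mem_fix hO hτ
  have h3 := sq_of_mem_fix hO ((fix Oset).mul_mem hσ hτ)
  have e1 : σ⁻¹ = σ := inv_eq_of_mul_eq_one_left h1
  have e2 : τ⁻¹ = τ := inv_eq_of_mul_eq_one_left h2
  have e3 : (σ * τ)⁻¹ = σ * τ := inv_eq_of_mul_eq_one_left h3
  rw [mul_inv_rev, e1, e2] at e3
  exact e3.symm

/-- two elements of the group commute up to the sign change on the complement of the octad -/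
theorem mul_cases (h2 : H2) {σ τ : Equiv.Perm GolayPt} (hσ : σ ∈ fix Oset) (hτ : τ ∈ fix Oset)
    {c d : Finset GolayPt} (hc : IsCW c) (hd : IsCW d) (hsc : c ⊆ Dset) (hsd : d ⊆ Dset) :
    mono σ (mem_fix.mp hσ).1 c hc * mono τ (mem_fix.mp hτ).1 d hd =
        mono τ (mem_fix.mp hτ).1 d hd * mono σ (mem_fix.mp hσ).1 c hc ∨
    mono σ (mem_fix.mp hσ).1 c hc * mono τ (mem_fix.mp hτ).1 d hd =
        eps Dset hD * (mono τ (mem_fix.mp hτ).1 d hd * mono σ (mem_fix.mp hσ).1 c hc) := by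
  have hcomm : σ * τ = τ * σ := fix_comm hσ hτ
  rw [mono_mul, mono_mul]
  rcases h2 σ hσ d hd hsd with e1 | e1 <;> rcases h2 τ hτ c hc hsc with e2 | e2
  · left
    exact mono_congr _ _ hcomm (by rw [e1, e2, symmDiff_comm])
  · right
    rw [show eps Dset hD = mono 1 M24.one_mem Dset hD from rfl, mono_mul]
    refine mono_congr _ _ (by rw [one_mul, hcomm]) ?_
    rw [e1, e2, one_smul]
    ext p
    have hA := @hsc p
    have hB := @hsd p
    simp only [Finset.mem_symmDiff, Finset.mem_sdiff]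
    tauto
  · right
    rw [show eps Dset hD = mono 1 M24.one_mem Dset hD from rfl, mono_mul]
    refine mono_congr _ _ (by rw [one_mul, hcomm]) ?_
    rw [e1, e2, one_smul]
    ext p
    have hA := @hsc p
    have hB := @hsd p
    simp only [Finset.mem_symmDiff, Finset.mem_sdiff]
    tauto
  · left
    refine mono_congr _ _ hcomm ?_
    rw [e1, e2]
    ext p
    have hA := @hsc p
    have hB := @hsd p
    simp only [Finset.mem_symmDiff, Finset.mem_sdiff]
    tauto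

/-- the group -/
def K (h2 : H2) : Subgroup ↥Co0 where
  carrier := {g | ∃ σ, ∃ hσ : σ ∈ M24, ∃ c, ∃ hc : IsCW c,
    (∀ p ∈ Oset, σ p = p) ∧ c ⊆ Dset ∧ g = mono σ hσ c hc}
  mul_mem' := by
    rintro _ _ ⟨σ, hσ, c, hc, hf, hs, rfl⟩ ⟨τ, hτ, d, hd, hf', hs', rfl⟩
    refine ⟨σ * τ, M24.mul_mem hσ hτ, symmDiff c (σ • d),
      symmDiff_mem hc (smul_mem_supports hσ hd), ?_, ?_, mono_mul σ τ hσ hτ c d hc hd⟩
    · intro p hp
      rw [Equiv.Perm.mul_apply, hf' p hp, hf p hp]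
    · have hsd := smul_sub h2 (mem_fix.mpr ⟨hσ, hf⟩) hd hs'
      intro p hp
      rw [Finset.mem_symmDiff] at hp
      rcases hp with ⟨h, -⟩ | ⟨h, -⟩
      · exact hs h
      · exact hsd h
  one_mem' := ⟨1, M24.one_mem, ∅, empty_mem, fun _ _ => rfl, Finset.empty_subset _,
    mono_one.symm⟩
  inv_mem' := by
    rintro _ ⟨σ, hσ, c, hc, hf, hs, rfl⟩
    have hf' : ∀ p ∈ Oset, σ⁻¹ p = p := fun p hp =>
      Equiv.Perm.inv_eq_iff_eq.mpr (hf p hp).symm
    exact ⟨σ⁻¹, M24.inv_mem hσ, σ⁻¹ • c, smul_mem_supports (M24.inv_mem hσ) hc, hf',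
      smul_sub h2 (mem_fix.mpr ⟨M24.inv_mem hσ, hf'⟩) hc hs, mono_inv σ hσ c hc⟩

theorem mem_K (h2 : H2) (g : ↥Co0) : g ∈ K h2 ↔ ∃ σ, ∃ hσ : σ ∈ M24, ∃ c, ∃ hc : IsCW c,
    (∀ p ∈ Oset, σ p = p) ∧ c ⊆ Dset ∧ g = mono σ hσ c hc := Iff.rfl

theorem card_K (h2 : H2) (h1 : Nat.card {c : Finset GolayPt // IsCW c ∧ c ⊆ Dset} = 32) :
    Nat.card ↥(K h2) = 2 ^ 9 := by
  have hbij : Function.Bijective
      (fun x : ↥(fix Oset) × {c : Finset GolayPt // IsCW c ∧ c ⊆ Dset} =>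
        (⟨mono x.1.1 (mem_fix.mp x.1.2).1 x.2.1 x.2.2.1,
          ⟨x.1.1, (mem_fix.mp x.1.2).1, x.2.1, x.2.2.1, (mem_fix.mp x.1.2).2, x.2.2.2, rfl⟩⟩ :
          ↥(K h2))) := by
    constructor
    · rintro ⟨⟨σ, hσ⟩, ⟨c, hc⟩⟩ ⟨⟨τ, hτ⟩, ⟨d, hd⟩⟩ h
      have h' := mono_inj (congrArg Subtype.val h)
      obtain ⟨e1, e2⟩ := h'
      simp only at e1 e2
      subst e1
      subst e2
      rfl
    · rintro ⟨g, σ, hσ, c, hc, hf, hs, rfl⟩
      exact ⟨(⟨σ, mem_fix.mpr ⟨hσ, hf⟩⟩, ⟨c, hc, hs⟩), rfl⟩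
  rw [← Nat.card_congr (Equiv.ofBijective _ hbij), Nat.card_prod, card_fix hO, h1]
  norm_num

theorem Dset_ne_empty (h1 : Nat.card {c : Finset GolayPt // IsCW c ∧ c ⊆ Dset} = 32) :
    Dset ≠ ∅ := by
  intro h
  have hsub : Subsingleton {c : Finset GolayPt // IsCW c ∧ c ⊆ Dset} := by
    constructor
    rintro ⟨c, -, hc⟩ ⟨d, -, hd⟩
    rw [h] at hc hd
    apply Subtype.ext
    show c = d
    rw [Finset.subset_empty.mp hc, Finset.subset_empty.mp hd]
  have h3 : Nat.card {c : Finset GolayPt // IsCW c ∧ c ⊆ Dset} ≤ 1 :=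
    Finite.card_le_one_iff_subsingleton.mpr hsub
  omega

theorem smul_Dset (h2 : H2) (h1 : Nat.card {c : Finset GolayPt // IsCW c ∧ c ⊆ Dset} = 32)
    {τ : Equiv.Perm GolayPt} (hτ : τ ∈ fix Oset) : τ • Dset = Dset := by
  rcases h2 τ hτ Dset hD (Finset.Subset.refl _) with h | h
  · exact h
  · rw [Finset.sdiff_self] at h
    exact absurd (Finset.smul_finset_eq_empty.mp h) (Dset_ne_empty h1)

theorem eps_mem (h2 : H2) : eps Dset hD ∈ K h2 :=
  ⟨1, M24.one_mem, Dset, hD, fun _ _ => rfl, Finset.Subset.refl _, rfl⟩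

/-- the sign change on the complement of the octad is central -/
theorem eps_central (h2 : H2) (h1 : Nat.card {c : Finset GolayPt // IsCW c ∧ c ⊆ Dset} = 32)
    {g : ↥Co0} (hg : g ∈ K h2) : g * eps Dset hD = eps Dset hD * g := by
  obtain ⟨τ, hτ, d, hd, hf, hs, rfl⟩ := hg
  have hτ' : τ ∈ fix Oset := mem_fix.mpr ⟨hτ, hf⟩
  rw [show eps Dset hD = mono 1 M24.one_mem Dset hD from rfl, mono_mul, mono_mul]
  refine mono_congr _ _ (by rw [one_mul, mul_one]) ?_
  rw [smul_Dset h2 h1 hτ', one_smul, symmDiff_comm]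

/-- a central element is trivial or the sign change on the complement of the octad -/
theorem central_cases (h2 : H2)
    (h3 : ∀ σ ∈ fix Oset, σ ≠ 1 → ∃ c, IsCW c ∧ c ⊆ Dset ∧ σ • c ≠ c)
    (h4 : ∀ c, IsCW c → c ⊆ Dset → c ≠ ∅ → c ≠ Dset → ∃ σ ∈ fix Oset, σ • c ≠ c)
    {g : ↥Co0} (hg : g ∈ K h2) (hcen : ∀ y ∈ K h2, g * y = y * g) :
    g = 1 ∨ g = eps Dset hD := by
  obtain ⟨σ, hσ, c, hc, hf, hs, rfl⟩ := hg
  have hσ' : σ ∈ fix Oset := mem_fix.mpr ⟨hσ, hf⟩
  have hσ1 : σ = 1 := by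
    by_contra hne
    obtain ⟨d, hd, hsd, hmove⟩ := h3 σ hσ' hne
    have hy : mono 1 M24.one_mem d hd ∈ K h2 :=
      ⟨1, M24.one_mem, d, hd, fun _ _ => rfl, hsd, rfl⟩
    have h := hcen _ hy
    rw [mono_mul, mono_mul] at h
    have h' := (mono_inj h).2
    rw [one_smul] at h'
    apply hmove
    ext p
    have hp := Finset.ext_iff.mp h' p
    simp only [Finset.mem_symmDiff] at hp
    tauto
  subst hσ1
  have hcfix : ∀ τ ∈ fix Oset, τ • c = c := by
    intro τ hτ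
    have hy : mono τ (mem_fix.mp hτ).1 ∅ empty_mem ∈ K h2 :=
      ⟨τ, (mem_fix.mp hτ).1, ∅, empty_mem, (mem_fix.mp hτ).2, Finset.empty_subset _, rfl⟩
    have h := hcen _ hy
    rw [mono_mul, mono_mul] at h
    have h' := (mono_inj h).2
    rw [one_smul] at h'
    ext p
    have hp := Finset.ext_iff.mp h' p
    simp only [Finset.mem_symmDiff, Finset.notMem_empty] at hp
    tauto
  by_cases hc0 : c = ∅
  · left
    subst hc0
    exact mono_one
  · by_cases hcD : c = Dset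
    · right
      subst hcD
      rfl
    · obtain ⟨τ, hτ, hmove⟩ := h4 c hc hs hc0 hcD
      exact absurd (hcfix τ hτ) hmove

theorem eps_ne_one (h1 : Nat.card {c : Finset GolayPt // IsCW c ∧ c ⊆ Dset} = 32) :
    eps Dset hD ≠ 1 := by
  intro h
  have h' : mono 1 M24.one_mem Dset hD = mono 1 M24.one_mem ∅ empty_mem := h.trans mono_one.symm
  exact Dset_ne_empty h1 (mono_inj h').2

theorem eps_sq : eps Dset hD * eps Dset hD = 1 := by
  rw [show eps Dset hD = mono 1 M24.one_mem Dset hD from rfl, mono_mul]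
  refine (mono_congr _ _ (one_mul 1) ?_).trans mono_one
  rw [one_smul, symmDiff_self]
  rfl

theorem main : K1XS := by
  rintro ⟨h1, h2, h3, h4⟩
  have h2' : H2 := h2
  have hcard := card_K h2' h1
  refine ⟨K h2', mem_K h2', hcard, ?_⟩
  have : Finite ↥(K h2') := Nat.finite_of_card_ne_zero (by rw [hcard]; norm_num)
  have : Fact (Nat.Prime 2) := ⟨Nat.prime_two⟩
  -- the central involution
  obtain ⟨e, he⟩ : ∃ e : ↥(K h2'), (e : ↥Co0) = eps Dset hD := ⟨⟨_, eps_mem h2'⟩, rfl⟩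
  have he1 : e ≠ 1 := by
    intro h
    apply eps_ne_one h1
    rw [← he, h]
    rfl
  have he2 : e ^ 2 = 1 := by
    apply Subtype.ext
    rw [pow_two]
    show (e : ↥Co0) * (e : ↥Co0) = 1
    rw [he]
    exact eps_sq
  have hecen : e ∈ Subgroup.center ↥(K h2') := by
    rw [Subgroup.mem_center_iff]
    intro g
    apply Subtype.ext
    show (g : ↥Co0) * (e : ↥Co0) = (e : ↥Co0) * (g : ↥Co0)
    rw [he]
    exact eps_central h2' h1 g.2
  have hcen : ∀ z : ↥(K h2'), z ∈ Subgroup.center ↥(K h2') → z = 1 ∨ z = e := by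
    intro z hz
    rw [Subgroup.mem_center_iff] at hz
    have hz' : ∀ y ∈ K h2', (z : ↥Co0) * y = y * (z : ↥Co0) := by
      intro y hy
      exact (congrArg Subtype.val (hz ⟨y, hy⟩)).symm
    rcases central_cases h2' h3 h4 z.2 hz' with h | h
    · left; exact Subtype.ext h
    · right; exact Subtype.ext (h.trans he.symm)
  have hcenter : Subgroup.center ↥(K h2') = Subgroup.zpowers e := by
    apply le_antisymm
    · intro z hz
      rcases hcen z hz with h | h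
      · rw [h]; exact one_mem _
      · rw [h]; exact Subgroup.mem_zpowers e
    · rw [Subgroup.zpowers_le]
      exact hecen
  have hcardZ : Nat.card (Subgroup.center ↥(K h2')) = 2 := by
    rw [hcenter, Nat.card_zpowers]
    exact orderOf_eq_prime he2 he1
  -- products
  have hmul : ∀ x y : ↥(K h2'), x * y = y * x ∨ x * y = e * (y * x) := by
    rintro ⟨_, σ, hσ, c, hc, hf, hs, rfl⟩ ⟨_, τ, hτ, d, hd, hf', hs', rfl⟩
    rcases mul_cases h2' (mem_fix.mpr ⟨hσ, hf⟩) (mem_fix.mpr ⟨hτ, hf'⟩) hc hd hs hs' with h | h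
    · left; exact Subtype.ext h
    · right
      apply Subtype.ext
      show mono σ hσ c hc * mono τ hτ d hd = (e : ↥Co0) * (mono τ hτ d hd * mono σ hσ c hc)
      rw [he]
      exact h
  apply Cfsg.Agent.Lib.Helper4.SympA.mk_extraspecial (IsPGroup.of_card hcard) hcardZ
  · intro x y
    rcases hmul x y with h | h
    · rw [commutatorElement_eq_one_iff_mul_comm.mpr h]
      exact one_mem _
    · have hxy : x * y * x⁻¹ * y⁻¹ = e := by
        rw [h]
        group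
      rw [commutatorElement_def, hxy]
      exact hecen
  · intro x
    rw [pow_two]
    obtain ⟨_, σ, hσ, c, hc, hf, hs, rfl⟩ := x
    have hσ' : σ ∈ fix Oset := mem_fix.mpr ⟨hσ, hf⟩
    have hsq : mono σ hσ c hc * mono σ hσ c hc = 1 ∨
        mono σ hσ c hc * mono σ hσ c hc = eps Dset hD := by
      rw [mono_mul]
      rcases sd_cases h2' hσ' hc hs with h | h
      · left
        exact (mono_congr _ _ (sq_of_mem_fix hO hσ') h).trans mono_one
      · right
        exact mono_congr _ _ (sq_of_mem_fix hO hσ') h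
    rcases hsq with h | h
    · have : (⟨mono σ hσ c hc, ⟨σ, hσ, c, hc, hf, hs, rfl⟩⟩ : ↥(K h2')) *
          ⟨mono σ hσ c hc, ⟨σ, hσ, c, hc, hf, hs, rfl⟩⟩ = 1 := Subtype.ext h
      rw [this]
      exact one_mem _
    · have : (⟨mono σ hσ c hc, ⟨σ, hσ, c, hc, hf, hs, rfl⟩⟩ : ↥(K h2')) *
          ⟨mono σ hσ c hc, ⟨σ, hσ, c, hc, hf, hs, rfl⟩⟩ = e := Subtype.ext (h.trans he.symm)
      rw [this]
      exact hecen
  · -- non-abelian
    have hfix : 1 < Nat.card ↥(fix Oset) := by rw [card_fix hO]; norm_num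
    have : Finite ↥(fix Oset) := Nat.finite_of_card_ne_zero (by omega)
    have : Nontrivial ↥(fix Oset) := Finite.one_lt_card_iff_nontrivial.mp hfix
    obtain ⟨⟨σ, hσ⟩, hne⟩ := exists_ne (1 : ↥(fix Oset))
    have hne' : σ ≠ 1 := fun h => hne (Subtype.ext h)
    obtain ⟨d, hd, hsd, hmove⟩ := h3 σ hσ hne'
    refine ⟨⟨mono σ (mem_fix.mp hσ).1 ∅ empty_mem,
        ⟨σ, (mem_fix.mp hσ).1, ∅, empty_mem, (mem_fix.mp hσ).2, Finset.empty_subset _, rfl⟩⟩,
      ⟨mono 1 M24.one_mem d hd, ⟨1, M24.one_mem, d, hd, fun _ _ => rfl, hsd, rfl⟩⟩, ?_⟩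
    intro h
    have h' : mono σ (mem_fix.mp hσ).1 ∅ empty_mem * mono 1 M24.one_mem d hd =
        mono 1 M24.one_mem d hd * mono σ (mem_fix.mp hσ).1 ∅ empty_mem :=
      congrArg Subtype.val h
    rw [mono_mul, mono_mul] at h'
    have h'' := (mono_inj h').2
    rw [one_smul] at h''
    apply hmove
    ext p
    have hp := Finset.ext_iff.mp h'' p
    simp only [Finset.mem_symmDiff, Finset.notMem_empty] at hp
    tauto

end Cfsg.Agent.Lib.Helper69.CzK1XS
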