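import Mathlib
import Cfsg.Agent.Lib.Helper69.J1Stmt
import Cfsg.Agent.Lib.Helper11.SieveCheck
import Cfsg.Agent.Lib.Helper11.SieveFacts
import Cfsg.Agent.Lib.Helper17.Sylow

/-! Piece [SIEVE] of S4274: the orders `19 m`, `m ∣ 9240`, killed by helper11's generic sieve. -/

set_option autoImplicit false

namespace Cfsg.Agent.Lib.Helper69.J1Sieve

open Cfsg.Agent.Lib.Helper11.SieveCheck Cfsg.Agent.Lib.Helper11.SieveFacts
open Cfsg.Agent.Lib.Helper17.Sylow Cfsg.Agent.Lib.Helper69.J1Stmt

universe u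

theorem no_of_check (n : ℕ) (c : Cert) (h : check n c = true) (hs : n ∉ specials)
    (hnp : ¬ n.Prime) : NoSimple.{u} n := by
  intro G _ _ _ hcard
  have hG : ¬ IsMulCommutative G := not_comm_of_not_prime (by rw [hcard]; exact hnp)
  rcases check_sound h with h1 | h1
  · exact h1 (hcard ▸ alive_card hG)
  · exact hs h1

/-- the certificates -/
def cert (m : ℕ) : Cert :=
  if m = 2 then .two 2 1 19 1 else if m = 3 then .two 3 1 19 1 else if m = 4 then .two 2 2 19 1
  else if m = 5 then .two 5 1 19 1 else if m = 7 then .two 7 1 19 1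
  else if m = 8 then .two 2 3 19 1 else if m = 11 then .two 11 1 19 1
  else if m = 60 then .one 5 else if m = 231 then .one 11
  else if m = 308 then .one 7 else if m = 462 then .one 7 else if m = 616 then .one 7
  else if m = 924 then .one 7 else .one 19

theorem table : ∀ m ∈ Nat.divisors 9240, m ≠ 1 → m ≠ 9240 → m ≠ 120 → m ≠ 420 → m ≠ 840 →
    m ≠ 1848 → m ≠ 3080 → m ≠ 4620 →
    check (19 * m) (cert m) = true ∧ 19 * m ∉ specials := by
  decide +kernel

theorem main : Sieve.{u} := by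
  intro m hm h1 h2 h3 h4 h5 h6 h7 h8
  obtain ⟨hc, hs⟩ := table m (Nat.mem_divisors.mpr ⟨hm, by norm_num⟩) h1 h2 h3 h4 h5 h6 h7 h8
  exact no_of_check (19 * m) (cert m) hc hs (Nat.not_prime_mul (by norm_num) h1)

end Cfsg.Agent.Lib.Helper69.J1Sieve
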