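import Mathlib
import Cfsg.Agent.Lib.Helper44.MCentStmt
import Cfsg.Agent.Lib.Helper45.MinusInndiag

set_option autoImplicit false

/-! Piece [DS] of S2716: a similarity of the minus form all of whose entries lie in the image of
a subfield descends to a similarity over the subfield. -/

namespace Cfsg.Agent.Lib.Helper69.MCentDS

open Matrix Module QuadraticMap
open Cfsg.Agent.Lib.Helper45.OmegaAut Cfsg.Agent.Lib.Helper43.H90Fin
open Cfsg.Agent.Lib.Helper44.MFld0 Cfsg.Agent.Lib.Helper44.MFldStmt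
  Cfsg.Agent.Lib.Helper44.MCentStmt Cfsg.Agent.Lib.Helper44.NegPairs

universe u v

theorem minus_map' {F₀ : Type v} [Field F₀] {F : Type u} [Field F] (j : F₀ →+* F) (m : ℕ)
    (a₀ b₀ : F₀) (v : MI m → F₀) :
    Cfsg.quadFormMinus m F (j a₀) (j b₀) (fun i => j (v i)) =
      j (Cfsg.quadFormMinus m F₀ a₀ b₀ v) :=
  Cfsg.Agent.Lib.Helper45.MinusInndiag.minus_map j m a₀ b₀ v

theorem main : DescendSim.{u, v} := by
  intro F₀ _ _ F _ _ j m a₀ b₀ g hg
  choose M₀ hM₀ using hg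
  have hmap : (Matrix.of M₀).map j = ((g : GL (MI m) F) : Matrix (MI m) (MI m) F) := by
    ext i k
    exact hM₀ i k
  have hdet : IsUnit (Matrix.of M₀).det := by
    rw [isUnit_iff_ne_zero]
    intro h0
    have h1 : (((g : GL (MI m) F) : Matrix (MI m) (MI m) F)).det = 0 := by
      rw [← hmap]
      have := (RingHom.map_det j (Matrix.of M₀)).symm
      rw [RingHom.mapMatrix_apply] at this
      rw [this, h0, map_zero]
    have h2 : IsUnit (((g : GL (MI m) F) : Matrix (MI m) (MI m) F)).det :=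
      (Matrix.isUnit_iff_isUnit_det _).mp (g : GL (MI m) F).isUnit
    rw [h1] at h2
    exact not_isUnit_zero h2
  obtain ⟨c, hc⟩ := g.2
  have hmv : ∀ v : MI m → F₀,
      ((g : GL (MI m) F) : Matrix (MI m) (MI m) F) *ᵥ (fun i => j (v i)) =
        fun i => j ((Matrix.of M₀ *ᵥ v) i) := by
    intro v
    rw [← hmap]
    funext i
    exact (RingHom.map_mulVec j (Matrix.of M₀) v i).symm
  have hkey : ∀ v : MI m → F₀, j (Cfsg.quadFormMinus m F₀ a₀ b₀ (Matrix.of M₀ *ᵥ v)) =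
      (c : F) * j (Cfsg.quadFormMinus m F₀ a₀ b₀ v) := by
    intro v
    rw [← minus_map', ← hmv, hc, minus_map']
  have hv1 : Cfsg.quadFormMinus m F₀ a₀ b₀ (Pi.single (Sum.inr 0) 1) = 1 := by
    unfold Cfsg.quadFormMinus
    simp
  have hc0 : (c : F) = j (Cfsg.quadFormMinus m F₀ a₀ b₀
      (Matrix.of M₀ *ᵥ (Pi.single (Sum.inr 0) 1))) := by
    rw [hkey, hv1, map_one, mul_one]
  have hc0ne : Cfsg.quadFormMinus m F₀ a₀ b₀ (Matrix.of M₀ *ᵥ (Pi.single (Sum.inr 0) 1)) ≠ 0 := by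
    intro h0
    rw [h0, map_zero] at hc0
    exact c.ne_zero hc0
  refine ⟨⟨Matrix.GeneralLinearGroup.mk'' (Matrix.of M₀) hdet, ⟨Units.mk0 _ hc0ne, fun v => ?_⟩⟩, ?_⟩
  · apply j.injective
    rw [map_mul, Units.val_mk0, ← hc0]
    exact hkey v
  · exact hmap

end Cfsg.Agent.Lib.Helper69.MCentDS
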