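import Mathlib
import Cfsg.Agent.Lib.Helper17.ExcSimple
import Cfsg.Agent.Lib.Helper17.EvenInv
import Cfsg.Agent.Lib.Helper17.CentFix
import Cfsg.Agent.Lib.Helper69.FullExc
import Cfsg.Agent.S4466

/-!
No simple group of order `4212 = 2^2 * 3^4 * 13`.
-/

set_option autoImplicit false
set_option linter.style.haveILetI false

namespace Cfsg.Agent.Lib.Helper69.O4212

open Cfsg Subgroup MulAction
open Cfsg.Agent.Lib.CT.Orth Cfsg.Agent.Lib.CT.Wedderburn
open Cfsg.Agent.Lib.Helper17.ExcMain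
open Cfsg.Agent.Lib.Helper17.ExcCor Cfsg.Agent.Lib.Helper17.ExcSimple
open Cfsg.Agent.Lib.Helper17.Sylow Cfsg.Agent.Lib.Helper17.Sylow2
open Cfsg.Agent.Lib.Helper17.CentFix Cfsg.Agent.Lib.Helper17.Commuting
open Cfsg.Agent.Lib.Helper69.FullExc

universe u

theorem key13 : ∀ n ∈ Nat.divisors 324, n % 13 = 1 → n ≠ 1 → n = 27 := by
  decide +kernel

theorem keyr12 : ∀ r ∈ Nat.divisors 12, r = 1 ∨ r = 2 ∨ r = 3 ∨ r = 4 ∨ r = 6 ∨ r = 12 := by
  decide

theorem keyd : ∀ d ∈ Nat.divisors 4212, d ≠ 1 → ¬ 3 ∣ d →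
    d = 2 ∨ d = 4 ∨ d = 13 ∨ d = 26 ∨ d = 52 := by
  decide +kernel

/-- The character-theoretic part: `|N(P)| = 13 * 12`, `C(P) = P`. -/
theorem case_full {G : Type u} [Group G] [Finite G] [IsSimpleGroup G]
    (hG : ¬ IsMulCommutative G) (h : Nat.card G = 4212) (P : Sylow 13 G)
    (hP : Nat.card (P : Subgroup G) = 13)
    (hNc : Nat.card (normalizer ((P : Subgroup G) : Set G)) = 156)
    (hC : Nat.card (centralizer ((P : Subgroup G) : Set G)) = 13) : False := by
  classical
  haveI : Fintype G := Fintype.ofFinite G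
  have : Finite (IrrCharacter G) := finite_irrCharacter G
  haveI : Fintype (IrrCharacter G) := Fintype.ofFinite _
  have hp13 : Nat.Prime 13 := by norm_num
  have hCle := centralizer_le_of_card (P : Subgroup G) hp13 hP hC
  obtain ⟨c, hc, hc1, hcsq, hcdeg⟩ := full_exc (P : Subgroup G) hp13 hP hCle (by rw [hNc])
  obtain ⟨y, hyP, hy1⟩ := exists_mem_ne_one (P : Subgroup G) hp13 hP
  have hcolone : ∑ ψ : IrrCharacter G, (ψ : G → ℂ) 1 * (c ψ : ℂ) = 0 := by
    have h1 := second_orthogonality_sum_of_not_isConj (1 : G) y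
      (fun hcj => hy1 (isConj_one_right.mp hcj))
    rw [← h1]
    refine Finset.sum_congr rfl (fun ψ _ => ?_)
    rw [hc ψ y hyP hy1]
    simp
  have hcolZ : ∑ ψ : IrrCharacter G, (charDegree (ψ : G → ℂ) : ℤ) * c ψ = 0 := by
    have h2 : ((∑ ψ : IrrCharacter G, (charDegree (ψ : G → ℂ) : ℤ) * c ψ : ℤ) : ℂ) = 0 := by
      rw [← hcolone]
      push_cast
      refine Finset.sum_congr rfl (fun ψ _ => ?_)
      rw [deg_eq ψ]
    exact_mod_cast h2
  have hT1 : ((trivIrr G : IrrCharacter G) : G → ℂ) 1 = 1 := trivIrr_apply G 1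
  have hdegT : charDegree ((trivIrr G : IrrCharacter G) : G → ℂ) = 1 := by
    have h1 := deg_eq (trivIrr G)
    rw [hT1] at h1
    exact_mod_cast h1.symm
  -- a nontrivial character with `3 ∤ deg * c`
  obtain ⟨χ, hχT, hχ3⟩ : ∃ χ : IrrCharacter G, χ ≠ trivIrr G ∧
      ¬ (3 : ℤ) ∣ (charDegree (χ : G → ℂ) : ℤ) * c χ := by
    by_contra hno
    push Not at hno
    have h1 := Finset.add_sum_erase Finset.univ
      (fun ψ : IrrCharacter G => (charDegree (ψ : G → ℂ) : ℤ) * c ψ) (Finset.mem_univ (trivIrr G))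
    rw [hcolZ] at h1
    have h2 : (3 : ℤ) ∣ ∑ ψ ∈ Finset.univ.erase (trivIrr G),
        (charDegree (ψ : G → ℂ) : ℤ) * c ψ := by
      apply Finset.dvd_sum
      intro ψ hψ
      exact hno ψ (Finset.mem_erase.mp hψ).1
    simp only [hdegT, hc1] at h1
    obtain ⟨k, hk⟩ := h2
    rw [hk] at h1
    omega
  have hdvd : charDegree (χ : G → ℂ) ∣ 4212 :=
    h ▸ Cfsg.Agent.Lib.Helper80.Integrality.charDegree_dvd_card χ
  have hd1 : charDegree (χ : G → ℂ) ≠ 1 := charDegree_ne_one hG χ hχT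
  have hd3 : ¬ 3 ∣ charDegree (χ : G → ℂ) := by
    intro h3
    apply hχ3
    exact Dvd.dvd.mul_right (by exact_mod_cast h3) _
  have hc0 : c χ ≠ 0 := by
    intro h0
    apply hχ3
    rw [h0, mul_zero]
    exact dvd_zero _
  have hcle : c χ ^ 2 ≤ 12 := by
    have h2 : ∑ ψ ∈ ({trivIrr G, χ} : Finset (IrrCharacter G)), c ψ ^ 2
        ≤ ∑ ψ : IrrCharacter G, c ψ ^ 2 :=
      Finset.sum_le_sum_of_subset_of_nonneg (Finset.subset_univ _)
        (fun ψ _ _ => sq_nonneg (c ψ))
    rw [Finset.sum_pair (Ne.symm hχT), hcsq, hc1] at h2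
    push_cast at h2
    linarith
  have hcu : c χ ≤ 3 := by nlinarith
  have hcl : -3 ≤ c χ := by nlinarith
  obtain ⟨m, hm⟩ := hcdeg χ
  push_cast at hm
  have hd2 : charDegree (χ : G → ℂ) ≠ 2 :=
    Cfsg.Agent.S4466.deg_ne_two (fun hcomm => hG ⟨⟨hcomm⟩⟩) χ
      (Cfsg.Agent.Lib.Helper17.EvenInv.faithful_of_simple hG χ hχT)
  rcases keyd _ (Nat.mem_divisors.mpr ⟨hdvd, by norm_num⟩) hd1 hd3 with hd | hd | hd | hd | hd
  · exact hd2 hd
  all_goals
    rw [hd] at hm
    generalize c χ = cc at hm hc0 hcu hcl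
    interval_cases cc <;> omega

/-- No finite simple group has order 4212 = 2^2 * 3^4 * 13. -/
theorem no_simple {G : Type*} [Group G] [Finite G] [IsSimpleGroup G] : Nat.card G ≠ 4212 := by
  intro h
  have hG : ¬ IsMulCommutative G := not_comm_of_not_prime (by rw [h]; norm_num)
  have : Fact (Nat.Prime 13) := ⟨by norm_num⟩
  have : Fact (Nat.Prime 3) := ⟨by norm_num⟩
  have : Fact (Nat.Prime 2) := ⟨by norm_num⟩
  have h13 : 13 ∣ Nat.card G := by rw [h]; norm_num
  have hd : Nat.card (Sylow 13 G) ∣ 324 :=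
    card_sylow_dvd (k := 1) (h.trans (by norm_num)) (by norm_num)
  have hm := card_sylow_mod (G := G) 13
  have hne := card_sylow_ne_one hG h13
  obtain ⟨P⟩ : Nonempty (Sylow 13 G) := inferInstance
  have hP : Nat.card (P : Subgroup G) = 13 := by
    simpa using card_sylow_subgroup (k := 1) (m := 324) (h.trans (by norm_num)) (by norm_num) P
  have hNn := card_normalizer_mul_card_sylow P
  rw [h] at hNn
  have hidx : (normalizer ((P : Subgroup G) : Set G)).index = Nat.card (Sylow 13 G) :=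
    (P.card_eq_index_normalizer).symm
  obtain ⟨r, hr1, hr12, hCr, hC13⟩ := sylow_prime_centralizer hG P hP
  have hr := keyr12 r (Nat.mem_divisors.mpr ⟨hr12, by norm_num⟩)
  have hn := key13 _ (Nat.mem_divisors.mpr ⟨hd, by norm_num⟩) hm hne
  rw [hn] at hNn
  have hX : Nat.card (G ⧸ normalizer ((P : Subgroup G) : Set G)) = 27 := hidx.trans hn
  -- no involution in `C(P)`
  have h2C : ¬ 2 ∣ Nat.card (centralizer ((P : Subgroup G) : Set G)) := by
    intro h2
    obtain ⟨t, htC, ht⟩ :=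
      exists_mem_orderOf_eq_prime (centralizer ((P : Subgroup G) : Set G)) 2 h2
    obtain ⟨k, hk1, hk2, hk3⟩ := involution_fix_data hG P hP t ht htC
    rw [hidx, hn] at hk2 hk3
    omega
  -- no element of order three in `C(P)`
  have h3C : ¬ 3 ∣ Nat.card (centralizer ((P : Subgroup G) : Set G)) := by
    intro h3
    obtain ⟨u, huC, hu⟩ :=
      exists_mem_orderOf_eq_prime (centralizer ((P : Subgroup G) : Set G)) 3 h3
    have h1 := card_fixedBy_mod_of_mem_centralizer P hP u huC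
    have hu3 : u ^ (3 ^ 1) = 1 := by rw [pow_one, ← hu]; exact pow_orderOf_eq_one u
    have h2 := card_modEq_card_fixedBy
      (X := G ⧸ normalizer ((P : Subgroup G) : Set G)) u hu3
    have hu1 : u ≠ 1 := by
      rintro rfl
      rw [orderOf_one] at hu
      omega
    have h4 := card_fixedBy_lt_index _ (normalizer_sylow_ne_top hG h13 P) u hu1
    rw [hidx, hn] at h4
    rw [hX, Nat.ModEq] at h2
    omega
  have hr12' : r = 12 := by
    rcases hr with rfl | rfl | rfl | rfl | rfl | rfl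
    · exact absurd rfl hr1
    · exact absurd (by omega : 2 ∣ Nat.card (centralizer ((P : Subgroup G) : Set G))) h2C
    · exact absurd (by omega : 2 ∣ Nat.card (centralizer ((P : Subgroup G) : Set G))) h2C
    · exact absurd (by omega : 3 ∣ Nat.card (centralizer ((P : Subgroup G) : Set G))) h3C
    · exact absurd (by omega : 2 ∣ Nat.card (centralizer ((P : Subgroup G) : Set G))) h2C
    · rfl
  subst hr12'
  exact case_full hG h P hP (by omega) (by omega)

end Cfsg.Agent.Lib.Helper69.O4212
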