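import Mathlib
import Cfsg.Agent.Lib.Helper17.CentFix
import Cfsg.Agent.Lib.Helper17.FixCount
import Cfsg.Agent.Lib.Helper69.PairInv

/-!
Order `4320`, the case `|N(P)| = 20`, `|C(P)| = 10` for a Sylow `5`-subgroup `P`.
-/

set_option autoImplicit false

namespace Cfsg.Agent.Lib.Helper69.O4320b

open Subgroup MulAction
open Cfsg.Agent.Lib.Helper17.Sylow Cfsg.Agent.Lib.Helper17.Sylow2
open Cfsg.Agent.Lib.Helper17.CentFix Cfsg.Agent.Lib.Helper17.Commuting
open Cfsg.Agent.Lib.Helper17.FixCount Cfsg.Agent.Lib.Helper17.FixedPoints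
open Cfsg.Agent.Lib.Helper17.Classes Cfsg.Agent.Lib.Helper17.Embed
open Cfsg.Agent.Lib.Helper69.PairInv
open Nat

theorem keyidx : ∀ i ∈ Nat.divisors 4320, i % 5 = 1 → 10 ∣ 4320 / i → 2 * 4320 ∣ i ! →
    i = 16 ∨ i = 36 ∨ i = 216 := by
  decide +kernel

/-- A central element of order two cannot exist in a simple group of order `4320`. -/
theorem centralizer_ne_top {G : Type*} [Group G] [Finite G] [IsSimpleGroup G]
    (h : Nat.card G = 4320) (t : G) (ht : orderOf t = 2) :
    centralizer ({t} : Set G) ≠ ⊤ := by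
  intro htop
  have hcomm : ∀ g : G, g * t = t * g := fun g =>
    mem_centralizer_singleton_iff.mp (htop ▸ mem_top g)
  have hnorm : (zpowers t).Normal := by
    refine ⟨fun n hn g => ?_⟩
    obtain ⟨i, rfl⟩ := mem_zpowers_iff.mp hn
    have hc : Commute g (t ^ i) := Commute.zpow_right (hcomm g) i
    have h1 : g * t ^ i * g⁻¹ = t ^ i := by
      rw [hc.eq]
      group
    rw [h1]
    exact zpow_mem (mem_zpowers t) i
  rcases hnorm.eq_bot_or_eq_top with h0 | h0
  · have : t = 1 := by
      have h1 : t ∈ zpowers t := mem_zpowers t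
      rw [h0] at h1
      exact mem_bot.mp h1
    rw [this, orderOf_one] at ht
    omega
  · have h1 : Nat.card (zpowers t) = 2 := by rw [Nat.card_zpowers, ht]
    rw [h0, card_top, h] at h1
    omega

theorem case_ten {G : Type*} [Group G] [Finite G] [IsSimpleGroup G]
    (hG : ¬ IsMulCommutative G) (h : Nat.card G = 4320) (P : Sylow 5 G)
    (hP : Nat.card (P : Subgroup G) = 5) (hn : Nat.card (Sylow 5 G) = 216)
    (hNc : Nat.card (normalizer ((P : Subgroup G) : Set G)) = 20)
    (hC : Nat.card (centralizer ((P : Subgroup G) : Set G)) = 10) : False := by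
  have : Fact (Nat.Prime 5) := ⟨by norm_num⟩
  have : Fact (Nat.Prime 2) := ⟨by norm_num⟩
  obtain ⟨t, htC, ht⟩ := exists_mem_orderOf_eq_prime
    (centralizer ((P : Subgroup G) : Set G)) 2 (by rw [hC]; norm_num)
  have htt : t * t = 1 := by
    have := pow_orderOf_eq_one t
    rwa [ht, pow_two] at this
  have ht1 : t ≠ 1 := by
    rintro rfl
    rw [orderOf_one] at ht
    omega
  have hPC : (P : Subgroup G) ≤ centralizer ((P : Subgroup G) : Set G) :=
    le_centralizer_of_card_prime (P : Subgroup G) hP
  have hnotP : ∀ a : G, a * a = 1 → a ≠ 1 → a ∉ (P : Subgroup G) := by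
    intro a haa ha1 haP
    have h1 : orderOf a ∣ 5 := hP ▸ orderOf_dvd_card_of_mem haP
    have h2 : orderOf a ∣ 2 := orderOf_dvd_of_pow_eq_one (by rw [pow_two]; exact haa)
    have h3 : orderOf a ∣ Nat.gcd 5 2 := Nat.dvd_gcd h1 h2
    have h4 : orderOf a = 1 := Nat.dvd_one.mp (by simpa using h3)
    exact ha1 (orderOf_eq_one_iff.mp h4)
  -- the involution of `C(P)` is unique
  have huniq : ∀ a ∈ centralizer ((P : Subgroup G) : Set G), a * a = 1 → a ≠ 1 → a = t := by
    intro a haC haa ha1
    have hrel : (P : Subgroup G).relIndex (centralizer ((P : Subgroup G) : Set G)) = 2 := by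
      have := card_mul_relIndex hPC
      rw [hP, hC] at this
      omega
    have hmem := Subgroup.mul_mem_iff_of_index_two
      (H := (P : Subgroup G).subgroupOf (centralizer ((P : Subgroup G) : Set G))) hrel
      (a := (⟨a, haC⟩ : centralizer ((P : Subgroup G) : Set G)))
      (b := (⟨t, htC⟩ : centralizer ((P : Subgroup G) : Set G)))
    have haP : (⟨a, haC⟩ : centralizer ((P : Subgroup G) : Set G))
        ∉ (P : Subgroup G).subgroupOf (centralizer ((P : Subgroup G) : Set G)) := by
      rw [mem_subgroupOf]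
      exact hnotP a haa ha1
    have htP : (⟨t, htC⟩ : centralizer ((P : Subgroup G) : Set G))
        ∉ (P : Subgroup G).subgroupOf (centralizer ((P : Subgroup G) : Set G)) := by
      rw [mem_subgroupOf]
      exact hnotP t htt ht1
    have hatP : a * t ∈ (P : Subgroup G) := by
      have h1 := hmem.mpr (iff_of_false haP htP)
      rw [mem_subgroupOf] at h1
      exact h1
    have hcomm : t * (a * t) = (a * t) * t :=
      ((mem_centralizer_iff.mp htC) (a * t) hatP).symm
    have hsq : (a * t) * (a * t) = 1 := by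
      calc (a * t) * (a * t) = a * (t * (a * t)) := by group
        _ = a * ((a * t) * t) := by rw [hcomm]
        _ = (a * a) * (t * t) := by group
        _ = 1 := by rw [haa, htt, one_mul]
    by_contra hne
    have hat1 : a * t ≠ 1 := by
      intro h0
      apply hne
      have h1 : a = t⁻¹ := eq_inv_of_mul_eq_one_left h0
      have h2 : t = t⁻¹ := eq_inv_of_mul_eq_one_left htt
      rw [h1, ← h2]
    exact hnotP (a * t) hsq hat1 hatP
  -- a generator of `P`
  obtain ⟨y, hyP, hyo⟩ := exists_mem_orderOf_eq_prime (P : Subgroup G) 5 (by rw [hP])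
  have hy1 : y ≠ 1 := by
    rintro rfl
    rw [orderOf_one] at hyo
    omega
  have hzp : zpowers y = (P : Subgroup G) := (zpowers_eq_of_mem P hP y hyP hy1).2
  have hy5 : y ^ (5 ^ 1) = 1 := by
    rw [pow_one, ← hyo]
    exact pow_orderOf_eq_one y
  -- the index of `C(t)` is `1` modulo `5`
  have hfix1 : Nat.card (fixedBy (G ⧸ centralizer ({t} : Set G)) y) = 1 := by
    have hall : ∀ q : G ⧸ centralizer ({t} : Set G), y • q = q →
        q = ((1 : G) : G ⧸ centralizer ({t} : Set G)) := by
      intro q
      induction q using QuotientGroup.induction_on with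
      | H g =>
        intro hq
        have h1 : g⁻¹ * y * g ∈ centralizer ({t} : Set G) := (coset_fixed_iff _ y g).mp hq
        have h2 : g⁻¹ * y * g * t = t * (g⁻¹ * y * g) := mem_centralizer_singleton_iff.mp h1
        -- `g t g⁻¹` commutes with `y`
        have h3 : y * (g * t * g⁻¹) = (g * t * g⁻¹) * y := by
          have e1 : y * (g * t * g⁻¹) = g * (g⁻¹ * y * g * t) * g⁻¹ := by group
          have e2 : (g * t * g⁻¹) * y = g * (t * (g⁻¹ * y * g)) * g⁻¹ := by group
          rw [e1, e2, h2]
        have h4 : g * t * g⁻¹ ∈ centralizer ((P : Subgroup G) : Set G) := by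
          rw [mem_centralizer_iff]
          intro x hx
          have hx' : x ∈ zpowers y := by rw [hzp]; exact hx
          obtain ⟨i, rfl⟩ := mem_zpowers_iff.mp hx'
          exact (Commute.zpow_left (show Commute y (g * t * g⁻¹) from h3) i).eq
        have h5 : (g * t * g⁻¹) * (g * t * g⁻¹) = 1 := by
          have e1 : (g * t * g⁻¹) * (g * t * g⁻¹) = g * (t * t) * g⁻¹ := by group
          rw [e1, htt]
          group
        have h6 : g * t * g⁻¹ ≠ 1 := by
          intro h0
          apply ht1
          have e1 : t = g⁻¹ * (g * t * g⁻¹) * g := by group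
          rw [e1, h0]
          group
        have h7 : g * t * g⁻¹ = t := huniq _ h4 h5 h6
        rw [eq_comm, QuotientGroup.eq, mem_centralizer_singleton_iff]
        have e1 : (1 : G)⁻¹ * g * t = (g * t * g⁻¹) * g := by group
        rw [e1, h7]
        group
    rw [Nat.card_eq_one_iff_unique]
    refine ⟨⟨?_⟩, ⟨⟨((1 : G) : G ⧸ centralizer ({t} : Set G)), ?_⟩⟩⟩
    · rintro ⟨q1, hq1⟩ ⟨q2, hq2⟩
      apply Subtype.ext
      show q1 = q2
      rw [hall q1 hq1, hall q2 hq2]
    · rw [mem_fixedBy, coset_fixed_iff, mem_centralizer_singleton_iff]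
      have h1 : y * t = t * y := (mem_centralizer_iff.mp htC) y hyP
      have e1 : (1 : G)⁻¹ * y * 1 * t = y * t := by group
      have e2 : t * ((1 : G)⁻¹ * y * 1) = t * y := by group
      rw [e1, e2, h1]
  have hmod := card_modEq_card_fixedBy (X := G ⧸ centralizer ({t} : Set G)) y hy5
  rw [hfix1, ← Subgroup.index_eq_card] at hmod
  have hidx5 : (centralizer ({t} : Set G)).index % 5 = 1 := hmod
  have hCt := (centralizer ({t} : Set G)).card_mul_index
  rw [h] at hCt
  have hPt : (P : Subgroup G) ≤ centralizer ({t} : Set G) := by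
    intro x hx
    rw [mem_centralizer_singleton_iff]
    exact (mem_centralizer_iff.mp htC) x hx
  have h5 : 5 ∣ Nat.card (centralizer ({t} : Set G)) := hP ▸ Subgroup.card_dvd_of_le hPt
  have h2 : 2 ∣ Nat.card (centralizer ({t} : Set G)) :=
    ht ▸ orderOf_dvd_card_of_mem (mem_centralizer_self t)
  have h10 : 10 ∣ Nat.card (centralizer ({t} : Set G)) :=
    Nat.Coprime.mul_dvd_of_dvd_of_dvd (by norm_num : Nat.Coprime 2 5) h2 h5
  have hfac := two_mul_card_dvd_factorial hG (centralizer ({t} : Set G))
    (centralizer_ne_top h t ht)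
  rw [h] at hfac
  have hidxd : (centralizer ({t} : Set G)).index ∈ Nat.divisors 4320 :=
    Nat.mem_divisors.mpr ⟨Dvd.intro_left _ hCt, by norm_num⟩
  have hidxpos : 0 < (centralizer ({t} : Set G)).index := by
    rcases Nat.eq_zero_or_pos (centralizer ({t} : Set G)).index with h0 | h0
    · rw [h0] at hCt; omega
    · exact h0
  have hquot : 4320 / (centralizer ({t} : Set G)).index = Nat.card (centralizer ({t} : Set G)) := by
    rw [← hCt]
    exact Nat.mul_div_cancel _ hidxpos
  have hcases := keyidx _ hidxd hidx5 (by rw [hquot]; exact h10) hfac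
  -- fixed points of `t` on the cosets of `N(P)`
  obtain ⟨k, hf5, hf4, hflt⟩ := involution_fix_data hG P hP t ht htC
  have hidx : (normalizer ((P : Subgroup G) : Set G)).index = Nat.card (Sylow 5 G) :=
    (P.card_eq_index_normalizer).symm
  rw [hidx, hn] at hf4 hflt
  have hff := card_mul_card_fixedBy (normalizer ((P : Subgroup G) : Set G)) t
  rw [hNc] at hff
  -- the conjugates of `t` in `N(P)` are at most `15`
  have hK : {s : G | s ∈ normalizer ((P : Subgroup G) : Set G) ∧ ∃ g : G, g * t * g⁻¹ = s}.ncard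
      ≤ 15 := by
    have hsub : {s : G | s ∈ normalizer ((P : Subgroup G) : Set G) ∧ ∃ g : G, g * t * g⁻¹ = s}
        ⊆ ((normalizer ((P : Subgroup G) : Set G) : Subgroup G) : Set G) \ ((P : Subgroup G) : Set G) := by
      rintro s ⟨hsN, g, rfl⟩
      refine ⟨hsN, ?_⟩
      apply hnotP
      · have e1 : (g * t * g⁻¹) * (g * t * g⁻¹) = g * (t * t) * g⁻¹ := by group
        rw [e1, htt]
        group
      · intro h0
        apply ht1
        have e1 : t = g⁻¹ * (g * t * g⁻¹) * g := by group
        rw [e1, h0]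
        group
    have h1 := Set.ncard_le_ncard hsub (Set.toFinite _)
    have h2 : (((normalizer ((P : Subgroup G) : Set G) : Subgroup G) : Set G)
        \ ((P : Subgroup G) : Set G)).ncard = 20 - 5 := by
      rw [Set.ncard_sdiff (fun x hx => le_normalizer hx) (Set.toFinite _)]
      have e1 : ((normalizer ((P : Subgroup G) : Set G) : Subgroup G) : Set G).ncard = 20 :=
        (_root_.Nat.card_coe_set_eq _).symm.trans hNc
      have e2 : ((P : Subgroup G) : Set G).ncard = 5 :=
        (_root_.Nat.card_coe_set_eq _).symm.trans hP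
      rw [e1, e2]
    omega
  -- only `|C(t)| = 120` with six conjugates of `t` in `N(P)` survives
  have hsix : Nat.card (centralizer ({t} : Set G)) = 120 ∧
      {s : G | s ∈ normalizer ((P : Subgroup G) : Set G) ∧ ∃ g : G, g * t * g⁻¹ = s}.ncard = 6 := by
    rcases hcases with hi | hi | hi
    · rw [hi] at hCt
      have hc : Nat.card (centralizer ({t} : Set G)) = 270 := by omega
      rw [hc] at hff
      omega
    · rw [hi] at hCt
      have hc : Nat.card (centralizer ({t} : Set G)) = 120 := by omega
      rw [hc] at hff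
      exact ⟨hc, by omega⟩
    · rw [hi] at hCt
      have hc : Nat.card (centralizer ({t} : Set G)) = 20 := by omega
      rw [hc] at hff
      omega
  obtain ⟨hc120, hK6⟩ := hsix
  obtain ⟨a, ⟨haN, g, hga⟩, hat⟩ := Set.exists_ne_of_one_lt_ncard (by rw [hK6]; norm_num) t
  have haa : a * a = 1 := by
    rw [← hga]
    have e1 : (g * t * g⁻¹) * (g * t * g⁻¹) = g * (t * t) * g⁻¹ := by group
    rw [e1, htt]
    group
  have ha1 : a ≠ 1 := by
    intro h0
    apply ht1
    have e1 : t = g⁻¹ * (g * t * g⁻¹) * g := by group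
    rw [e1, hga, h0]
    group
  have haC : a ∉ centralizer ((P : Subgroup G) : Set G) := fun hac => hat (huniq a hac haa ha1)
  have hpc := pair_count P hP a haa haN haC
  rw [hn] at hpc
  have hta : IsConj t a := isConj_iff.mpr ⟨g, hga⟩
  have hcl : Nat.card {x : G // IsConj a x} = Nat.card {x : G // IsConj t x} :=
    Nat.card_congr (Equiv.subtypeEquivRight
      (fun x => ⟨fun h1 => hta.trans h1, fun h1 => hta.symm.trans h1⟩))
  have hcc := card_conj_mul_card_centralizer t
  rw [hc120, h] at hcc
  have h36 : Nat.card {x : G // IsConj t x} = 36 := by omega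
  rw [hcl, h36] at hpc
  norm_num at hpc

end Cfsg.Agent.Lib.Helper69.O4320b
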