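import Mathlib
import Cfsg.Agent.Lib.Helper17.CentFix
import Cfsg.Agent.Lib.Helper17.FixedPoints
import Cfsg.Agent.Lib.Helper17.FixCount

/-!
No simple group of order `4680 = 2^3 * 3^2 * 5 * 13`.
-/

set_option autoImplicit false

namespace Cfsg.Agent.Lib.Helper69.O4680

open Subgroup MulAction
open Cfsg.Agent.Lib.Helper17.Sylow Cfsg.Agent.Lib.Helper17.Sylow2
open Cfsg.Agent.Lib.Helper17.CentFix Cfsg.Agent.Lib.Helper17.Commuting
open Cfsg.Agent.Lib.Helper17.FixCount Cfsg.Agent.Lib.Helper17.FixedPoints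

theorem key13 : ∀ n ∈ Nat.divisors 360, n % 13 = 1 → n ≠ 1 → n = 40 := by
  decide +kernel

theorem key5 : ∀ n ∈ Nat.divisors 936, n % 5 = 1 → n ≠ 1 →
    n = 6 ∨ n = 26 ∨ n = 36 ∨ n = 156 ∨ n = 936 := by
  decide +kernel

theorem keyr12 : ∀ r ∈ Nat.divisors 12, r = 1 ∨ r = 2 ∨ r = 3 ∨ r = 4 ∨ r = 6 ∨ r = 12 := by
  decide

theorem keyr4 : ∀ r ∈ Nat.divisors 4, r = 1 ∨ r = 2 ∨ r = 4 := by
  decide

theorem keyF : ∀ F < 156, F % 5 = 1 → F % 3 = 0 →
    (30 * F ∣ 4680 → F = 6) ∧ (15 * F ∣ 4680 → F = 6) := by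
  decide +kernel

theorem orderOf_conj_inv {G : Type*} [Group G] (g x : G) :
    orderOf (g⁻¹ * x * g) = orderOf x := by
  have h : g⁻¹ * x * g = MulAut.conj g⁻¹ x := by simp
  rw [h, MulEquiv.orderOf_eq]

/-- No subgroup of order `180` when an element of order `3` commutes with one of order `13`. -/
theorem no_sub180 {G : Type*} [Group G] [Finite G] [IsSimpleGroup G] (h : Nat.card G = 4680)
    (u x : G) (hu : orderOf u = 3) (hx : orderOf x = 13) (hc : Commute u x)
    (H : Subgroup G) (hH : Nat.card H = 180) : False := by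
  have : Fact (Nat.Prime 3) := ⟨by norm_num⟩
  have : Fact (Nat.Prime 13) := ⟨by norm_num⟩
  have hidx : H.index = 26 := by
    have := H.card_mul_index
    rw [hH, h] at this
    omega
  have hHtop : H ≠ ⊤ := by
    rintro rfl
    rw [Subgroup.index_top] at hidx
    omega
  have hu1 : u ≠ 1 := by
    rintro rfl
    rw [orderOf_one] at hu
    omega
  have hu3 : u ^ (3 ^ 1) = 1 := by rw [pow_one, ← hu]; exact pow_orderOf_eq_one u
  have hx13 : x ^ (13 ^ 1) = 1 := by rw [pow_one, ← hx]; exact pow_orderOf_eq_one x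
  have h2 := card_modEq_card_fixedBy (X := G ⧸ H) u hu3
  have h1 := card_fixedBy_modEq_of_commute (X := G ⧸ H) u x hc hx13
  have h3 := card_fixedBy_lt_index H hHtop u hu1
  have hX : Nat.card (G ⧸ H) = 26 := hidx
  have hempty : Nat.card {z : G ⧸ H // u • z = z ∧ x • z = z} = 0 := by
    rw [Nat.card_eq_zero]
    left
    constructor
    rintro ⟨z, -, hz⟩
    induction z using QuotientGroup.induction_on with
    | H g =>
      rw [coset_fixed_iff] at hz
      have hd := orderOf_dvd_card_of_mem hz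
      rw [orderOf_conj_inv, hx, hH] at hd
      omega
  rw [hempty] at h1
  rw [hX] at h2
  rw [hidx] at h3
  unfold Nat.ModEq at h1 h2
  omega

/-- At most three solutions of `s ^ 3 = 1` in a centralizer of order `15` of a subgroup of
order `5`. -/
theorem card_cube_le {G : Type*} [Group G] [Finite G] (Q : Subgroup G) (hQ : Nat.card Q = 5)
    (hC : Nat.card (centralizer (Q : Set G)) = 15) :
    {s : G | s ∈ centralizer (Q : Set G) ∧ s ^ 3 = 1}.ncard ≤ 3 := by
  have : Fact (Nat.Prime 5) := ⟨by norm_num⟩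
  have hle : Q ≤ centralizer (Q : Set G) := le_centralizer_of_card_prime Q hQ
  set T : Set G := {s : G | s ∈ centralizer (Q : Set G) ∧ s ^ 3 = 1} with hT
  let f : ↥T × ↥Q → ↥(centralizer (Q : Set G)) := fun a =>
    ⟨(a.1 : G) * (a.2 : G), mul_mem a.1.2.1 (hle a.2.2)⟩
  have hf : Function.Injective f := by
    rintro ⟨⟨s, hs, hs3⟩, ⟨y, hy⟩⟩ ⟨⟨s', hs', hs3'⟩, ⟨y', hy'⟩⟩ hab
    have hab' : s * y = s' * y' := congrArg Subtype.val hab
    have hz : s'⁻¹ * s = y' * y⁻¹ := by
      rw [inv_mul_eq_iff_eq_mul, ← mul_assoc, ← hab']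
      group
    have hzQ : s'⁻¹ * s ∈ Q := by
      rw [hz]
      exact Q.mul_mem hy' (Q.inv_mem hy)
    have hcomm : Commute s' (s'⁻¹ * s) := ((mem_centralizer_iff.mp hs') _ hzQ).symm
    have h3 : (s'⁻¹ * s) ^ 3 = 1 := by
      have e : s = s' * (s'⁻¹ * s) := by group
      have e2 : s ^ 3 = s' ^ 3 * (s'⁻¹ * s) ^ 3 := by
        conv_lhs => rw [e]
        exact hcomm.mul_pow 3
      rw [hs3, hs3', one_mul] at e2
      exact e2.symm
    have ho3 : orderOf (s'⁻¹ * s) ∣ 3 := orderOf_dvd_of_pow_eq_one h3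
    have ho5 : orderOf (s'⁻¹ * s) ∣ 5 := by
      have := orderOf_dvd_card_of_mem hzQ
      rwa [hQ] at this
    have ho1 : orderOf (s'⁻¹ * s) = 1 := by
      have := Nat.dvd_gcd ho3 ho5
      exact Nat.dvd_one.mp this
    have hss : s = s' := by
      have := orderOf_eq_one_iff.mp ho1
      exact (inv_mul_eq_one.mp this).symm
    subst hss
    have hyy : y = y' := mul_left_cancel hab'
    subst hyy
    rfl
  have h1 := Nat.card_le_card_of_injective f hf
  rw [Nat.card_prod, hQ, hC, _root_.Nat.card_coe_set_eq] at h1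
  omega

/-- Conjugates of `v` in `N(Q)`: at most two, and if two then `v⁻¹` is one. -/
theorem conj_count {G : Type*} [Group G] [Finite G] (Q : Subgroup G) (hQ : Nat.card Q = 5)
    (hC : Nat.card (centralizer (Q : Set G)) = 15)
    (hN : Nat.card (normalizer (Q : Set G)) = 30) (v : G) (hv : orderOf v = 3)
    (hvC : v ∈ centralizer (Q : Set G)) :
    {s : G | s ∈ normalizer (Q : Set G) ∧ ∃ g : G, g * v * g⁻¹ = s}.ncard ≤ 2 ∧
    ({s : G | s ∈ normalizer (Q : Set G) ∧ ∃ g : G, g * v * g⁻¹ = s}.ncard = 2 →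
      ∃ g : G, g * v * g⁻¹ = v⁻¹) := by
  have hT := card_cube_le Q hQ hC
  set T : Set G := {s : G | s ∈ centralizer (Q : Set G) ∧ s ^ 3 = 1} with hTdef
  set S : Set G := {s : G | s ∈ normalizer (Q : Set G) ∧ ∃ g : G, g * v * g⁻¹ = s} with hSdef
  have hv3 : v ^ 3 = 1 := by rw [← hv]; exact pow_orderOf_eq_one v
  have hv1 : v ≠ 1 := by
    rintro rfl
    rw [orderOf_one] at hv
    omega
  have hCN : centralizer (Q : Set G) ≤ normalizer (Q : Set G) :=
    Subgroup.centralizer_le_normalizer (s := (Q : Set G))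
  have hrel : (centralizer (Q : Set G)).relIndex (normalizer (Q : Set G)) = 2 := by
    have := card_mul_relIndex hCN
    rw [hC, hN] at this
    omega
  have hST : ∀ s ∈ S, s ∈ T ∧ s ≠ 1 := by
    rintro s ⟨hsN, g, rfl⟩
    have h3 : (g * v * g⁻¹) ^ 3 = 1 := by
      rw [conj_pow, hv3]
      group
    have hsq : (g * v * g⁻¹) ^ 2 ∈ centralizer (Q : Set G) := by
      have := Subgroup.sq_mem_of_index_two
        (H := (centralizer (Q : Set G)).subgroupOf (normalizer (Q : Set G))) hrel
        ⟨g * v * g⁻¹, hsN⟩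
      rwa [Subgroup.mem_subgroupOf] at this
    refine ⟨⟨?_, h3⟩, ?_⟩
    · have e : g * v * g⁻¹ = ((g * v * g⁻¹) ^ 2) ^ 2 := by
        rw [← pow_mul]
        have : (g * v * g⁻¹) ^ (2 * 2) = (g * v * g⁻¹) ^ 3 * (g * v * g⁻¹) := by
          rw [← pow_succ]
        rw [this, h3, one_mul]
      rw [e]
      exact pow_mem hsq 2
    · intro h1
      apply hv1
      have e : v = g⁻¹ * (g * v * g⁻¹) * g := by group
      rw [e, h1]
      group
  have hTfin : T.Finite := Set.toFinite T
  have h1T : (1 : G) ∈ T := ⟨one_mem _, one_pow 3⟩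
  have h1S : (1 : G) ∉ S := fun h => (hST 1 h).2 rfl
  have hins : insert (1 : G) S ⊆ T := by
    intro s hs
    rcases Set.mem_insert_iff.mp hs with rfl | hs
    · exact h1T
    · exact (hST s hs).1
  have hcard1 : (insert (1 : G) S).ncard = S.ncard + 1 :=
    Set.ncard_insert_of_notMem h1S (Set.toFinite S)
  have hle1 := Set.ncard_le_ncard hins hTfin
  refine ⟨by omega, ?_⟩
  intro hS2
  by_contra hno
  have hvinv : v⁻¹ ∉ insert (1 : G) S := by
    intro h
    rcases Set.mem_insert_iff.mp h with h | h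
    · exact hv1 (inv_eq_one.mp h)
    · exact hno h.2
  have hvinvT : v⁻¹ ∈ T := by
    refine ⟨inv_mem hvC, ?_⟩
    rw [inv_pow, hv3, inv_one]
  have hins2 : insert v⁻¹ (insert (1 : G) S) ⊆ T := by
    intro s hs
    rcases Set.mem_insert_iff.mp hs with rfl | hs
    · exact hvinvT
    · exact hins hs
  have hcard2 : (insert v⁻¹ (insert (1 : G) S)).ncard = (insert (1 : G) S).ncard + 1 :=
    Set.ncard_insert_of_notMem hvinv (Set.toFinite _)
  have hle2 := Set.ncard_le_ncard hins2 hTfin
  omega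

/-- If `v` of order `3` is conjugate to its inverse, `N(⟨v⟩)` has twice the order of `C(v)`. -/
theorem card_normalizer_zpowers {G : Type*} [Group G] [Finite G] (v g : G) (hv : orderOf v = 3)
    (hg : g * v * g⁻¹ = v⁻¹) :
    Nat.card (normalizer ((zpowers v : Subgroup G) : Set G))
      = Nat.card (centralizer ({v} : Set G)) * 2 := by
  have hv3 : v ^ 3 = 1 := by rw [← hv]; exact pow_orderOf_eq_one v
  have hv1 : v ≠ 1 := by
    rintro rfl
    rw [orderOf_one] at hv
    omega
  have hcent : centralizer ({v} : Set G) = centralizer ((zpowers v : Subgroup G) : Set G) := by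
    ext a
    rw [mem_centralizer_iff, mem_centralizer_iff]
    constructor
    · intro h y hy
      obtain ⟨n, rfl⟩ := Subgroup.mem_zpowers_iff.mp hy
      have hc : Commute v a := h v rfl
      exact (hc.zpow_left n).eq
    · intro h y hy
      rw [Set.mem_singleton_iff.mp hy]
      exact h v (mem_zpowers v)
  have hCN : centralizer ((zpowers v : Subgroup G) : Set G)
      ≤ normalizer ((zpowers v : Subgroup G) : Set G) :=
    Subgroup.centralizer_le_normalizer (s := ((zpowers v : Subgroup G) : Set G))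
  have h1 := card_mul_relIndex hCN
  have h2 := relIndex_centralizer_normalizer_dvd (zpowers v : Subgroup G)
  have hcyc : IsCyclic (zpowers v : Subgroup G) := inferInstance
  have hcardZ : Nat.card (zpowers v : Subgroup G) = 3 := by rw [Nat.card_zpowers, hv]
  rw [hcyc.card_mulAut, hcardZ, Nat.totient_prime (by norm_num : Nat.Prime 3)] at h2
  have hgi : g⁻¹ * v * g = v⁻¹ := by
    have e : v = g⁻¹ * v⁻¹ * g := by
      rw [← hg]
      group
    have e2 : v⁻¹ = (g⁻¹ * v⁻¹ * g)⁻¹ := by rw [← e]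
    rw [e2]
    group
  have hgN : g ∈ normalizer ((zpowers v : Subgroup G) : Set G) := by
    rw [mem_normalizer_iff]
    intro y
    constructor
    · intro hy
      obtain ⟨n, rfl⟩ := Subgroup.mem_zpowers_iff.mp hy
      have e : g * v ^ n * g⁻¹ = (g * v * g⁻¹) ^ n := by
        rw [conj_zpow]
      rw [e, hg]
      exact zpow_mem (inv_mem (mem_zpowers v)) n
    · intro hy
      obtain ⟨n, hn⟩ := Subgroup.mem_zpowers_iff.mp hy
      have e : y = (g⁻¹ * v * g) ^ n := by
        have e1 : (g⁻¹ * v * g) ^ n = g⁻¹ * v ^ n * g := by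
          have := conj_zpow (a := g⁻¹) (b := v) (i := n)
          rw [inv_inv] at this
          exact this
        rw [e1, hn]
        group
      rw [e, hgi]
      exact zpow_mem (inv_mem (mem_zpowers v)) n
  have hgC : g ∉ centralizer ((zpowers v : Subgroup G) : Set G) := by
    intro hgC
    have h3 := (mem_centralizer_iff.mp hgC) v (mem_zpowers v)
    have h4 : g * v * g⁻¹ = v := by
      rw [← h3]
      group
    rw [hg] at h4
    have h5 : v ^ 2 = 1 := by
      rw [pow_two]
      nth_rewrite 1 [← h4]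
      exact inv_mul_cancel v
    have h6 : v = v ^ 3 * (v ^ 2)⁻¹ := by group
    rw [hv3, h5] at h6
    exact hv1 (by rw [h6]; group)
  have hne1 : (centralizer ((zpowers v : Subgroup G) : Set G)).relIndex
      (normalizer ((zpowers v : Subgroup G) : Set G)) ≠ 1 := by
    intro h
    exact hgC (Subgroup.relIndex_eq_one.mp h hgN)
  have hrel : (centralizer ((zpowers v : Subgroup G) : Set G)).relIndex
      (normalizer ((zpowers v : Subgroup G) : Set G)) = 2 := by
    rcases (Nat.dvd_prime Nat.prime_two).mp h2 with h | h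
    · exact absurd h hne1
    · exact h
  rw [hrel] at h1
  rw [hcent, h1]

/-- No finite simple group has order 4680 = 2^3 * 3^2 * 5 * 13. -/
theorem no_simple {G : Type*} [Group G] [Finite G] [IsSimpleGroup G] : Nat.card G ≠ 4680 := by
  intro h
  have hG : ¬ IsMulCommutative G := not_comm_of_not_prime (by rw [h]; norm_num)
  have : Fact (Nat.Prime 13) := ⟨by norm_num⟩
  have : Fact (Nat.Prime 5) := ⟨by norm_num⟩
  have : Fact (Nat.Prime 3) := ⟨by norm_num⟩
  have h13 : 13 ∣ Nat.card G := by rw [h]; norm_num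
  have h5 : 5 ∣ Nat.card G := by rw [h]; norm_num
  -- Sylow 13
  have hd : Nat.card (Sylow 13 G) ∣ 360 :=
    card_sylow_dvd (k := 1) (h.trans (by norm_num)) (by norm_num)
  have hm := card_sylow_mod (G := G) 13
  have hne := card_sylow_ne_one hG h13
  obtain ⟨P⟩ : Nonempty (Sylow 13 G) := inferInstance
  have hP : Nat.card (P : Subgroup G) = 13 := by
    simpa using card_sylow_subgroup (k := 1) (m := 360) (h.trans (by norm_num)) (by norm_num) P
  have hNn := card_normalizer_mul_card_sylow P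
  rw [h] at hNn
  obtain ⟨r, hr1, hr12, hCr, hC13⟩ := sylow_prime_centralizer hG P hP
  have hr := keyr12 r (Nat.mem_divisors.mpr ⟨hr12, by norm_num⟩)
  have hn := key13 _ (Nat.mem_divisors.mpr ⟨hd, by norm_num⟩) hm hne
  rw [hn] at hNn
  have hC3 : 3 ∣ Nat.card (centralizer ((P : Subgroup G) : Set G)) := by
    rcases hr with rfl | rfl | rfl | rfl | rfl | rfl <;> omega
  obtain ⟨u, huC, hu⟩ :=
    exists_mem_orderOf_eq_prime (centralizer ((P : Subgroup G) : Set G)) 3 hC3
  obtain ⟨x, hxP, hx⟩ := exists_mem_orderOf_eq_prime (P : Subgroup G) 13 (by rw [hP])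
  have hcux : Commute u x := ((mem_centralizer_iff.mp huC) x hxP).symm
  have key : ∀ H : Subgroup G, Nat.card H = 180 → False := no_sub180 h u x hu hx hcux
  -- Sylow 5
  have hd5 : Nat.card (Sylow 5 G) ∣ 936 :=
    card_sylow_dvd (k := 1) (h.trans (by norm_num)) (by norm_num)
  have hm5 := card_sylow_mod (G := G) 5
  have hne5 := card_sylow_ne_one hG h5
  have hf5 := two_mul_card_dvd_factorial_card_sylow hG h5
  rw [h] at hf5
  obtain ⟨Q⟩ : Nonempty (Sylow 5 G) := inferInstance
  have hQ : Nat.card (Q : Subgroup G) = 5 := by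
    simpa using card_sylow_subgroup (k := 1) (m := 936) (h.trans (by norm_num)) (by norm_num) Q
  have hNn5 := card_normalizer_mul_card_sylow Q
  rw [h] at hNn5
  have hidx5 : (normalizer ((Q : Subgroup G) : Set G)).index = Nat.card (Sylow 5 G) :=
    (Q.card_eq_index_normalizer).symm
  obtain ⟨r5, hr51, hr54, hCr5, hC55⟩ := sylow_prime_centralizer hG Q hQ
  have hr5 := keyr4 r5 (Nat.mem_divisors.mpr ⟨hr54, by norm_num⟩)
  rcases key5 _ (Nat.mem_divisors.mpr ⟨hd5, by norm_num⟩) hm5 hne5 with
    hn5 | hn5 | hn5 | hn5 | hn5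
  · -- 6
    rw [hn5] at hf5
    exact absurd hf5 (by decide)
  · -- 26
    rw [hn5] at hNn5
    exact key (normalizer ((Q : Subgroup G) : Set G)) (by omega)
  · -- 36
    rw [hn5] at hNn5
    have hC13' : 13 ∣ Nat.card (centralizer ((Q : Subgroup G) : Set G)) := by
      rcases hr5 with rfl | rfl | rfl <;> omega
    obtain ⟨w, hwC, hw⟩ :=
      exists_mem_orderOf_eq_prime (centralizer ((Q : Subgroup G) : Set G)) 13 hC13'
    have h1 := card_fixedBy_mod_of_mem_centralizer Q hQ w hwC
    have hw13 : w ^ (13 ^ 1) = 1 := by rw [pow_one, ← hw]; exact pow_orderOf_eq_one w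
    have h2 := card_modEq_card_fixedBy
      (X := G ⧸ normalizer ((Q : Subgroup G) : Set G)) w hw13
    have hw1 : w ≠ 1 := by
      rintro rfl
      rw [orderOf_one] at hw
      omega
    have h3 := card_fixedBy_lt_index _ (normalizer_sylow_ne_top hG h5 Q) w hw1
    have hX : Nat.card (G ⧸ normalizer ((Q : Subgroup G) : Set G)) = 36 := hidx5.trans hn5
    rw [hidx5, hn5] at h3
    rw [hX, Nat.ModEq] at h2
    omega
  · -- 156
    rw [hn5] at hNn5
    have hr52 : r5 = 2 := by rcases hr5 with rfl | rfl | rfl <;> omega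
    subst hr52
    have hC15 : Nat.card (centralizer ((Q : Subgroup G) : Set G)) = 15 := by omega
    have hN30 : Nat.card (normalizer ((Q : Subgroup G) : Set G)) = 30 := by omega
    obtain ⟨v, hvC, hv⟩ := exists_mem_orderOf_eq_prime
      (centralizer ((Q : Subgroup G) : Set G)) 3 (by rw [hC15]; norm_num)
    have h1 := card_fixedBy_mod_of_mem_centralizer Q hQ v hvC
    have hv3 : v ^ (3 ^ 1) = 1 := by rw [pow_one, ← hv]; exact pow_orderOf_eq_one v
    have h2 := card_modEq_card_fixedBy
      (X := G ⧸ normalizer ((Q : Subgroup G) : Set G)) v hv3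
    have hv1 : v ≠ 1 := by
      rintro rfl
      rw [orderOf_one] at hv
      omega
    have h3 := card_fixedBy_lt_index _ (normalizer_sylow_ne_top hG h5 Q) v hv1
    have hX : Nat.card (G ⧸ normalizer ((Q : Subgroup G) : Set G)) = 156 := hidx5.trans hn5
    rw [hidx5, hn5] at h3
    rw [hX, Nat.ModEq] at h2
    have h4 := card_mul_card_fixedBy (normalizer ((Q : Subgroup G) : Set G)) v
    rw [hN30] at h4
    obtain ⟨hk2, hkinv⟩ := conj_count (Q : Subgroup G) hQ hC15 hN30 v hv hvC
    have hcvd : Nat.card (centralizer ({v} : Set G)) ∣ 4680 :=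
      h ▸ (centralizer ({v} : Set G)).card_subgroup_dvd_card
    have hFk := keyF _ h3 h1 (by omega)
    generalize hF : Nat.card (fixedBy (G ⧸ normalizer ((Q : Subgroup G) : Set G)) v) = F
      at h1 h2 h3 h4 hFk
    generalize hk : {s : G | s ∈ normalizer ((Q : Subgroup G) : Set G) ∧
      ∃ g : G, g * v * g⁻¹ = s}.ncard = k at h4 hk2 hkinv
    have hk0 : k ≠ 0 := by
      rintro rfl
      omega
    rcases (by omega : k = 1 ∨ k = 2) with hk1 | hk2'
    · rw [hk1, mul_one] at h4
      have hF6 : F = 6 := hFk.1 (by rw [h4]; exact hcvd)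
      exact key (centralizer ({v} : Set G)) (by omega)
    · rw [hk2'] at h4
      have hF6 : F = 6 := hFk.2 (by
        have e : 15 * F = Nat.card (centralizer ({v} : Set G)) := by omega
        rw [e]
        exact hcvd)
      obtain ⟨g, hg⟩ := hkinv hk2'
      have hN := card_normalizer_zpowers v g hv hg
      exact key (normalizer ((zpowers v : Subgroup G) : Set G)) (by omega)
  · -- 936
    rw [hn5] at hNn5
    rcases hr5 with rfl | rfl | rfl <;> omega

end Cfsg.Agent.Lib.Helper69.O4680
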