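import Mathlib
import Cfsg.Agent.Lib.Helper87.PCStmt

/-! Piece [HSTAR] of S5243: the last hypothesis of the saturation criterion for the system `D`
and the family of the `F`-centric subgroups `P` with `P ∩ T` centric in `E`. -/

set_option autoImplicit false

namespace Cfsg.Agent.Lib.Helper69.PCHSTAR

open Cfsg Cfsg.FusionSystem Cfsg.Agent.H85 Cfsg.Agent.Lib.Helper87.PCStmt

universe u

theorem main : HStar.{u} := by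
  intro Ω _ S T _ p _ F E K c hKF hFrat hcen hlast P hPD hPH
  have hPF : F.IsCentric P := hcen P hPD
  have hnE : ¬ E.IsCentric (P ⊓ T) := fun h => hPH ⟨hPF, h⟩
  obtain ⟨P', ⟨φ, hφ, hφr⟩, hP'⟩ := hKF P hPF hnE
  obtain ⟨α, hα, φ₀, hφ₀, hφα⟩ := hFrat P φ hφ
  have hφ₀S : ∀ x, φ₀ x ∈ S := (c.D.le_of_mem hφ₀).2
  refine ⟨φ₀.range, ⟨φ₀, hφ₀, rfl⟩, ?_⟩
  have hQS : φ₀.range ≤ S := by rintro _ ⟨x, rfl⟩; exact hφ₀S x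
  have hQcen : centralizerIn S φ₀.range ≤ φ₀.range := hPD.2 _ ⟨φ₀, hφ₀, rfl⟩
  apply hlast _ hQS hQcen
  intro hle
  apply hP'
  have hTS : T ≤ S := c.hTS
  obtain ⟨γ, -, hγ⟩ := exists_resT F c.hT hα
  obtain ⟨γ', -, hγ'⟩ := exists_resT F c.hT (Subgroup.inv_mem _ hα)
  have hαT : ∀ (t : Ω) (ht : t ∈ T), ((α ⟨t, hTS ht⟩ : S) : Ω) ∈ T := fun t ht => by
    rw [← hγ ⟨t, ht⟩]; exact (γ ⟨t, ht⟩).2
  have hαT' : ∀ (t : Ω) (ht : t ∈ T), ((α⁻¹ ⟨t, hTS ht⟩ : S) : Ω) ∈ T := fun t ht => by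
    rw [← hγ' ⟨t, ht⟩]; exact (γ' ⟨t, ht⟩).2
  have hP'mem : ∀ x : P, ((α ⟨φ₀ x, hφ₀S x⟩ : S) : Ω) ∈ P' := fun x => by
    rw [← hφr, ← hφα x (hφ₀S x)]; exact ⟨x, rfl⟩
  intro z hz
  obtain ⟨hzT, hzC⟩ := Subgroup.mem_inf.mp hz
  rw [Subgroup.mem_centralizer_iff] at hzC
  have hz'T := hαT' z hzT
  have hz'C : ((α⁻¹ ⟨z, hTS hzT⟩ : S) : Ω) ∈ centralizerIn T (φ₀.range ⊓ T) := by
    refine Subgroup.mem_inf.mpr ⟨hz'T, ?_⟩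
    rw [Subgroup.mem_centralizer_iff]
    intro y hy
    obtain ⟨hyQ, hyT⟩ := Subgroup.mem_inf.mp hy
    obtain ⟨x, rfl⟩ := hyQ
    have h1 : ((α ⟨φ₀ x, hφ₀S x⟩ : S) : Ω) ∈ P' ⊓ T :=
      Subgroup.mem_inf.mpr ⟨hP'mem x, hαT _ hyT⟩
    have h2 := hzC _ h1
    have h3 : α ⟨φ₀ x, hφ₀S x⟩ * ⟨z, hTS hzT⟩ = ⟨z, hTS hzT⟩ * α ⟨φ₀ x, hφ₀S x⟩ :=
      Subtype.ext h2
    have h4 := congrArg (fun s => ((α⁻¹ s : S) : Ω)) h3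
    simp only [map_mul, MulAut.inv_apply_self, Subgroup.coe_mul] at h4
    exact h4
  obtain ⟨hz'Q, -⟩ := Subgroup.mem_inf.mp (hle hz'C)
  obtain ⟨x, hx⟩ := hz'Q
  refine Subgroup.mem_inf.mpr ⟨?_, hzT⟩
  have e : (⟨φ₀ x, hφ₀S x⟩ : S) = α⁻¹ ⟨z, hTS hzT⟩ := Subtype.ext hx
  have h5 := hP'mem x
  rw [e, MulAut.apply_inv_self] at h5
  exact h5

end Cfsg.Agent.Lib.Helper69.PCHSTAR
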