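import Mathlib
import Cfsg.Agent.Lib.Helper16.SNStmt
import Cfsg.Agent.Lib.Helper17.Sylow

/-! Piece [N2] of S3641: Sylow 2-subgroups of a transitive group of degree 18 and order
`18 * 17 * d`, `d = 8, 16`, are self-normalizing, so there are 153 of them. -/

set_option autoImplicit false

namespace Cfsg.Agent.Lib.Helper69.SNN2

open MulAction Cfsg.Agent.Lib.Helper17.PPlusOneA Cfsg.Agent.Lib.Helper16.SNStmt

universe u

theorem main : N2.{u} := by
  intro α _ _ H d hS hd
  have : Fact (Nat.Prime 2) := ⟨Nat.prime_two⟩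
  have hd8 : 8 ≤ d := by rcases hd with h | h <;> omega
  obtain ⟨a, b, hab⟩ : ∃ a b : α, a ≠ b :=
    Fintype.exists_pair_of_one_lt_card (by rw [hS.hα]; norm_num)
  obtain ⟨K, hKdef⟩ : ∃ K : Subgroup ↥H, K = stabilizer ↥H a ⊓ stabilizer ↥H b := ⟨_, rfl⟩
  have hKcard : Nat.card K = d := by rw [hKdef]; exact hS.card_two_stabilizer a b hab
  have hKa : ∀ k ∈ K, k • a = a := fun k hk => by
    rw [hKdef] at hk; exact mem_stabilizer_iff.mp hk.1
  have hKb : ∀ k ∈ K, k • b = b := fun k hk => by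
    rw [hKdef] at hk; exact mem_stabilizer_iff.mp hk.2
  have hKp : IsPGroup 2 K := by
    rcases hd with h | h
    · exact IsPGroup.of_card (n := 3) (by rw [hKcard, h]; norm_num)
    · exact IsPGroup.of_card (n := 4) (by rw [hKcard, h]; norm_num)
  obtain ⟨S, hKS⟩ := hKp.exists_le_sylow
  have hScard : Nat.card (S : Subgroup ↥H) = 2 * d := by
    rcases hd with h | h
    · rw [Cfsg.Agent.Lib.Helper17.Sylow.card_sylow_subgroup (p := 2) (k := 4) (m := 153)
        (hS.hG.trans (by subst h; norm_num)) (by norm_num) S, h]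
      norm_num
    · rw [Cfsg.Agent.Lib.Helper17.Sylow.card_sylow_subgroup (p := 2) (k := 5) (m := 153)
        (hS.hG.trans (by subst h; norm_num)) (by norm_num) S, h]
      norm_num
  -- a point with a large stabilizer in `S` is `a` or `b`
  have claimA : ∀ x : α,
      d ≤ Nat.card ((S : Subgroup ↥H) ⊓ stabilizer ↥H x : Subgroup ↥H) → x = a ∨ x = b := by
    intro x hx
    by_contra hne
    rw [not_or] at hne
    have hinj : Function.Injective
        (fun p : ↥((S : Subgroup ↥H) ⊓ stabilizer ↥H x) × ↥K =>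
          (⟨(p.1 : ↥H) * (p.2 : ↥H), (S : Subgroup ↥H).mul_mem p.1.2.1 (hKS p.2.2)⟩ :
            ↥(S : Subgroup ↥H))) := by
      rintro ⟨u, v⟩ ⟨u', v'⟩ h
      have h' : (u : ↥H) * (v : ↥H) = (u' : ↥H) * (v' : ↥H) := congrArg Subtype.val h
      have e : (u' : ↥H)⁻¹ * (u : ↥H) = (v' : ↥H) * (v : ↥H)⁻¹ := by
        rw [inv_mul_eq_iff_eq_mul, ← mul_assoc, ← h', mul_assoc, mul_inv_cancel, mul_one]
      have hw : (u' : ↥H)⁻¹ * (u : ↥H) = 1 := by
        apply hS.eq_one_of_three _ a b x hab (Ne.symm hne.1) (Ne.symm hne.2)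
        · rw [e]; exact hKa _ (K.mul_mem v'.2 (K.inv_mem v.2))
        · rw [e]; exact hKb _ (K.mul_mem v'.2 (K.inv_mem v.2))
        · exact mem_stabilizer_iff.mp (Subgroup.mul_mem _ (Subgroup.inv_mem _ u'.2) u.2).2
      have hu : (u' : ↥H) = u := inv_mul_eq_one.mp hw
      have hv : (v : ↥H) = v' := by
        rw [hu] at h'
        exact mul_left_cancel h'
      exact Prod.ext (Subtype.ext hu.symm) (Subtype.ext hv)
    have hle := Nat.card_le_card_of_injective _ hinj
    rw [Nat.card_prod, hKcard, hScard] at hle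
    have h1 := Nat.mul_le_mul_right d hx
    have h2 := Nat.mul_le_mul_right d hd8
    nlinarith [h1, h2]
  obtain ⟨N, hNdef⟩ : ∃ N : Subgroup ↥H,
      N = Subgroup.normalizer ((S : Subgroup ↥H) : Set ↥H) := ⟨_, rfl⟩
  have hmove : ∀ g ∈ N, ∀ y : α, (∀ k ∈ K, k • y = y) → g • y = a ∨ g • y = b := by
    intro g hg y hy
    apply claimA
    rw [hNdef] at hg
    have hinj : Function.Injective (fun k : ↥K =>
        (⟨g * (k : ↥H) * g⁻¹, ⟨(Subgroup.mem_normalizer_iff.mp hg _).mp (hKS k.2),
            mem_stabilizer_iff.mpr (by rw [mul_smul, mul_smul, inv_smul_smul, hy _ k.2])⟩⟩ :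
          ↥((S : Subgroup ↥H) ⊓ stabilizer ↥H (g • y)))) := by
      intro k k' h
      have h' : g * (k : ↥H) * g⁻¹ = g * (k' : ↥H) * g⁻¹ := congrArg Subtype.val h
      exact Subtype.ext (mul_left_cancel (mul_right_cancel h'))
    have := Nat.card_le_card_of_injective _ hinj
    rwa [hKcard] at this
  have hSN : (S : Subgroup ↥H) ≤ N := by rw [hNdef]; exact Subgroup.le_normalizer
  have h1 : Nat.card (orbit ↥N a) * Nat.card (stabilizer ↥N a) = Nat.card ↥N := by
    rw [← Nat.card_prod]
    exact Nat.card_congr (MulAction.orbitProdStabilizerEquivGroup ↥N a)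
  have horb : Nat.card (orbit ↥N a) ≤ 2 := by
    have hsub : orbit ↥N a ⊆ ({a, b} : Set α) := by
      rintro _ ⟨g, rfl⟩
      rcases hmove (g : ↥H) g.2 a hKa with h | h
      · left; exact h
      · right; exact h
    calc Nat.card (orbit ↥N a) = (orbit ↥N a).ncard := Nat.card_coe_set_eq _
      _ ≤ ({a, b} : Set α).ncard := Set.ncard_le_ncard hsub (Set.toFinite _)
      _ = 2 := Set.ncard_pair hab
  have hstab : Nat.card (stabilizer ↥N a) ≤ d := by
    have hmem : ∀ g : stabilizer ↥N a, ((g : ↥N) : ↥H) ∈ K := by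
      intro g
      have hga : ((g : ↥N) : ↥H) • a = a := mem_stabilizer_iff.mp g.2
      rw [hKdef]
      refine ⟨mem_stabilizer_iff.mpr hga, mem_stabilizer_iff.mpr ?_⟩
      rcases hmove ((g : ↥N) : ↥H) (g : ↥N).2 b hKb with h | h
      · exfalso
        apply hab
        have : ((g : ↥N) : ↥H) • b = ((g : ↥N) : ↥H) • a := by rw [h, hga]
        exact (MulAction.injective _ this).symm
      · exact h
    have hinj : Function.Injective
        (fun g : stabilizer ↥N a => (⟨((g : ↥N) : ↥H), hmem g⟩ : ↥K)) := by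
      intro g g' h
      exact Subtype.ext (Subtype.ext (congrArg (fun z : ↥K => (z : ↥H)) h))
    have := Nat.card_le_card_of_injective _ hinj
    rwa [hKcard] at this
  have hNle : Nat.card ↥N ≤ 2 * d := by
    rw [← h1]
    exact Nat.mul_le_mul horb hstab
  have hNge : 2 * d ≤ Nat.card ↥N := by
    rw [← hScard]
    exact Nat.card_le_card_of_injective _ (Subgroup.inclusion_injective hSN)
  have hNcard : Nat.card ↥N = 2 * d := le_antisymm hNle hNge
  have hidx : Nat.card (Sylow 2 ↥H) * Nat.card ↥N = Nat.card ↥H := by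
    have e : Nat.card (Sylow 2 ↥H) = N.index := by
      rw [hNdef]
      exact Sylow.card_eq_index_normalizer S
    rw [e, mul_comm]
    exact Subgroup.card_mul_index N
  rw [hNcard, hS.hG] at hidx
  have h2 : Nat.card (Sylow 2 ↥H) * (2 * d) = 153 * (2 * d) := by rw [hidx]; ring
  exact Nat.eq_of_mul_eq_mul_right (by omega) h2

end Cfsg.Agent.Lib.Helper69.SNN2
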