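import Mathlib
import Cfsg.Agent.Lib.Helper16.SNStmt
import Cfsg.Agent.Lib.Helper17.Sylow

/-! Piece [N3] of S3641: a transitive group of degree 18 and order `18 * 17 * d`, `d = 8, 16`,
with an element of order 9 whose number of Sylow 3-subgroups divides 136 has exactly 136 of
them. -/

set_option autoImplicit false

namespace Cfsg.Agent.Lib.Helper69.SNN3

open MulAction Cfsg.Agent.Lib.Helper17.PPlusOneA Cfsg.Agent.Lib.Helper16.SNStmt

universe u

theorem arith : ∀ n ∈ Nat.divisors 136, n % 3 = 1 → ∀ t ∈ Nat.divisors 6,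
    ∀ c ∈ ({9, 18} : Finset ℕ), (n * (t * c) = 2448 ∨ n * (t * c) = 4896) → n = 136 := by
  decide

theorem main : N3.{u} := by
  rintro α _ _ H d hS hd ⟨g, hg⟩ hdvd
  have : Fact (Nat.Prime 3) := ⟨Nat.prime_three⟩
  -- the Sylow 3-subgroup
  have hZcard : Nat.card (Subgroup.zpowers g) = 9 := by rw [Nat.card_zpowers, hg]
  have hZp : IsPGroup 3 (Subgroup.zpowers g) :=
    IsPGroup.of_card (n := 2) (by rw [hZcard]; norm_num)
  obtain ⟨R, hZR⟩ := hZp.exists_le_sylow
  have hRcard : Nat.card (R : Subgroup ↥H) = 9 := by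
    rcases hd with h | h
    · rw [Cfsg.Agent.Lib.Helper17.Sylow.card_sylow_subgroup (p := 3) (k := 2) (m := 272)
        (hS.hG.trans (by subst h; norm_num)) (by norm_num) R]
      norm_num
    · rw [Cfsg.Agent.Lib.Helper17.Sylow.card_sylow_subgroup (p := 3) (k := 2) (m := 544)
        (hS.hG.trans (by subst h; norm_num)) (by norm_num) R]
      norm_num
  have hReq : (R : Subgroup ↥H) = Subgroup.zpowers g :=
    (Subgroup.eq_of_le_of_card_ge hZR (by rw [hRcard, hZcard])).symm
  have hcyc : IsCyclic ↥(R : Subgroup ↥H) := by rw [hReq]; infer_instance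
  have hgR : g ∈ (R : Subgroup ↥H) := hZR (Subgroup.mem_zpowers g)
  -- elements of order 9 fix no point
  have hfix : ∀ (h : ↥H) (x : α), h • x = x → orderOf h ∣ 17 * d := by
    intro h x hx
    have h1 := orderOf_dvd_natCard (⟨h, mem_stabilizer_iff.mpr hx⟩ : stabilizer ↥H x)
    rw [Subgroup.orderOf_mk, hS.card_stabilizer x] at h1
    exact h1
  have hg1 : ∀ x : α, g • x ≠ x := by
    intro x hx
    have h9 := hfix g x hx
    rw [hg] at h9
    rcases hd with h | h <;> · subst h; omega
  have hg2 : ∀ x : α, g • g • x ≠ x := by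
    intro x hx
    apply hg1 x
    have h2 : (g ^ 2) ∈ stabilizer ↥H x := by
      rw [mem_stabilizer_iff, pow_two, mul_smul]; exact hx
    have h10 : (g ^ 2) ^ 5 ∈ stabilizer ↥H x := Subgroup.pow_mem _ h2 5
    have e : (g ^ 2) ^ 5 = g := by
      rw [← pow_mul, show 2 * 5 = 9 + 1 from rfl, pow_succ, ← hg, pow_orderOf_eq_one, one_mul]
    rw [e] at h10
    exact mem_stabilizer_iff.mp h10
  -- the centralizer of `g` is semiregular
  have hsemi : ∀ c : ↥H, Commute c g → ∀ x : α, c • x = x → c = 1 := by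
    intro c hc x hx
    have h1 : c • (g • x) = g • x := by rw [← mul_smul, hc.eq, mul_smul, hx]
    have h2 : c • (g • g • x) = g • g • x := by rw [← mul_smul, hc.eq, mul_smul, h1]
    exact hS.eq_one_of_three c x (g • x) (g • g • x) (Ne.symm (hg1 x)) (Ne.symm (hg2 x))
      (Ne.symm (hg1 (g • x))) hx h1 h2
  obtain ⟨C, hCdef⟩ : ∃ C : Subgroup ↥H,
      C = Subgroup.centralizer ((R : Subgroup ↥H) : Set ↥H) := ⟨_, rfl⟩
  have hCg : ∀ c ∈ C, Commute c g := by
    intro c hc
    rw [hCdef, Subgroup.mem_centralizer_iff] at hc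
    exact (hc g hgR).symm
  have hCcard : Nat.card C ≤ 18 := by
    obtain ⟨a⟩ : Nonempty α := Fintype.card_pos_iff.mp (by rw [hS.hα]; norm_num)
    have hinj : Function.Injective (fun c : ↥C => (c : ↥H) • a) := by
      intro c c' h
      have h0 : (c : ↥H) • a = (c' : ↥H) • a := h
      have h' : ((c : ↥H)⁻¹ * (c' : ↥H)) • a = a := by
        rw [mul_smul, ← h0, inv_smul_smul]
      have := hsemi _ (hCg _ (C.mul_mem (C.inv_mem c.2) c'.2)) a h'
      exact Subtype.ext (inv_mul_eq_one.mp this)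
    have h3 := Nat.card_le_card_of_injective _ hinj
    have h4 : Nat.card α = 18 := by rw [Nat.card_eq_fintype_card, hS.hα]
    rwa [h4] at h3
  have hRC : (R : Subgroup ↥H) ≤ C := by
    intro x hx
    rw [hCdef, Subgroup.mem_centralizer_iff]
    intro y hy
    have hy' : y ∈ (R : Subgroup ↥H) := hy
    rw [hReq] at hx hy'
    obtain ⟨i, rfl⟩ := Subgroup.mem_zpowers_iff.mp hx
    obtain ⟨j, rfl⟩ := Subgroup.mem_zpowers_iff.mp hy'
    rw [← zpow_add, ← zpow_add, add_comm]
  have h9C : 9 ∣ Nat.card C := by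
    rw [← hRcard]
    exact Subgroup.card_dvd_of_le hRC
  have hCpos : 0 < Nat.card C := Nat.card_pos
  have hC918 : Nat.card C ∈ ({9, 18} : Finset ℕ) := by
    obtain ⟨k, hk⟩ := h9C
    have : k = 1 ∨ k = 2 := by omega
    rcases this with h | h
    · rw [hk, h]; decide
    · rw [hk, h]; decide
  -- the normalizer
  obtain ⟨N, hNdef⟩ : ∃ N : Subgroup ↥H,
      N = Subgroup.normalizer ((R : Subgroup ↥H) : Set ↥H) := ⟨_, rfl⟩
  have key := Subgroup.card_dvd_of_injective _
    (QuotientGroup.kerLift_injective (R : Subgroup ↥H).normalizerMonoidHom)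
  rw [Subgroup.normalizerMonoidHom_ker, ← Subgroup.index, ← Subgroup.relIndex,
    IsCyclic.card_mulAut, hRcard, ← hCdef, ← hNdef] at key
  have ht : C.relIndex N ∈ Nat.divisors 6 := by
    rw [Nat.mem_divisors]
    exact ⟨key.trans (by decide : Nat.totient 9 ∣ 6), by norm_num⟩
  have hCN : C ≤ N := by
    rw [hCdef, hNdef]
    exact Subgroup.centralizer_le_normalizer _
  have hNcard : Nat.card ↥N = C.relIndex N * Nat.card C := by
    have h1 := Subgroup.card_mul_index (C.subgroupOf N)
    rw [Nat.card_congr (Subgroup.subgroupOfEquivOfLe hCN).toEquiv] at h1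
    rw [Subgroup.relIndex, ← h1, mul_comm]
  have hidx : Nat.card (Sylow 3 ↥H) * Nat.card ↥N = Nat.card ↥H := by
    have e : Nat.card (Sylow 3 ↥H) = N.index := by
      rw [hNdef]
      exact Sylow.card_eq_index_normalizer R
    rw [e, mul_comm]
    exact Subgroup.card_mul_index N
  rw [hNcard, hS.hG] at hidx
  have hmod : Nat.card (Sylow 3 ↥H) % 3 = 1 := by
    have := card_sylow_modEq_one 3 ↥H
    exact this
  apply arith _ (Nat.mem_divisors.mpr ⟨hdvd, by norm_num⟩) hmod _ ht _ hC918
  rcases hd with h | h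
  · left; rw [hidx, h]
  · right; rw [hidx, h]

end Cfsg.Agent.Lib.Helper69.SNN3
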